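import Cfsg.Agent.Lib.SLThreeResidual.AltFacts

/-!
# Finite facts on automorphisms of the alternating group of degree six

An automorphism which does not preserve the three-cycles can be moved by an inner one to send
`u = (0 1 2)` and `v = (3 4 5)` to `U = u v` and `V = u v⁻¹`; it then fuses the two classes of
elements of order five.
-/

set_option autoImplicit false
set_option maxRecDepth 100000

namespace CfsgLib.SLThreeSubgroups.AltFinite

open Equiv Equiv.Perm
open CfsgLib.SLThreeResidual.Alt (u6 v6)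

/-- The element `u^i v^j` of the fixed Sylow three-subgroup. -/
def elt (a : Fin 3 × Fin 3) : alternatingGroup (Fin 6) := u6 ^ (a.1 : ℕ) * v6 ^ (a.2 : ℕ)

/-- An element of order four normalising the fixed Sylow three-subgroup. -/
def s6 : alternatingGroup (Fin 6) :=
  ⟨swap 0 3 * (swap 1 4 * (swap 4 2 * swap 2 5)), mem_alternatingGroup.2 (by decide +kernel)⟩

/-- The third generator. -/
def w6 : alternatingGroup (Fin 6) := ⟨swap 2 3 * swap 4 5, mem_alternatingGroup.2 (by decide +kernel)⟩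

/-- A possible image of the third generator. -/
def x6 : alternatingGroup (Fin 6) := ⟨swap 1 3 * swap 2 5, mem_alternatingGroup.2 (by decide +kernel)⟩

/-- A conjugating element. -/
def g6 : alternatingGroup (Fin 6) := ⟨swap 1 3 * swap 3 5, mem_alternatingGroup.2 (by decide +kernel)⟩

/-- An element carrying `u` to `v`. -/
def t36 : alternatingGroup (Fin 6) :=
  ⟨swap 0 3 * swap 1 4 * (swap 2 5 * swap 4 5), mem_alternatingGroup.2 (by decide +kernel)⟩

theorem u6_threeCycle : IsThreeCycle (u6 : Perm (Fin 6)) := by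
  rw [show (u6 : Perm (Fin 6)) = swap 1 0 * swap 1 2 by decide +kernel]
  exact isThreeCycle_swap_mul_swap_same (by decide) (by decide) (by decide)

theorem v6_threeCycle : IsThreeCycle (v6 : Perm (Fin 6)) := by
  rw [show (v6 : Perm (Fin 6)) = swap 4 3 * swap 4 5 by decide +kernel]
  exact isThreeCycle_swap_mul_swap_same (by decide) (by decide) (by decide)

/-- An element of the Sylow subgroup with a fixed point is trivial or one of four three-cycles. -/
theorem elt_fixed : ∀ a : Fin 3 × Fin 3, (∃ m, (elt a : Perm (Fin 6)) m = m) →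
    elt a = 1 ∨ elt a = u6 ∨ elt a = u6⁻¹ ∨ elt a = v6 ∨ elt a = v6⁻¹ := by
  decide +kernel

/-- The normal form of the images of `u` and `v`. -/
theorem normal_form : ∀ a b : Fin 3 × Fin 3, (∀ m, (elt a : Perm (Fin 6)) m ≠ m) →
    (∀ m, (elt b : Perm (Fin 6)) m ≠ m) →
    (1 + (a.2 : ℕ) * b.1) % 3 = ((a.1 : ℕ) * b.2) % 3 →
    ∃ l : Fin 4, s6 ^ (l : ℕ) * elt a * (s6 ^ (l : ℕ))⁻¹ = u6 * v6 ∧
      s6 ^ (l : ℕ) * elt b * (s6 ^ (l : ℕ))⁻¹ = u6 * v6⁻¹ := by
  decide +kernel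

theorem w6_rel : w6 * w6 = 1 ∧ (w6 * u6) ^ 4 = 1 ∧ (w6 * v6) ^ 3 = 1 ∧
    (w6 * (u6 * v6)) ^ 5 = 1 ∧ w6 * (u6 * v6) ≠ 1 ∧ t36 * u6 * t36⁻¹ = v6 := by
  decide +kernel

/-- The images of the third generator form one orbit of the Sylow subgroup. -/
theorem x6_orbit : ∀ x : alternatingGroup (Fin 6), x * x = 1 → (x * (u6 * v6)) ^ 4 = 1 →
    (x * (u6 * v6⁻¹)) ^ 3 = 1 → ∃ a : Fin 3 × Fin 3, elt a * x6 * (elt a)⁻¹ = x := by
  decide +kernel

theorem x6_fused : ∀ a : Fin 3 × Fin 3,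
    elt a * g6 * (w6 * (u6 * v6)) ^ 2 * (elt a * g6)⁻¹ =
      elt a * x6 * (elt a)⁻¹ * (u6 * v6 * (u6 * v6⁻¹)) := by
  decide +kernel

/-- The exceptional automorphisms fuse the elements of order five. -/
theorem fused (x : alternatingGroup (Fin 6)) (h2 : x * x = 1) (h4 : (x * (u6 * v6)) ^ 4 = 1)
    (h3 : (x * (u6 * v6⁻¹)) ^ 3 = 1) :
    ∃ g, g * (w6 * (u6 * v6)) ^ 2 * g⁻¹ = x * (u6 * v6 * (u6 * v6⁻¹)) := by
  obtain ⟨a, rfl⟩ := x6_orbit x h2 h4 h3
  exact ⟨_, x6_fused a⟩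

/-- A seven-cycle reversed by an odd permutation. -/
theorem c7_reversed :
    (swap 1 6 * (swap 2 5 * swap 3 4) : Perm (Fin 7)) * (CfsgLib.SLThreeResidual.Alt.c7 : Perm (Fin 7)) *
      (swap 1 6 * (swap 2 5 * swap 3 4) : Perm (Fin 7))⁻¹ =
        ((CfsgLib.SLThreeResidual.Alt.c7 : Perm (Fin 7)))⁻¹ ∧
      Perm.sign (swap 1 6 * (swap 2 5 * swap 3 4) : Perm (Fin 7)) = -1 := by
  decide +kernel

/-- A transposition inverts `u` and fixes `v`. -/
theorem swap_action : (swap 1 2 : Perm (Fin 6)) * (u6 : Perm (Fin 6)) * (swap 1 2)⁻¹ = (u6 : Perm (Fin 6))⁻¹ ∧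
    (swap 1 2 : Perm (Fin 6)) * (v6 : Perm (Fin 6)) * (swap 1 2)⁻¹ = (v6 : Perm (Fin 6)) ∧
    Perm.sign (swap 1 2 : Perm (Fin 6)) = -1 := by
  decide +kernel

end CfsgLib.SLThreeSubgroups.AltFinite
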