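import Cfsg.Agent.Lib.SLThreeResidual.Basic
import Cfsg.Prelude.Def_LieClassical

/-!
# Subgroups of the three-dimensional projective special linear group: shared notions

A subgroup without non-trivial elementary abelian normal subgroup is studied through its preimage `G` in
`SL₃` and the perfect preimage `P` of its socle.
-/

set_option autoImplicit false

namespace CfsgLib.SLThreeSubgroups

open Cfsg.Geo CfsgLib.SLThreeResidual
open scoped MatrixGroups

variable {F : Type*} [Field F]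

/-- A subgroup modulo its scalars. -/
abbrev GBar (G : Subgroup (GL (Fin 3) F)) : Type _ := G ⧸ (scalars (Fin 3) F).subgroupOf G

/-- `G` is a group of determinant one, almost simple modulo scalars, with socle preimage `P`. -/
structure Almost (G P : Subgroup (GL (Fin 3) F)) : Prop where
  core : Core P
  le : P ≤ G
  le_sl : G ≤ specialLinear (Fin 3) F
  normal : ∀ h ∈ G, ∀ x ∈ P, h * x * h⁻¹ ∈ P
  cent : ∀ h ∈ G, (∀ x ∈ P, h * x * h⁻¹ * x⁻¹ ∈ scalars (Fin 3) F) → h ∈ scalars (Fin 3) F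

/-- The subgroup with entries in a subfield, seen over the whole field. -/
def baseChange (F₀ : Subfield F) (P₀ : Subgroup (GL (Fin 3) F₀)) : Subgroup (GL (Fin 3) F) :=
  P₀.map (Matrix.GeneralLinearGroup.map F₀.subtype)

/-- `P` is the base change of a group realised over no smaller field. -/
structure Model (P : Subgroup (GL (Fin 3) F)) (F₀ : Subfield F) (P₀ : Subgroup (GL (Fin 3) F₀)) :
    Prop where
  eq : P = baseChange F₀ P₀
  core : Core P₀
  noSub : NoSub P₀

/-- A copy of `PSL₃(p^β)` or its extension of index three. -/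
def IsLinearType (p α : ℕ) (X : Type*) [Group X] : Prop :=
  (∃ (K : Type) (_ : Field K) (_ : Fintype K) (β : ℕ), Fintype.card K = p ^ β ∧ β ∣ α ∧
      Nonempty (X ≃* Matrix.ProjectiveSpecialLinearGroup (Fin 3) K)) ∨
  (∃ (K : Type) (_ : Field K) (_ : Fintype K) (β : ℕ), Fintype.card K = p ^ β ∧ 3 ∣ p ^ β - 1 ∧ 3 * β ∣ α ∧
      ∃ L : Subgroup X, L.index = 3 ∧ Nonempty (↥L ≃* Matrix.ProjectiveSpecialLinearGroup (Fin 3) K))

/-- A copy of `PSU₃(p^β)` or its extension of index three. -/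
def IsUnitaryType (p α : ℕ) (X : Type*) [Group X] : Prop :=
  (∃ (K : Type) (_ : Field K) (_ : Fintype K) (β : ℕ), Fintype.card K = p ^ (2 * β) ∧ 2 * β ∣ α ∧
      Nonempty (X ≃* Cfsg.PSU 3 K (p ^ β))) ∨
  (∃ (K : Type) (_ : Field K) (_ : Fintype K) (β : ℕ), Fintype.card K = p ^ (2 * β) ∧ 3 ∣ p ^ β + 1 ∧
      6 * β ∣ α ∧ ∃ L : Subgroup X, L.index = 3 ∧ Nonempty (↥L ≃* Cfsg.PSU 3 K (p ^ β)))

/-- A copy of a group on the conic, `PSL₂(5)` included. -/
def IsOrthType (p α : ℕ) (X : Type*) [Group X] : Prop :=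
  (∃ (K : Type) (_ : Field K) (_ : Fintype K) (β : ℕ), Fintype.card K = p ^ β ∧ β ∣ α ∧ p ^ β ≠ 3 ∧
      (Nonempty (X ≃* Matrix.ProjectiveSpecialLinearGroup (Fin 2) K) ∨
        Nonempty (X ≃* (GL (Fin 2) K ⧸ Subgroup.center (GL (Fin 2) K))))) ∨
  ((p ^ α % 10 = 1 ∨ p ^ α % 10 = 9) ∧ ∃ (K : Type) (_ : Field K) (_ : Fintype K), Fintype.card K = 5 ∧
      Nonempty (X ≃* Matrix.ProjectiveSpecialLinearGroup (Fin 2) K))

/-- A copy of `PSL₂(7)` in the exceptional case. -/
def IsSevenType (p α : ℕ) (X : Type*) [Group X] : Prop :=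
  (p ^ α) ^ 3 % 7 = 1 ∧ ∃ (K : Type) (_ : Field K) (_ : Fintype K), Fintype.card K = 7 ∧
    Nonempty (X ≃* Matrix.ProjectiveSpecialLinearGroup (Fin 2) K)

/-- The exceptional groups with socle `A₆` or `A₇`. -/
def IsAltType (p α : ℕ) (X : Type*) [Group X] : Prop :=
  (p = 5 ∧ Even α ∧ (Nonempty (X ≃* ↥(alternatingGroup (Fin 6))) ∨ Nonempty (X ≃* ↥(alternatingGroup (Fin 7))) ∨
      ∃ L : Subgroup X, L.index = 2 ∧ Nonempty (↥L ≃* ↥(alternatingGroup (Fin 6))))) ∨
  ((p ^ α % 30 = 1 ∨ p ^ α % 30 = 19) ∧ Nonempty (X ≃* ↥(alternatingGroup (Fin 6))))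

end CfsgLib.SLThreeSubgroups
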