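import Cfsg.Agent.Lib.SLThreeSubgroups.Defs
import Cfsg.Agent.Lib.SLThreeResidual.Traces

/-!
# Realisation of the socle over its field of definition
-/

set_option autoImplicit false
set_option linter.unusedSectionVars false

namespace CfsgLib.SLThreeSubgroups

open Cfsg.Geo Matrix CfsgLib.SLThreeResidual
open scoped MatrixGroups

variable {F : Type*} [Field F] [Fintype F] {G P : Subgroup (GL (Fin 3) F)} {F₀ : Subfield F}
  {P₀ : Subgroup (GL (Fin 3) F₀)}

/-- The extension of scalars from a subfield. -/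
abbrev extend (F₀ : Subfield F) : GL (Fin 3) F₀ →* GL (Fin 3) F :=
  Matrix.GeneralLinearGroup.map F₀.subtype

lemma extend_val (g : GL (Fin 3) F₀) :
    (extend F₀ g : Matrix (Fin 3) (Fin 3) F) = (g : Matrix (Fin 3) (Fin 3) F₀).map F₀.subtype := rfl

lemma extend_injective (F₀ : Subfield F) : Function.Injective (extend F₀) := fun _ _ hab =>
  Units.ext (Matrix.map_injective F₀.subtype.injective (congrArg Units.val hab))

lemma Model.extend_mem (hM : Model P F₀ P₀) {x : GL (Fin 3) F₀} (hx : x ∈ P₀) : extend F₀ x ∈ P := by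
  rw [hM.eq]
  exact ⟨x, hx, rfl⟩

lemma Model.exists_extend_eq (hM : Model P F₀ P₀) {y : GL (Fin 3) F} (hy : y ∈ P) :
    ∃ x ∈ P₀, extend F₀ x = y := by
  rw [hM.eq] at hy
  exact hy

/-- An element of `G` is a multiple of an element over the subfield which normalises the model. -/
theorem exists_smul_eq (hA : Almost G P) (hM : Model P F₀ P₀) {h : GL (Fin 3) F} (hh : h ∈ G) :
    ∃ (c : F) (g : GL (Fin 3) F₀), (∀ x ∈ P₀, g * x * g⁻¹ ∈ P₀) ∧
      (h : Matrix (Fin 3) (Fin 3) F) =
        c • (Matrix.GeneralLinearGroup.map F₀.subtype g : GL (Fin 3) F).val := by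
  have : Fintype F₀ := Fintype.ofFinite _
  have hex : ∀ x : P₀, ∃ y ∈ P₀, extend F₀ y = h * extend F₀ x * h⁻¹ := fun x =>
    hM.exists_extend_eq (hA.normal h hh _ (hM.extend_mem x.2))
  choose y hy hyv using hex
  let rho : P₀ →* GL (Fin 3) F₀ :=
    { toFun := y
      map_one' := extend_injective F₀ (by rw [hyv, OneMemClass.coe_one, map_one, mul_one, mul_inv_cancel])
      map_mul' := fun a b => extend_injective F₀ (by
        rw [hyv, map_mul (extend F₀), hyv, hyv, Subgroup.coe_mul, map_mul]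
        group) }
  obtain ⟨g, hg⟩ := exists_intertwiner_of_trace hM.core.absIrred rho fun x => by
    refine F₀.subtype.injective ?_
    show F₀.subtype (trace (y x : Matrix (Fin 3) (Fin 3) F₀)) = _
    rw [AddMonoidHom.map_trace, AddMonoidHom.map_trace, ← extend_val, ← extend_val, hyv,
      Units.val_mul, Units.val_mul, Matrix.trace_units_conj]
  have hnorm : ∀ x ∈ P₀, g * x * g⁻¹ ∈ P₀ := fun x hx => by
    have h1 : y ⟨x, hx⟩ = g * x * g⁻¹ := hg ⟨x, hx⟩
    exact h1 ▸ hy ⟨x, hx⟩
  have hcomm : ∀ p ∈ P, (extend F₀ g)⁻¹ * h * p = p * ((extend F₀ g)⁻¹ * h) := by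
    intro p hp
    obtain ⟨x, hx, rfl⟩ := hM.exists_extend_eq hp
    have h1 : y ⟨x, hx⟩ = g * x * g⁻¹ := hg ⟨x, hx⟩
    have h2 := hyv ⟨x, hx⟩
    rw [h1, map_mul, map_mul, map_inv] at h2
    calc (extend F₀ g)⁻¹ * h * extend F₀ x
        = (extend F₀ g)⁻¹ * (h * extend F₀ x * h⁻¹) * h := by group
      _ = (extend F₀ g)⁻¹ * (extend F₀ g * extend F₀ x * (extend F₀ g)⁻¹) * h := by rw [h2]
      _ = _ := by group
  obtain ⟨c, hc⟩ := hA.core.absIrred.2 ((extend F₀ g)⁻¹ * h : GL (Fin 3) F).val (by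
    rintro _ ⟨p, hp, rfl⟩
    exact congrArg Units.val (hcomm p hp))
  refine ⟨c, g, hnorm, ?_⟩
  calc (h : Matrix (Fin 3) (Fin 3) F)
      = (extend F₀ g).val * ((extend F₀ g)⁻¹ * h : GL (Fin 3) F).val := by
        rw [← Units.val_mul, mul_inv_cancel_left]
    _ = _ := by rw [hc, Matrix.mul_smul, mul_one]

/-- A group spanning the matrix algebra is absolutely irreducible. -/
lemma absIrred_of_span_top {K : Type*} [Field K] {R : Subgroup (GL (Fin 3) K)}
    (hR : Submodule.span K (matrixSet R) = ⊤) : ActsAbsolutelyIrreducibly (matrixSet R) := by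
  have hX : ∀ X : Matrix (Fin 3) (Fin 3) K, X ∈ Submodule.span K (matrixSet R) := fun _ =>
    hR ▸ Submodule.mem_top
  refine ⟨fun W hW => ?_, fun M hM => ?_⟩
  · have hall : ∀ X : Matrix (Fin 3) (Fin 3) K, ∀ w ∈ W, X *ᵥ w ∈ W := by
      intro X
      induction hX X using Submodule.span_induction with
      | mem s hs => exact fun w hw => hW s hs ⟨w, hw, Matrix.toLin'_apply s w⟩
      | zero => intro w _; rw [Matrix.zero_mulVec]; exact W.zero_mem
      | add a b _ _ ha hb => intro w hw; rw [Matrix.add_mulVec]; exact W.add_mem (ha w hw) (hb w hw)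
      | smul c a _ ha => intro w hw; rw [Matrix.smul_mulVec]; exact W.smul_mem c (ha w hw)
    by_cases hbot : W = ⊥
    · exact Or.inl hbot
    refine Or.inr (eq_top_iff.2 fun v _ => ?_)
    obtain ⟨w, hw, hw0⟩ := (Submodule.ne_bot_iff _).1 hbot
    obtain ⟨i, hi⟩ : ∃ i, w i ≠ 0 := Function.ne_iff.1 hw0
    have h := hall (Matrix.of fun a b => if b = i then v a / w i else 0) w hw
    convert h using 1
    funext a
    simp [Matrix.mulVec, dotProduct, div_mul_cancel₀ _ hi]
  · have hall : ∀ X : Matrix (Fin 3) (Fin 3) K, M * X = X * M := by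
      intro X
      induction hX X using Submodule.span_induction with
      | mem s hs => exact hM s hs
      | zero => simp
      | add a b _ _ ha hb => rw [mul_add, add_mul, ha, hb]
      | smul c a _ ha => rw [Matrix.mul_smul, Matrix.smul_mul, ha]
    obtain ⟨c, rfl⟩ : M ∈ Set.range (Matrix.scalar (Fin 3)) :=
      Matrix.mem_range_scalar_of_commute_single fun i j _ => (hall (Matrix.single i j 1)).symm
    exact ⟨c, by rw [Matrix.smul_one_eq_diagonal]; rfl⟩

/-! ### The model inside the ambient group -/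

lemma extend_mem_scalars_iff {g : GL (Fin 3) F₀} :
    extend F₀ g ∈ scalars (Fin 3) F ↔ g ∈ scalars (Fin 3) F₀ := by
  rw [mem_scalars_iff, mem_scalars_iff]
  refine ⟨fun ⟨c, hc⟩ => ?_, fun ⟨c, hc⟩ => ⟨Units.map F₀.subtype.toMonoidHom c, ?_⟩⟩
  · have hcmem : (c : F) = F₀.subtype (g.val 0 0) := by
      have := congrFun (congrFun hc 0) 0
      simpa using this.symm
    have h0 : g.val 0 0 ≠ 0 := fun h => c.ne_zero (by rw [hcmem, h, map_zero])
    refine ⟨Units.mk0 _ h0, Matrix.map_injective F₀.subtype.injective ?_⟩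
    show g.val.map F₀.subtype = _
    rw [← extend_val, hc, hcmem]
    ext i j
    by_cases hij : i = j <;> simp [hij]
  · rw [extend_val, hc]
    ext i j
    by_cases hij : i = j <;> simp [hij]

/-- The model as a group over the subfield. -/
noncomputable def Model.equiv (hM : Model P F₀ P₀) : P₀ ≃* P :=
  (P₀.equivMapOfInjective (extend F₀) (extend_injective F₀)).trans (MulEquiv.subgroupCongr hM.eq.symm)

lemma Model.coe_equiv (hM : Model P F₀ P₀) (x : P₀) : (hM.equiv x : GL (Fin 3) F) = extend F₀ x := rfl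

lemma map_scalars_subgroupOf {H : Subgroup (GL (Fin 3) F₀)} {H' : Subgroup (GL (Fin 3) F)} (e : H ≃* H')
    (he : ∀ x : H, (e x : GL (Fin 3) F) = extend F₀ x) :
    ((scalars (Fin 3) F₀).subgroupOf H).map (e : H →* H') = (scalars (Fin 3) F).subgroupOf H' := by
  ext z
  obtain ⟨x, rfl⟩ := e.surjective z
  rw [Subgroup.mem_subgroupOf, he, extend_mem_scalars_iff]
  exact Subgroup.mem_map_iff_mem (f := (e : H →* H')) e.injective

/-- The simple group is the same over both fields. -/
noncomputable def Model.projEquiv (hM : Model P F₀ P₀) : Proj P₀ ≃* Proj P :=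
  QuotientGroup.congr _ _ hM.equiv (map_scalars_subgroupOf hM.equiv hM.coe_equiv)

/-- The conditions on the socle descend to the subfield. -/
lemma core_of_baseChange (hC : Core (baseChange F₀ P₀)) : Core P₀ := by
  have hinj : Function.Injective (Subgroup.map (extend F₀)) :=
    Subgroup.map_injective (extend_injective F₀)
  let e : P₀ ≃* baseChange F₀ P₀ := P₀.equivMapOfInjective (extend F₀) (extend_injective F₀)
  let eQ : Proj P₀ ≃* Proj (baseChange F₀ P₀) :=
    QuotientGroup.congr _ _ e (map_scalars_subgroupOf e fun _ => rfl)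
  refine ⟨fun x hx => ?_, hinj ?_, eQ.isSimpleGroup_congr.2 hC.simple, fun hc => hC.nonabelian ⟨⟨fun a b => ?_⟩⟩, ?_⟩
  · rw [specialLinear, MonoidHom.mem_ker]
    have h1 := hC.le_sl (Subgroup.mem_map_of_mem (extend F₀) hx)
    rw [specialLinear, MonoidHom.mem_ker] at h1
    refine Units.ext (F₀.subtype.injective ?_)
    have h2 := congrArg Units.val h1
    rw [Matrix.GeneralLinearGroup.val_det_apply] at h2 ⊢
    rw [RingHom.map_det]
    simpa using h2
  · rw [Subgroup.map_commutator]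
    exact hC.perfect
  · obtain ⟨a, rfl⟩ := eQ.surjective a
    obtain ⟨b, rfl⟩ := eQ.surjective b
    rw [← map_mul, ← map_mul, hc.is_comm.comm]
  refine absIrred_of_span_top ?_
  by_contra hne
  obtain ⟨f, hf0, hf⟩ := Submodule.exists_le_ker_of_lt_top _ (lt_top_iff_ne_top.2 hne)
  let fF : Matrix (Fin 3) (Fin 3) F →ₗ[F] F :=
    { toFun := fun X => ∑ i, ∑ j, X i j * F₀.subtype (f (Matrix.single i j 1))
      map_add' := fun X Y => by simp only [Matrix.add_apply, add_mul, Finset.sum_add_distrib]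
      map_smul' := fun c X => by
        simp only [Matrix.smul_apply, smul_eq_mul, RingHom.id_apply, Finset.mul_sum, mul_assoc] }
  have hfF : ∀ Y : Matrix (Fin 3) (Fin 3) F₀, fF (Y.map F₀.subtype) = F₀.subtype (f Y) := by
    intro Y
    show ∑ i, ∑ j, Y.map F₀.subtype i j * F₀.subtype (f (Matrix.single i j 1)) = _
    conv_rhs => rw [Matrix.matrix_eq_sum_single Y]
    simp only [map_sum]
    refine Finset.sum_congr rfl fun i _ => Finset.sum_congr rfl fun j _ => ?_
    rw [show Matrix.single i j (Y i j) = Y i j • Matrix.single i j (1 : F₀) by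
      rw [Matrix.smul_single, smul_eq_mul, mul_one], map_smul, smul_eq_mul, map_mul, Matrix.map_apply]
  have hker : Submodule.span F (matrixSet (baseChange F₀ P₀)) ≤ LinearMap.ker fF := by
    rw [Submodule.span_le]
    rintro _ ⟨_, ⟨x, hx, rfl⟩, rfl⟩
    show fF (x.val.map F₀.subtype) = 0
    rw [hfF, show f x.val = 0 from hf (Submodule.subset_span ⟨x, hx, rfl⟩), map_zero]
  rw [CfsgLib.SmallDim.span_eq_top_of_absIrred hC.absIrred] at hker
  refine hf0 (Matrix.ext_linearMap _ fun i j => LinearMap.ext_ring ?_)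
  have h1 : fF ((Matrix.single i j (1 : F₀)).map F₀.subtype) = 0 := hker Submodule.mem_top
  rw [hfF, map_eq_zero] at h1
  simpa using h1

/-! ### Change of basis -/

lemma conj_mem_scalars_iff (B g : GL (Fin 3) F) :
    B * g * B⁻¹ ∈ scalars (Fin 3) F ↔ g ∈ scalars (Fin 3) F := by
  have key : ∀ (C y : GL (Fin 3) F), y ∈ scalars (Fin 3) F → C * y * C⁻¹ = y := by
    intro C y hy
    obtain ⟨c, hc⟩ := (mem_scalars_iff y).1 hy
    refine mul_inv_eq_iff_eq_mul.2 (Units.ext ?_)
    rw [Units.val_mul, Units.val_mul, hc, Matrix.mul_smul, Matrix.smul_mul, mul_one, one_mul]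
  refine ⟨fun h => ?_, fun h => by rwa [key B g h]⟩
  have h' := key B⁻¹ _ h
  rw [inv_inv] at h'
  rwa [← h', show B⁻¹ * (B * g * B⁻¹) * B = g by group] at h

lemma map_conj_scalars (H : Subgroup (GL (Fin 3) F)) (B : GL (Fin 3) F) :
    ((scalars (Fin 3) F).subgroupOf H).map
        ((H.equivMapOfInjective (MulAut.conj B).toMonoidHom (MulAut.conj B).injective :
          H ≃* H.map (MulAut.conj B).toMonoidHom) : H →* H.map (MulAut.conj B).toMonoidHom) =
      (scalars (Fin 3) F).subgroupOf (H.map (MulAut.conj B).toMonoidHom) := by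
  ext z
  obtain ⟨x, rfl⟩ := (H.equivMapOfInjective (MulAut.conj B).toMonoidHom (MulAut.conj B).injective).surjective z
  refine (Subgroup.mem_map_iff_mem (f := MulEquiv.toMonoidHom _) (MulEquiv.injective _)).trans ?_
  exact (conj_mem_scalars_iff B x).symm

/-- The group modulo scalars does not change with the basis. -/
noncomputable def gBarConj (H : Subgroup (GL (Fin 3) F)) (B : GL (Fin 3) F) :
    GBar H ≃* GBar (H.map (MulAut.conj B).toMonoidHom) :=
  QuotientGroup.congr _ _ (H.equivMapOfInjective _ (MulAut.conj B).injective) (map_conj_scalars H B)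

lemma Almost.conj (hA : Almost G P) (B : GL (Fin 3) F) :
    Almost (G.map (MulAut.conj B).toMonoidHom) (P.map (MulAut.conj B).toMonoidHom) := by
  let eQ := gBarConj P B
  have hsl : ∀ g ∈ G, B * g * B⁻¹ ∈ specialLinear (Fin 3) F := fun g hg => by
    have h1 := hA.le_sl hg
    rw [specialLinear, MonoidHom.mem_ker] at h1 ⊢
    rw [map_mul, map_mul, map_inv, h1, mul_one, mul_inv_cancel]
  refine ⟨⟨?_, ?_, eQ.isSimpleGroup_congr.1 hA.core.simple, fun hc => hA.core.nonabelian ⟨⟨fun a b => ?_⟩⟩, ?_⟩,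
    Subgroup.map_mono hA.le, ?_, ?_, ?_⟩
  · rintro _ ⟨g, hg, rfl⟩
    exact hsl g (hA.le hg)
  · rw [← Subgroup.map_commutator, hA.core.perfect]
  · exact eQ.injective (by rw [map_mul, map_mul]; exact hc.is_comm.comm _ _)
  · refine absIrred_of_span_top (eq_top_iff.2 fun X _ => ?_)
    let L : Matrix (Fin 3) (Fin 3) F →ₗ[F] Matrix (Fin 3) (Fin 3) F :=
      { toFun := fun Y => B.val * Y * (B⁻¹ : GL (Fin 3) F).val
        map_add' := fun Y Z => by rw [mul_add, add_mul]
        map_smul' := fun c Y => by rw [Matrix.mul_smul, Matrix.smul_mul]; rfl }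
    have hX : X = L ((B⁻¹ : GL (Fin 3) F).val * X * B.val) := by
      show X = B.val * ((B⁻¹ : GL (Fin 3) F).val * X * B.val) * (B⁻¹ : GL (Fin 3) F).val
      simp only [← mul_assoc, Units.mul_inv, one_mul]
      rw [mul_assoc X, Units.mul_inv, mul_one]
    have himg : matrixSet (P.map (MulAut.conj B).toMonoidHom) = L '' matrixSet P := by
      show _ '' (_ '' (P : Set (GL (Fin 3) F))) = L '' (_ '' (P : Set (GL (Fin 3) F)))
      rw [Set.image_image, Set.image_image]
      exact Set.image_congr fun g _ => by simp [L]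
    rw [hX, himg, Submodule.span_image]
    exact Submodule.mem_map_of_mem
      (CfsgLib.SmallDim.span_eq_top_of_absIrred hA.core.absIrred ▸ Submodule.mem_top)
  · rintro _ ⟨g, hg, rfl⟩
    exact hsl g hg
  · rintro _ ⟨h, hh, rfl⟩ _ ⟨x, hx, rfl⟩
    exact ⟨h * x * h⁻¹, hA.normal h hh x hx, by rw [map_mul, map_mul, map_inv]⟩
  · rintro _ ⟨h, hh, rfl⟩ hall
    refine (conj_mem_scalars_iff B h).2 (hA.cent h hh fun x hx => (conj_mem_scalars_iff B _).1 ?_)
    have h1 := hall _ (Subgroup.mem_map_of_mem _ hx)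
    rwa [← map_inv, ← map_mul, ← map_mul, ← map_inv, ← map_mul] at h1

/-- Up to a change of basis, the socle is the extension of a group over its smallest field of realisation. -/
theorem exists_model (hA : Almost G P) :
    ∃ (G' P' : Subgroup (GL (Fin 3) F)) (F₀ : Subfield F) (P₀ : Subgroup (GL (Fin 3) F₀)),
      Almost G' P' ∧ Model P' F₀ P₀ ∧ Nonempty (GBar G ≃* GBar G') := by
  have : Finite (Subfield F) := Finite.of_injective (fun K : Subfield F => (K : Set F)) SetLike.coe_injective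
  have htop : RealisableOver (⊤ : Subfield F) (matrixSet P) := ⟨1, fun _ _ _ _ => Subfield.mem_top _⟩
  obtain ⟨F₀, ⟨B, hB⟩, hmin⟩ := Set.exists_min_image {K : Subfield F | RealisableOver K (matrixSet P)}
    (fun K => Nat.card K) (Set.toFinite _) ⟨⊤, htop⟩
  let P' := P.map (MulAut.conj B).toMonoidHom
  have hA' : Almost (G.map (MulAut.conj B).toMonoidHom) P' := hA.conj B
  have heq : P' = baseChange F₀ (P'.comap (extend F₀)) := by
    refine (Subgroup.map_comap_eq_self ?_).symm
    rintro _ ⟨g, hg, rfl⟩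
    have hg' : g⁻¹ ∈ P := inv_mem hg
    let M : Matrix (Fin 3) (Fin 3) F₀ := fun i j => ⟨_, hB _ ⟨g, hg, rfl⟩ i j⟩
    let N : Matrix (Fin 3) (Fin 3) F₀ := fun i j => ⟨_, hB _ ⟨g⁻¹, hg', rfl⟩ i j⟩
    have hM : M.map F₀.subtype = (B * g * B⁻¹ : GL (Fin 3) F).val := rfl
    have hN : N.map F₀.subtype = (B * g⁻¹ * B⁻¹ : GL (Fin 3) F).val := rfl
    refine ⟨⟨M, N, ?_, ?_⟩, Units.ext hM⟩ <;> refine Matrix.map_injective F₀.subtype.injective ?_ <;>
      show (_ * _ : Matrix (Fin 3) (Fin 3) F₀).map F₀.subtype =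
        (1 : Matrix (Fin 3) (Fin 3) F₀).map F₀.subtype <;>
      rw [Matrix.map_mul, hM, hN, ← Units.val_mul,
        Matrix.map_one F₀.subtype (map_zero _) (map_one _), ← Units.val_one] <;>
      congr 1 <;> group
  refine ⟨_, P', F₀, P'.comap (extend F₀), hA', ⟨heq, core_of_baseChange (heq ▸ hA'.core), ?_⟩,
    ⟨gBarConj G B⟩⟩
  rintro K hK ⟨B₀, hB₀⟩
  have hlt : Nat.card (K.map F₀.subtype) < Nat.card F₀ := by
    rw [show Nat.card (K.map F₀.subtype) = Nat.card K from
      Nat.card_image_of_injective F₀.subtype.injective K]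
    by_contra hle
    refine hK (SetLike.coe_injective ?_)
    refine (Set.eq_of_subset_of_ncard_le (Set.subset_univ _) ?_).trans Subfield.coe_top.symm
    rw [Set.ncard_univ]
    exact not_lt.1 hle
  refine absurd (hmin (K.map F₀.subtype) ⟨extend F₀ B₀ * B, ?_⟩) (not_le.2 hlt)
  rintro _ ⟨g, hg, rfl⟩ i j
  obtain ⟨x, hx, hxg⟩ : B * g * B⁻¹ ∈ baseChange F₀ (P'.comap (extend F₀)) :=
    heq ▸ Subgroup.mem_map_of_mem (MulAut.conj B).toMonoidHom hg
  refine ⟨_, hB₀ _ ⟨x, hx, rfl⟩ i j, ?_⟩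
  have hxg' : extend F₀ x = B * g * B⁻¹ := hxg
  have h1 : extend F₀ (B₀ * x * B₀⁻¹) = extend F₀ B₀ * B * g * (extend F₀ B₀ * B)⁻¹ := by
    rw [map_mul, map_mul, map_inv, hxg']
    group
  exact congrFun (congrFun (congrArg (Units.val : GL (Fin 3) F → Matrix (Fin 3) (Fin 3) F) h1) i) j

/-! ### Quadratic forms -/

/-- An invariant quadratic form over the subfield extends to the field. -/
theorem quadFix_of_model (hM : Model P F₀ P₀) (h : QuadFix P₀) : QuadFix P := by
  obtain ⟨Q, hQ, hfix⟩ := h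
  have : Fintype F₀ := Fintype.ofFinite _
  let e : Fin 3 → (Fin 3 → F₀) := fun i => Pi.single i 1
  let A : Matrix (Fin 3) (Fin 3) F₀ :=
    !![Q (e 0), QuadraticMap.polar Q (e 0) (e 1), QuadraticMap.polar Q (e 0) (e 2);
       0, Q (e 1), QuadraticMap.polar Q (e 1) (e 2);
       0, 0, Q (e 2)]
  have hAQ : ∀ v, Q v = v ⬝ᵥ (A *ᵥ v) := by
    intro v
    have hv : v = v 0 • e 0 + v 1 • e 1 + v 2 • e 2 := by
      funext i; fin_cases i <;> simp [e]
    have hb := hQ.polar_bilinear
    have hadd : ∀ x y, Q (x + y) = Q x + Q y + QuadraticMap.polar Q x y := fun x y => by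
      simp only [QuadraticMap.polar]; ring
    conv_lhs => rw [hv]
    rw [hadd, hadd, hb.add_left, hb.smul_left, hb.smul_left, hb.smul_left, hb.smul_right, hb.smul_right,
      hb.smul_right, hQ.smul, hQ.smul, hQ.smul]
    simp [A, dotProduct, Matrix.mulVec, Fin.sum_univ_three]
    ring
  have hpol : ∀ x y, QuadraticMap.polar Q x y = x ⬝ᵥ ((A + Aᵀ) *ᵥ y) := by
    intro x y
    simp only [QuadraticMap.polar, hAQ, dotProduct, Matrix.mulVec, Fin.sum_univ_three,
      Matrix.add_apply, Matrix.transpose_apply, Pi.add_apply]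
    ring
  have hS : IsUnit (A + Aᵀ) := by
    refine Matrix.mulVec_injective_iff_isUnit.1 fun v w hvw => ?_
    by_contra hne
    obtain ⟨x, hx⟩ := (hQ.nondegenerate (v - w) (sub_ne_zero.2 hne)).1
    exact hx (by rw [hpol, Matrix.mulVec_sub, sub_eq_zero.2 hvw, dotProduct_zero])
  let AF : Matrix (Fin 3) (Fin 3) F := A.map F₀.subtype
  have hSF : IsUnit (AF + AFᵀ) := by
    have h1 := hS.map F₀.subtype.mapMatrix
    rw [map_add, RingHom.mapMatrix_apply, RingHom.mapMatrix_apply] at h1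
    exact h1
  let QF : (Fin 3 → F) → F := fun v => v ⬝ᵥ (AF *ᵥ v)
  have hpolF : ∀ x y, QuadraticMap.polar QF x y = x ⬝ᵥ ((AF + AFᵀ) *ᵥ y) := by
    intro x y
    simp only [QuadraticMap.polar, QF, dotProduct, Matrix.mulVec, Fin.sum_univ_three,
      Matrix.add_apply, Matrix.transpose_apply, Pi.add_apply]
    ring
  have hnd : ∀ v : Fin 3 → F, v ≠ 0 → ∃ x, QuadraticMap.polar QF x v ≠ 0 := by
    intro v hv
    by_contra hall
    push Not at hall
    refine hv (Matrix.mulVec_injective_iff_isUnit.2 hSF (a₁ := v) (a₂ := 0) ?_)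
    rw [Matrix.mulVec_zero]
    funext j
    have := hall (Pi.single j 1)
    rw [hpolF, single_dotProduct, one_mul] at this
    exact this
  refine ⟨QF, ⟨fun c v => ?_, ⟨?_, ?_, ?_, ?_⟩, fun v hv => ⟨hnd v hv, ?_⟩⟩, ?_⟩
  · simp only [QF, Matrix.mulVec_smul, dotProduct_smul, smul_dotProduct, smul_eq_mul]
    ring
  · intro x y v; simp only [hpolF, add_dotProduct]
  · intro c x v; simp only [hpolF, smul_dotProduct, smul_eq_mul]
  · intro v x y; simp only [hpolF, Matrix.mulVec_add, dotProduct_add]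
  · intro c v x; simp only [hpolF, Matrix.mulVec_smul, dotProduct_smul, smul_eq_mul]
  · obtain ⟨x, hx⟩ := hnd v hv
    exact ⟨x, by rwa [QuadraticMap.polar_comm]⟩
  rintro _ ⟨p, hp, rfl⟩ v
  obtain ⟨g, hg, rfl⟩ := hM.exists_extend_eq hp
  let D : Matrix (Fin 3) (Fin 3) F₀ := g.valᵀ * A * g.val - A
  have hD : ∀ u, u ⬝ᵥ (D *ᵥ u) = 0 := fun u => by
    rw [Matrix.sub_mulVec, dotProduct_sub, ← Matrix.mulVec_mulVec, ← Matrix.mulVec_mulVec,
      ← mulVec_dotProduct_eq, ← hAQ, ← hAQ, hfix g.val ⟨g, hg, rfl⟩, sub_self]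
  have hdiag : ∀ i, F₀.subtype (D i i) = 0 := fun i => by
    have := hD (Pi.single i 1)
    simp at this
    rw [this, map_zero]
  have hoff : ∀ i j, F₀.subtype (D i j) + F₀.subtype (D j i) = 0 := fun i j => by
    have h1 := hD (Pi.single i 1 + Pi.single j 1)
    have h2 := hD (Pi.single i 1)
    have h3 := hD (Pi.single j 1)
    simp [Matrix.mulVec_add, dotProduct_add, add_dotProduct] at h1 h2 h3
    rw [← map_add, show D i j + D j i = 0 by linear_combination h1 - h2 - h3, map_zero]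
  have hDF : (g.val.map F₀.subtype)ᵀ * AF * g.val.map F₀.subtype = AF + D.map F₀.subtype := by
    rw [Matrix.map_sub _ (map_sub F₀.subtype), Matrix.map_mul, Matrix.map_mul, Matrix.transpose_map,
      add_sub_cancel]
  show (g.val.map F₀.subtype *ᵥ v) ⬝ᵥ (AF *ᵥ (g.val.map F₀.subtype *ᵥ v)) = v ⬝ᵥ (AF *ᵥ v)
  rw [mulVec_dotProduct_eq, Matrix.mulVec_mulVec, Matrix.mulVec_mulVec, hDF,
    Matrix.add_mulVec, dotProduct_add]
  simp only [dotProduct, Matrix.mulVec, Fin.sum_univ_three, Matrix.map_apply]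
  linear_combination v 0 * v 0 * hdiag 0 + v 1 * v 1 * hdiag 1 + v 2 * v 2 * hdiag 2
    + v 0 * v 1 * hoff 0 1 + v 0 * v 2 * hoff 0 2 + v 1 * v 2 * hoff 1 2

end CfsgLib.SLThreeSubgroups
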