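import Cfsg.Agent.Lib.SLThreeSubgroups.Split
import Cfsg.Agent.Lib.SLThreeSubgroups.Descent
import Cfsg.Agent.Lib.ClassK.TIFieldSL2

/-!
# The linear case: `PSL₃` over a subfield or its extension of index three
-/

set_option autoImplicit false
set_option linter.style.haveILetI false

namespace CfsgLib.SLThreeSubgroups

open Cfsg.Geo CfsgLib.SLThreeResidual Matrix
open scoped MatrixGroups

variable {F : Type*} [Field F] [Fintype F] {G P : Subgroup (GL (Fin 3) F)} {F₀ : Subfield F}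
  {P₀ : Subgroup (GL (Fin 3) F₀)} {p α : ℕ}

lemma exists_card_subfield [Fintype F₀] [Fact p.Prime] (hF : Fintype.card F = p ^ α) :
    ∃ β, Fintype.card F₀ = p ^ β ∧ β ∣ α := by
  have h := Module.card_eq_pow_finrank (K := F₀) (V := F)
  rw [hF] at h
  set k := Module.finrank F₀ F
  have hk : k ≠ 0 := fun e => by
    rw [e, pow_zero, ← hF] at h
    exact (Fintype.one_lt_card (α := F)).ne' h
  obtain ⟨β, -, hβ⟩ := (Nat.dvd_prime_pow (Fact.out : p.Prime)).mp
    (show Fintype.card F₀ ∣ p ^ α from h ▸ dvd_pow_self _ hk)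
  rw [hβ, ← pow_mul] at h
  exact ⟨β, hβ, k, Nat.pow_right_injective (Fact.out : p.Prime).two_le h⟩

/-- A non-cube of `F₀` becomes a cube only when the degree is a multiple of three. -/
theorem three_mul_dvd [Fintype F₀] [Fact p.Prime] {β : ℕ} (hK : Fintype.card F₀ = p ^ β)
    (hF : Fintype.card F = p ^ α) (h3 : 3 ∣ p ^ β - 1)
    {c : F} {a : F₀} (ha : ¬ ∃ b : F₀, b ^ 3 = a) (hc : c ^ 3 = (a : F)) : 3 * β ∣ α := by
  have ha0 : a ≠ 0 := fun e => ha ⟨0, by rw [e, zero_pow three_ne_zero]⟩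
  have hc0 : c ≠ 0 := fun e => ha0 (Subtype.ext (by rw [← hc, e, zero_pow three_ne_zero]; rfl))
  obtain ⟨β', hβ', hdvd⟩ := exists_card_subfield (F₀ := F₀) hF
  have hββ : β' = β := Nat.pow_right_injective (Fact.out : p.Prime).two_le (hβ'.symm.trans hK)
  rw [hββ] at hdvd
  obtain ⟨k, hk⟩ := hdvd
  obtain ⟨m, hm⟩ := h3
  have hq : p ^ β = 3 * m + 1 := by
    have := Nat.one_le_pow β p (Fact.out : p.Prime).pos
    omega
  have hu3 : a ^ (3 * m) = 1 := by
    have := FiniteField.pow_card_sub_one_eq_one a ha0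
    rwa [hK, hm] at this
  set u : F₀ˣ := Units.mk0 a ha0 ^ m with hu
  have hu1 : u ≠ 1 := by
    intro h1
    obtain ⟨g', hg'⟩ := IsCyclic.exists_monoid_generator (α := F₀ˣ)
    obtain ⟨j, hj⟩ := hg' (Units.mk0 a ha0)
    have hord : orderOf g' = 3 * m := by
      have h2 : orderOf g' = Nat.card F₀ˣ := orderOf_eq_card_of_forall_mem_powers hg'
      rw [h2, Nat.card_units, Nat.card_eq_fintype_card, hK, hm]
    have h3j : 3 * m ∣ j * m := by
      rw [← hord]
      refine orderOf_dvd_of_pow_eq_one ?_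
      rw [pow_mul]
      exact (congrArg (· ^ m) hj).trans h1
    have hm0 : 0 < m := by
      rcases Nat.eq_zero_or_pos m with e | e
      · subst e
        have := Fintype.one_lt_card (α := F₀)
        omega
      · exact e
    obtain ⟨i, rfl⟩ := Nat.dvd_of_mul_dvd_mul_right hm0 h3j
    refine ha ⟨((g' ^ i : F₀ˣ) : F₀), ?_⟩
    rw [← Units.val_pow_eq_pow_val, ← pow_mul, mul_comm i 3]
    exact congrArg Units.val hj
  set S := ∑ i ∈ Finset.range k, (p ^ β) ^ i with hS
  have hsum : 3 * m * S + 1 = p ^ α := by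
    rw [hk, pow_mul, hS, hq, mul_comm]
    exact geom_sum_mul_add (3 * m) k
  have huS : u ^ S = 1 := by
    apply Units.ext
    apply Subtype.ext
    have h1 : c ^ (3 * m * S) = 1 := by
      have := FiniteField.pow_card_sub_one_eq_one c hc0
      rwa [hF, show p ^ α - 1 = 3 * m * S by omega] at this
    rw [pow_mul, pow_mul, hc] at h1
    simpa [hu] using h1
  have hu_ord : orderOf u = 3 := orderOf_eq_prime (hp := ⟨Nat.prime_three⟩) (by
    rw [hu, ← pow_mul, mul_comm]
    exact Units.ext (by simpa using hu3)) hu1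
  have h3S : 3 ∣ S := hu_ord ▸ orderOf_dvd_of_pow_eq_one huS
  have hSk : S % 3 = k % 3 := by
    rw [hS, Finset.sum_nat_mod, hq]
    simp [Nat.pow_mod]
  rw [hk, mul_comm 3 β]
  exact Nat.mul_dvd_mul_left β (Nat.dvd_of_mod_eq_zero (by omega))

/-- A copy in `Type` of the subfield. -/
lemma exists_type_copy (F₀ : Subfield F) [Fintype F₀] :
    ∃ (K : Type) (_ : Field K) (_ : Fintype K), Fintype.card K = Fintype.card F₀ ∧
      Nonempty (K ≃+* F₀) := by
  obtain ⟨K, _, _, ⟨e⟩⟩ := CfsgLib.ClassK.exists_field_type_zero F₀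
  exact ⟨K, ‹_›, ‹_›, Fintype.card_congr e.toEquiv, ⟨e⟩⟩

/-- The whole special linear group over the subfield gives the linear type. -/
theorem isLinearType_of_sl [Fact p.Prime] (hF : Fintype.card F = p ^ α) (hA : Almost G P)
    (hM : Model P F₀ P₀) (hSL : specialLinear (Fin 3) F₀ ≤ P₀) : IsLinearType p α (GBar G) := by
  classical
  haveI : Fintype F₀ := Fintype.ofFinite _
  obtain ⟨β, hcard, hβ⟩ := exists_card_subfield (F₀ := F₀) hF
  obtain ⟨K, iK, iK', hKc, ⟨e⟩⟩ := exists_type_copy F₀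
  let φ : SpecialLinearGroup (Fin 3) K →* GL (Fin 3) F₀ :=
    (Matrix.GeneralLinearGroup.map e.toRingHom).comp Matrix.SpecialLinearGroup.toGL
  have hφv : ∀ s : SpecialLinearGroup (Fin 3) K, (φ s : Matrix (Fin 3) (Fin 3) F₀) =
      (s : Matrix (Fin 3) (Fin 3) K).map e.toRingHom := fun s => rfl
  have hφ : Function.Injective φ := fun s t h => Subtype.ext
    (Matrix.map_injective e.injective (by simpa [hφv] using congrArg Units.val h))
  have hrange : φ.range = P₀ := by
    refine le_antisymm ?_ fun x hx => ?_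
    · rintro _ ⟨s, rfl⟩
      refine hSL ((CfsgLib.Geometric.mem_specialLinear_iff _).mpr ?_)
      rw [hφv, ← RingHom.mapMatrix_apply, ← RingHom.map_det, s.2, map_one]
    · have hx1 := (CfsgLib.Geometric.mem_specialLinear_iff x).mp (hM.core.le_sl hx)
      refine ⟨⟨(x : Matrix (Fin 3) (Fin 3) F₀).map e.symm.toRingHom, ?_⟩, Units.ext ?_⟩
      · rw [← RingHom.mapMatrix_apply, ← RingHom.map_det, hx1, map_one]
      · refine (hφv _).trans (Matrix.ext fun i j => ?_)
        exact e.apply_symm_apply _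
  obtain ⟨eP⟩ := proj_equiv_of_iso hM.core
    ((MonoidHom.ofInjective hφ).trans (MulEquiv.subgroupCongr hrange))
  rcases split hA hM ⊤ ⊤ (fun _ _ => trivial) (fun _ _ => trivial)
      (by simpa using hSL) (fun _ _ _ => trivial)
      (fun h hh => by
        obtain ⟨c, g, -, hg⟩ := exists_smul_eq hA hM hh
        exact ⟨g, trivial, c, hg⟩) with ⟨⟨eG⟩⟩ | ⟨h3, ⟨a, ha, c, hc⟩, L, hL, ⟨eL⟩⟩
  · exact Or.inl ⟨K, iK, iK', β, hKc.trans hcard, hβ, ⟨eG.trans eP⟩⟩
  · have h3' : 3 ∣ p ^ β - 1 := by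
      rwa [Subgroup.card_top, Nat.card_units, Nat.card_eq_fintype_card, hcard] at h3
    exact Or.inr ⟨K, iK, iK', β, hKc.trans hcard, h3', three_mul_dvd hcard hF h3' ha hc, L, hL,
      ⟨eL.trans eP⟩⟩

end CfsgLib.SLThreeSubgroups
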