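import Mathlib
import Cfsg.Agent.Lib.ClassicalForms.Ortho.Siegel
import Cfsg.Agent.Lib.SL2.Card

/-!
# The special orthogonal group of the conic

`SO₃(F)` of the form `z² + x y` is parametrised by the points of the conic, the diagonal torus and a
root group. Over a field where the elements of `F` are squares it lies in the image of `SL₂`.
-/

set_option autoImplicit false
set_option linter.style.haveILetI false

namespace CfsgLib.SLThreeSubgroups.Conic

open Matrix
open scoped MatrixGroups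

variable {F : Type*} [Field F]

/-- The isometries of determinant one of the form with Gram matrix `B`. -/
def soGroup (B : Matrix (Fin 3) (Fin 3) F) : Subgroup (GL (Fin 3) F) where
  carrier := {g | g.valᵀ * B * g.val = B ∧ g.val.det = 1}
  one_mem' := by simp
  mul_mem' {a b} ha hb := by
    refine ⟨?_, ?_⟩
    · rw [Units.val_mul, Matrix.transpose_mul]
      calc b.valᵀ * a.valᵀ * B * (a.val * b.val) = b.valᵀ * (a.valᵀ * B * a.val) * b.val := by
            simp only [mul_assoc]
        _ = B := by rw [ha.1, hb.1]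
    · rw [Units.val_mul, Matrix.det_mul, ha.2, hb.2, mul_one]
  inv_mem' {a} ha := by
    refine ⟨?_, ?_⟩
    · have h1 : a.val * (a⁻¹ : GL (Fin 3) F).val = 1 := Units.mul_inv a
      calc (a⁻¹ : GL (Fin 3) F).valᵀ * B * (a⁻¹ : GL (Fin 3) F).val
          = (a.val * (a⁻¹ : GL (Fin 3) F).val)ᵀ * B * (a.val * (a⁻¹ : GL (Fin 3) F).val) := by
            nth_rewrite 1 [← ha.1]
            simp only [Matrix.transpose_mul, mul_assoc]
        _ = B := by rw [h1]; simp
    · have h1 := congrArg Matrix.det (Units.mul_inv a)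
      rwa [Matrix.det_mul, ha.2, one_mul, Matrix.det_one] at h1

lemma mem_soGroup {B : Matrix (Fin 3) (Fin 3) F} {g : GL (Fin 3) F} :
    g ∈ soGroup B ↔ g.valᵀ * B * g.val = B ∧ g.val.det = 1 := Iff.rfl

/-- The Gram matrix of `2 (z² + x y)`. -/
def conicJ (F : Type*) [Field F] : Matrix (Fin 3) (Fin 3) F := !![2, 0, 0; 0, 0, 1; 0, 1, 0]

/-- The symmetric square of a two by two matrix in the coordinates of the conic. -/
def symSq (a b c d : F) : Matrix (Fin 3) (Fin 3) F :=
  !![a * d + b * c, a * c, -(b * d); 2 * a * b, a ^ 2, -b ^ 2; -(2 * c * d), -c ^ 2, d ^ 2]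

lemma symSq_mul (a b c d a' b' c' d' : F) :
    symSq (a * a' + b * c') (a * b' + b * d') (c * a' + d * c') (c * b' + d * d') =
      symSq a b c d * symSq a' b' c' d' := by
  ext i j
  fin_cases i <;> fin_cases j <;> simp [symSq, Matrix.mul_apply, Fin.sum_univ_succ] <;> ring

/-- `SL₂` on the conic. -/
def conicMon : SL(2, F) →* Matrix (Fin 3) (Fin 3) F where
  toFun g := symSq (g 0 0) (g 0 1) (g 1 0) (g 1 1)
  map_one' := by
    ext i j
    fin_cases i <;> fin_cases j <;> simp [symSq]
  map_mul' g h := by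
    rw [← symSq_mul]
    simp [Matrix.mul_apply, Fin.sum_univ_two]

/-- `SL₂ → GL₃` through the conic. -/
def conicHom : SL(2, F) →* GL (Fin 3) F := (conicMon (F := F)).toHomUnits

lemma conicHom_val (g : SL(2, F)) :
    (conicHom g).val = symSq (g 0 0) (g 0 1) (g 1 0) (g 1 1) := rfl

lemma sl_det (g : SL(2, F)) : g 0 0 * g 1 1 - g 0 1 * g 1 0 = 1 := by
  rw [← Matrix.det_fin_two]; exact g.2

lemma conicHom_mem (g : SL(2, F)) : conicHom g ∈ soGroup (conicJ F) := by
  have hd := sl_det g
  rw [mem_soGroup, conicHom_val]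
  refine ⟨?_, ?_⟩
  · have key : ∀ a b c d : F, (symSq a b c d)ᵀ * conicJ F * symSq a b c d =
        (a * d - b * c) ^ 2 • conicJ F := by
      intro a b c d
      ext i j
      fin_cases i <;> fin_cases j <;>
        simp [symSq, conicJ, Matrix.mul_apply, Fin.sum_univ_succ] <;> ring
    rw [key, hd, one_pow, one_smul]
  · have key : ∀ a b c d : F, (symSq a b c d).det = (a * d - b * c) ^ 3 := by
      intro a b c d
      simp [symSq, Matrix.det_fin_three]
      ring
    rw [key, hd, one_pow]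

lemma map_conicHom {L : Type*} [Field L] (φ : F →+* L) (g : SL(2, F)) :
    (conicHom g).val.map φ = (conicHom (Matrix.SpecialLinearGroup.map φ g)).val := by
  have e : ∀ i j, (Matrix.SpecialLinearGroup.map φ g) i j = φ (g i j) := fun _ _ => rfl
  rw [conicHom_val, conicHom_val]
  ext i j
  fin_cases i <;> fin_cases j <;> simp [symSq, e, map_ofNat]

lemma ker_conicHom : (conicHom (F := F)).ker = Subgroup.center SL(2, F) := by
  ext g
  rw [MonoidHom.mem_ker, CfsgLib.SL2.mem_center_iff]
  constructor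
  · intro h
    have hv := congrArg Units.val h
    rw [conicHom_val, Units.val_one] at hv
    have e00 := congrFun (congrFun hv 0) 0
    have e11 := congrFun (congrFun hv 1) 1
    have e12 := congrFun (congrFun hv 1) 2
    have e21 := congrFun (congrFun hv 2) 1
    simp [symSq] at e00 e11 e12 e21
    rw [e12, e21, mul_zero, add_zero] at e00
    rcases e11 with ha | ha <;> rw [ha] at e00
    · left
      refine Subtype.ext ?_
      ext i j
      fin_cases i <;> fin_cases j <;> simp_all
    · right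
      have hd : g 1 1 = -1 := by linear_combination -e00
      refine Subtype.ext ?_
      ext i j
      fin_cases i <;> fin_cases j <;> simp_all
  · rintro (rfl | rfl)
    · exact map_one _
    · refine Units.ext ?_
      rw [conicHom_val, Units.val_one]
      ext i j
      fin_cases i <;> fin_cases j <;> simp [symSq]

/-- The diagonal torus. -/
def diagMon : Fˣ →* Matrix (Fin 3) (Fin 3) F where
  toFun d := !![1, 0, 0; 0, (d : F), 0; 0, 0, ((d⁻¹ : Fˣ) : F)]
  map_one' := by
    ext i j
    fin_cases i <;> fin_cases j <;> simp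
  map_mul' d e := by
    ext i j
    fin_cases i <;> fin_cases j <;> simp [Matrix.mul_apply, Fin.sum_univ_succ, mul_comm]

/-- The diagonal torus in `GL₃`. -/
def diagHom : Fˣ →* GL (Fin 3) F := (diagMon (F := F)).toHomUnits

lemma diagHom_val (d : Fˣ) :
    (diagHom d).val = !![1, 0, 0; 0, (d : F), 0; 0, 0, ((d⁻¹ : Fˣ) : F)] := rfl

lemma diagHom_mem (d : Fˣ) : diagHom d ∈ soGroup (conicJ F) := by
  rw [mem_soGroup, diagHom_val]
  refine ⟨?_, ?_⟩
  · ext i j
    fin_cases i <;> fin_cases j <;> simp [conicJ, Matrix.mul_apply, Fin.sum_univ_succ]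
  · simp [Matrix.det_fin_three]

/-- An element moving the base point to the point `o` of the conic. -/
def ptSL : Option F → SL(2, F)
  | some c => ⟨!![1, 0; c, 1], by simp [Matrix.det_fin_two]⟩
  | none => ⟨!![0, -1; 1, 0], by simp [Matrix.det_fin_two]⟩

/-- The root group at the base point. -/
def unSL (b : F) : SL(2, F) := ⟨!![1, b; 0, 1], by simp [Matrix.det_fin_two]⟩

lemma conicHom_ptSL_some (c : F) : (conicHom (ptSL (some c))).val = symSq 1 0 c 1 := rfl

lemma conicHom_ptSL_none : (conicHom (ptSL (none : Option F))).val = symSq 0 (-1 : F) 1 0 := rfl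

lemma conicHom_unSL (b : F) : (conicHom (unSL b)).val = symSq 1 b 0 1 := rfl

/-- The parametrisation of `SO₃`. -/
def param (x : Option F × Fˣ × F) : GL (Fin 3) F :=
  conicHom (ptSL x.1) * diagHom x.2.1 * conicHom (unSL x.2.2)

lemma param_mem (x : Option F × Fˣ × F) : param x ∈ soGroup (conicJ F) :=
  mul_mem (mul_mem (conicHom_mem _) (diagHom_mem _)) (conicHom_mem _)

lemma param_injective (h2 : (2 : F) ≠ 0) : Function.Injective (param (F := F)) := by
  rintro ⟨o, d, b⟩ ⟨o', d', b'⟩ h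
  have hv := congrArg Units.val h
  simp only [param, Units.val_mul, conicHom_unSL, diagHom_val] at hv
  have c0 := congrFun (congrFun hv 0) 1
  have c1 := congrFun (congrFun hv 1) 1
  have c2 := congrFun (congrFun hv 2) 1
  have hd : o = o' ∧ d = d' := by
    rcases o with _ | c <;> rcases o' with _ | c' <;>
      simp [conicHom_ptSL_some, conicHom_ptSL_none, symSq, Matrix.mul_apply,
        Fin.sum_univ_succ] at c0 c1 c2
    · exact ⟨rfl, Units.ext c2⟩
    all_goals first
      | exact absurd c1.symm (Units.ne_zero _)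
      | exact absurd c1 (Units.ne_zero _)
      | (obtain rfl : d = d' := Units.ext c1
         exact ⟨congrArg some (mul_right_cancel₀ (Units.ne_zero d) c0), rfl⟩)
  obtain ⟨rfl, rfl⟩ := hd
  have he := congrArg Units.val (mul_left_cancel (show
    conicHom (ptSL o) * diagHom d * conicHom (unSL b) =
      conicHom (ptSL o) * diagHom d * conicHom (unSL b') from h))
  rw [conicHom_unSL, conicHom_unSL] at he
  have e := congrFun (congrFun he 1) 0
  simp [symSq, h2] at e
  rw [e]

lemma exists_ptSL_diag (h2 : (2 : F) ≠ 0) {g : GL (Fin 3) F} (hg : g ∈ soGroup (conicJ F)) :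
    ∃ (o : Option F) (d : Fˣ), ∀ i, (conicHom (ptSL o) * diagHom d).val i 1 = g.val i 1 := by
  have e : 2 * g.val 0 1 ^ 2 + 2 * g.val 1 1 * g.val 2 1 = 0 := by
    have h11 := congrFun (congrFun (mem_soGroup.1 hg).1 1) 1
    simp [conicJ, Matrix.mul_apply, Fin.sum_univ_succ] at h11
    linear_combination h11
  have e' : g.val 0 1 ^ 2 + g.val 1 1 * g.val 2 1 = 0 :=
    mul_left_cancel₀ h2 (by linear_combination e)
  by_cases hx : g.val 1 1 = 0
  · rw [hx, zero_mul, add_zero] at e'
    have hz : g.val 0 1 = 0 := eq_zero_of_pow_eq_zero e'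
    have hy : g.val 2 1 ≠ 0 := fun hy => by
      have hd := (mem_soGroup.1 hg).2
      rw [Matrix.det_fin_three, hx, hy, hz] at hd
      simp at hd
    refine ⟨none, Units.mk0 (-g.val 2 1) (neg_ne_zero.2 hy), fun i => ?_⟩
    rw [Units.val_mul, conicHom_ptSL_none, diagHom_val]
    fin_cases i <;> simp [symSq, Matrix.mul_apply, Fin.sum_univ_succ, hx, hz]
  · refine ⟨some (g.val 0 1 / g.val 1 1), Units.mk0 _ hx, fun i => ?_⟩
    rw [Units.val_mul, conicHom_ptSL_some, diagHom_val]
    fin_cases i <;> simp [symSq, Matrix.mul_apply, Fin.sum_univ_succ, hx]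
    field_simp
    linear_combination -e'

lemma exists_param_eq (h2 : (2 : F) ≠ 0) {g : GL (Fin 3) F} (hg : g ∈ soGroup (conicJ F)) :
    ∃ x, param x = g := by
  obtain ⟨o, d, hcol⟩ := exists_ptSL_diag h2 hg
  set A := conicHom (ptSL o) * diagHom d with hA
  have hAm : A ∈ soGroup (conicJ F) := mul_mem (conicHom_mem _) (diagHom_mem _)
  obtain ⟨k, hk⟩ : ∃ k, k = A⁻¹ * g := ⟨_, rfl⟩
  obtain ⟨hk1, hk2⟩ := mem_soGroup.1
    (show k ∈ soGroup (conicJ F) by rw [hk]; exact mul_mem (inv_mem hAm) hg)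
  have hc : ∀ i, k.val i 1 = (1 : Matrix (Fin 3) (Fin 3) F) i 1 := fun i => by
    have h1 : k.val i 1 = ((A⁻¹ : GL (Fin 3) F).val * A.val) i 1 := by
      rw [hk, Units.val_mul, Matrix.mul_apply, Matrix.mul_apply]
      exact Finset.sum_congr rfl fun j _ => by rw [hcol j]
    rw [h1, ← Units.val_mul, inv_mul_cancel, Units.val_one]
  have k01 : k.val 0 1 = 0 := by simpa using hc 0
  have k11 : k.val 1 1 = 1 := by simpa using hc 1
  have k21 : k.val 2 1 = 0 := by simpa using hc 2
  have q10 := congrFun (congrFun hk1 1) 0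
  have q12 := congrFun (congrFun hk1 1) 2
  have q22 := congrFun (congrFun hk1 2) 2
  have q02 := congrFun (congrFun hk1 0) 2
  simp [conicJ, Matrix.mul_apply, Fin.sum_univ_succ, k01, k11, k21] at q10 q12 q22 q02
  have k00 : k.val 0 0 = 1 := by
    rw [Matrix.det_fin_three, k01, k11, k21, q10, q12] at hk2
    linear_combination hk2
  rw [k00, q10, q12] at q02
  rw [q12] at q22
  have k12 : k.val 1 2 = -(k.val 0 2) ^ 2 := mul_left_cancel₀ h2 (by linear_combination q22)
  have k10 : k.val 1 0 = -(2 * k.val 0 2) := by linear_combination q02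
  refine ⟨(o, d, -k.val 0 2), ?_⟩
  have hku : k = conicHom (unSL (-k.val 0 2)) := by
    refine Units.ext ?_
    rw [conicHom_unSL]
    ext i j
    fin_cases i <;> fin_cases j <;>
      simp [symSq, k00, k01, k10, k11, k12, k21, q10, q12]
  show A * conicHom (unSL (-k.val 0 2)) = g
  rw [← hku, hk, mul_inv_cancel_left]

/-- `|SO₃(q)| = q (q + 1) (q - 1)`. -/
theorem card_soGroup_conicJ [Finite F] (h2 : (2 : F) ≠ 0) :
    Nat.card (soGroup (conicJ F)) = (Nat.card F + 1) * ((Nat.card F - 1) * Nat.card F) := by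
  have hb : Function.Bijective (fun x : Option F × Fˣ × F =>
      (⟨param x, param_mem x⟩ : soGroup (conicJ F))) :=
    ⟨fun x y h => param_injective h2 (congrArg Subtype.val h), fun g => by
      obtain ⟨x, hx⟩ := exists_param_eq h2 g.2
      exact ⟨x, Subtype.ext hx⟩⟩
  rw [← Nat.card_eq_of_bijective _ hb, Nat.card_prod, Nat.card_prod, Finite.card_option,
    Nat.card_units]

/-- If the elements of `F` are squares in `L`, `SO₃(F)` lies in the image of `SL₂(L)`. -/
lemma exists_conicHom_eq_map (h2 : (2 : F) ≠ 0) {L : Type*} [Field L] (φ : F →+* L)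
    (hsq : ∀ d : Fˣ, IsSquare (φ d)) {g : GL (Fin 3) F} (hg : g ∈ soGroup (conicJ F)) :
    ∃ h : SL(2, L), conicHom h = Matrix.GeneralLinearGroup.map φ g := by
  obtain ⟨⟨o, d, b⟩, rfl⟩ := exists_param_eq h2 hg
  obtain ⟨s, hs⟩ := hsq d
  have hs0 : s ≠ 0 := fun h => by
    rw [h, mul_zero] at hs
    exact Units.ne_zero d ((map_eq_zero φ).1 hs)
  set t : SL(2, L) := ⟨!![s, 0; 0, s⁻¹], by simp [Matrix.det_fin_two, hs0]⟩ with ht
  refine ⟨Matrix.SpecialLinearGroup.map φ (ptSL o) * t * Matrix.SpecialLinearGroup.map φ (unSL b), ?_⟩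
  have h1 : ∀ x : SL(2, F), conicHom (Matrix.SpecialLinearGroup.map φ x) =
      Matrix.GeneralLinearGroup.map φ (conicHom x) := fun x =>
    Units.ext (map_conicHom φ x).symm
  have h3 : conicHom t = Matrix.GeneralLinearGroup.map φ (diagHom d) := by
    refine Units.ext ?_
    rw [conicHom_val]
    show _ = (diagHom d).val.map φ
    rw [diagHom_val]
    ext i j
    fin_cases i <;> fin_cases j <;> simp [symSq, ht, hs, hs0, sq]
  rw [map_mul, map_mul, h1, h1, h3, param, map_mul, map_mul]

lemma dotProduct_mulVec_comm {B : Matrix (Fin 3) (Fin 3) F} (hB : Bᵀ = B) (x y : Fin 3 → F) :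
    x ⬝ᵥ B *ᵥ y = y ⬝ᵥ B *ᵥ x := by
  rw [Matrix.dotProduct_mulVec, dotProduct_comm, ← Matrix.mulVec_transpose, hB]

lemma mul_mul_transpose_apply (C B : Matrix (Fin 3) (Fin 3) F) (i j : Fin 3) :
    (C * B * Cᵀ) i j = C i ⬝ᵥ B *ᵥ C j := by
  rw [Matrix.dotProduct_mulVec, Matrix.mul_apply]
  rfl

/-- Every non-degenerate ternary form over a finite field is similar to the conic. -/
theorem exists_conic_basis [Finite F] (h2 : (2 : F) ≠ 0) {B : Matrix (Fin 3) (Fin 3) F}
    (hB : Bᵀ = B) (hdet : B.det ≠ 0) :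
    ∃ (T : GL (Fin 3) F) (c : F), c ≠ 0 ∧ T.valᵀ * B * T.val = c • conicJ F := by
  have hinj : ∀ v : Fin 3 → F, B *ᵥ v = 0 → v = 0 := fun v hv => by
    by_contra h0
    exact hdet (Matrix.exists_mulVec_eq_zero_iff.1 ⟨v, h0, hv⟩)
  obtain ⟨u, hu0, huu, -⟩ := CfsgLib.ClassicalForms.exists_singular_ker
    (LinearMap.BilinMap.toQuadraticMap (Matrix.toBilin' B) : QuadraticForm F (Fin 3 → F))
    (Fin.elim0 : Fin 0 → (Fin 3 → F) →ₗ[F] F) (by simp)
  rw [LinearMap.BilinMap.toQuadraticMap_apply, Matrix.toBilin'_apply'] at huu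
  obtain ⟨i, hi⟩ : ∃ i, (B *ᵥ u) i ≠ 0 :=
    Function.ne_iff.1 fun h => hu0 (hinj u h)
  set y : Fin 3 → F := Pi.single i ((B *ᵥ u) i)⁻¹ with hy
  have huy : u ⬝ᵥ B *ᵥ y = 1 := by
    rw [dotProduct_mulVec_comm hB, hy, single_dotProduct, inv_mul_cancel₀ hi]
  set w : Fin 3 → F := y - ((y ⬝ᵥ B *ᵥ y) / 2) • u with hw
  have huw : u ⬝ᵥ B *ᵥ w = 1 := by
    simp [hw, Matrix.mulVec_sub, Matrix.mulVec_smul, huy, huu]
  have hww : w ⬝ᵥ B *ᵥ w = 0 := by
    have hyu : y ⬝ᵥ B *ᵥ u = 1 := by rw [dotProduct_mulVec_comm hB, huy]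
    simp [hw, Matrix.mulVec_sub, Matrix.mulVec_smul, sub_dotProduct, smul_dotProduct, huy, huu, hyu]
    field_simp
    ring
  set n : Fin 3 → F := crossProduct u w with hn
  have hn0 : n ≠ 0 := by
    intro h0
    have key : crossProduct n (B *ᵥ u) = (u ⬝ᵥ B *ᵥ u) • w - (w ⬝ᵥ B *ᵥ u) • u := by
      rw [hn]
      funext j
      fin_cases j <;>
        simp [crossProduct, dotProduct, Fin.sum_univ_succ] <;> ring
    rw [h0, dotProduct_mulVec_comm hB w u, huw, huu, zero_smul, one_smul, zero_sub,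
      map_zero, LinearMap.zero_apply] at key
    exact hu0 (neg_eq_zero.1 key.symm)
  set x : Fin 3 → F := B⁻¹ *ᵥ n with hx
  have hBx : B *ᵥ x = n := by
    rw [hx, Matrix.mulVec_mulVec, Matrix.mul_nonsing_inv _ (isUnit_iff_ne_zero.2 hdet),
      Matrix.one_mulVec]
  have hx0 : x ≠ 0 := fun h => hn0 (by rw [← hBx, h, Matrix.mulVec_zero])
  have hux : u ⬝ᵥ B *ᵥ x = 0 := by rw [hBx, hn]; exact dot_self_cross u w
  have hwx : w ⬝ᵥ B *ᵥ x = 0 := by rw [hBx, hn]; exact dot_cross_self u w
  have hxu := (dotProduct_mulVec_comm hB x u).trans hux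
  have hxw := (dotProduct_mulVec_comm hB x w).trans hwx
  have hwu := (dotProduct_mulVec_comm hB w u).trans huw
  set a := x ⬝ᵥ B *ᵥ x with ha
  have ha0 : a ≠ 0 := by
    intro h0
    let C : Matrix (Fin 3) (Fin 3) F := Matrix.of ![x, u, w]
    have hCd : C.det ≠ 0 := by
      intro hC
      obtain ⟨t, ht0, ht⟩ := Matrix.exists_vecMul_eq_zero_iff.2 hC
      have hsum : t 0 • x + t 1 • u + t 2 • w = 0 := by
        rw [← ht]
        funext j
        simp [C, Matrix.vecMul, dotProduct, Fin.sum_univ_succ, add_assoc]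
      have t2 : t 2 = 0 := by
        have := congrArg (fun v => u ⬝ᵥ B *ᵥ v) hsum
        simpa [Matrix.mulVec_add, Matrix.mulVec_smul, hux, huu, huw] using this
      have t1 : t 1 = 0 := by
        have := congrArg (fun v => w ⬝ᵥ B *ᵥ v) hsum
        simpa [Matrix.mulVec_add, Matrix.mulVec_smul, hwx, hwu, hww] using this
      rw [t1, t2, zero_smul, zero_smul, add_zero, add_zero, smul_eq_zero] at hsum
      exact ht0 (funext fun j => by fin_cases j <;> simp [hsum.resolve_right hx0, t1, t2])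
    have hM : C * B * Cᵀ = !![a, 0, 0; 0, 0, 1; 0, 1, 0] := by
      ext i j
      rw [mul_mul_transpose_apply]
      show (![x, u, w] : Fin 3 → Fin 3 → F) i ⬝ᵥ B *ᵥ (![x, u, w] : Fin 3 → Fin 3 → F) j = _
      fin_cases i <;> fin_cases j <;> simp [ha, hux, hwx, hxu, hxw, huu, hww, huw, hwu]
    have := congrArg Matrix.det hM
    rw [Matrix.det_mul, Matrix.det_mul, Matrix.det_transpose, Matrix.det_fin_three !![a, 0, 0; 0, 0, 1; 0, 1, 0]] at this
    simp [h0, hCd, hdet] at this
  let C : Matrix (Fin 3) (Fin 3) F := Matrix.of ![x, (a / 2) • u, w]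
  have hM : C * B * Cᵀ = (a / 2) • conicJ F := by
    ext i j
    rw [mul_mul_transpose_apply]
    show (![x, (a / 2) • u, w] : Fin 3 → Fin 3 → F) i ⬝ᵥ
      B *ᵥ (![x, (a / 2) • u, w] : Fin 3 → Fin 3 → F) j = _
    fin_cases i <;> fin_cases j <;>
      simp [conicJ, Matrix.mulVec_smul, ha, hux, hwx, hxu, hxw, huu, hww, huw, hwu]
    field_simp
  have hC : Cᵀ.det ≠ 0 := fun h => by
    have := congrArg Matrix.det hM
    rw [Matrix.det_mul, h, mul_zero, Matrix.det_smul] at this
    simp [conicJ, Matrix.det_fin_three, ha0, h2] at this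
  refine ⟨Matrix.GeneralLinearGroup.mkOfDetNeZero Cᵀ hC, a / 2, div_ne_zero ha0 h2, ?_⟩
  show Cᵀᵀ * B * Cᵀ = _
  rw [Matrix.transpose_transpose]
  exact hM

end CfsgLib.SLThreeSubgroups.Conic
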