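import Cfsg.Agent.Lib.SLThreeSubgroups.Defs
import Cfsg.Agent.Lib.SLThreeSubgroups.QuadConic
import Cfsg.Agent.Lib.SmallDim.Forms
import Cfsg.Agent.Lib.SL2.Dickson.Main
import Cfsg.Agent.Lib.SL2.Dickson.Minimal
import Cfsg.Agent.S0253

/-!
# Almost simple subgroups fixing a quadratic form

Such a group sits inside `SO₃(F)`, which embeds in `PSL₂` of the quadratic extension, and Dickson's
list leaves the groups of orthogonal type.
-/

set_option autoImplicit false
set_option linter.style.haveILetI false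

namespace CfsgLib.SLThreeSubgroups

open Cfsg.Geo Matrix CfsgLib.SLThreeResidual
open scoped MatrixGroups

variable {F : Type*} [Field F] {G P : Subgroup (GL (Fin 3) F)}

/-- A form fixed by an absolutely irreducible group is unique up to scalars. -/
lemma exists_smul_of_invariant (hA : Almost G P) {B M : Matrix (Fin 3) (Fin 3) F}
    (hdet : B.det ≠ 0) (hB : ∀ g ∈ P, g.valᵀ * B * g.val = B)
    (hM : ∀ g ∈ P, g.valᵀ * M * g.val = M) : ∃ c : F, M = c • B := by
  have hu : IsUnit B.det := isUnit_iff_ne_zero.2 hdet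
  obtain ⟨c, hc⟩ := hA.core.absIrred.2 (B⁻¹ * M) (by
    rintro _ ⟨g, hg, rfl⟩
    show B⁻¹ * M * g.val = g.val * (B⁻¹ * M)
    have hgT : IsUnit g.valᵀ.det := by
      rw [Matrix.det_transpose]
      exact (Matrix.isUnit_iff_isUnit_det _).1 g.isUnit
    have h3 : g.valᵀ * (B * g.val * (B⁻¹ * M)) = g.valᵀ * (M * g.val) := by
      rw [← mul_assoc, ← mul_assoc g.valᵀ B, hB g hg, ← mul_assoc,
        Matrix.mul_nonsing_inv _ hu, one_mul, ← mul_assoc, hM g hg]
    have h4 : B * g.val * (B⁻¹ * M) = M * g.val := by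
      have h5 := congrArg (fun Y => g.valᵀ⁻¹ * Y) h3
      simpa [← mul_assoc, Matrix.nonsing_inv_mul _ hgT] using h5
    calc B⁻¹ * M * g.val = B⁻¹ * (B * g.val * (B⁻¹ * M)) := by rw [h4, mul_assoc]
      _ = g.val * (B⁻¹ * M) := by
        rw [mul_assoc B, ← mul_assoc B⁻¹, Matrix.nonsing_inv_mul _ hu, one_mul])
  refine ⟨c, ?_⟩
  calc M = B * (B⁻¹ * M) := by rw [← mul_assoc, Matrix.mul_nonsing_inv _ hu, one_mul]
    _ = c • B := by rw [hc, Matrix.mul_smul, mul_one]

lemma mem_specialLinear_det {g : GL (Fin 3) F} (hg : g ∈ specialLinear (Fin 3) F) :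
    g.val.det = 1 := by
  have h := congrArg Units.val (MonoidHom.mem_ker.1 hg)
  simpa using h

/-- A group normalising a group with an invariant form maps into the special isometries, the kernel
being the scalars. -/
theorem exists_soHom (hA : Almost G P) {B : Matrix (Fin 3) (Fin 3) F} (hdet : B.det ≠ 0)
    (hB : ∀ g ∈ P, g.valᵀ * B * g.val = B) :
    ∃ n : G →* Conic.soGroup B, n.ker = (scalars (Fin 3) F).subgroupOf G := by
  have hB0 : B ≠ 0 := fun h => hdet (by rw [h]; simp)
  have hex : ∀ h : G, ∃ c : F, (h : GL (Fin 3) F).valᵀ * B * (h : GL (Fin 3) F).val = c • B := by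
    intro h
    refine exists_smul_of_invariant hA hdet hB fun g hg => ?_
    have hk := hB _ (hA.normal h h.2 g hg)
    set a := ((h : GL (Fin 3) F) : Matrix (Fin 3) (Fin 3) F) with ha
    have e : a * g.val = ((h : GL (Fin 3) F) * g * (h : GL (Fin 3) F)⁻¹).val * a := by
      rw [ha, ← Units.val_mul, ← Units.val_mul]
      congr 1
      group
    calc g.valᵀ * (aᵀ * B * a) * g.val = (a * g.val)ᵀ * B * (a * g.val) := by
          simp only [Matrix.transpose_mul, mul_assoc]
      _ = aᵀ * B * a := by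
          rw [e]
          conv_rhs => rw [← hk]
          simp only [Matrix.transpose_mul, mul_assoc]
  choose c hc using hex
  have hinj := smul_left_injective F hB0
  have hc1 : c 1 = 1 := hinj (by
    show c 1 • B = (1 : F) • B
    rw [← hc 1]
    simp)
  have hcmul : ∀ a b : G, c (a * b) = c a * c b := fun a b => hinj (by
    show c (a * b) • B = (c a * c b) • B
    rw [← hc (a * b), Subgroup.coe_mul, Units.val_mul, Matrix.transpose_mul]
    calc _ = (b : GL (Fin 3) F).valᵀ * ((a : GL (Fin 3) F).valᵀ * B * (a : GL (Fin 3) F).val) *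
          (b : GL (Fin 3) F).val := by simp only [mul_assoc]
      _ = _ := by rw [hc a, Matrix.mul_smul, Matrix.smul_mul, hc b, smul_smul])
  have hc3 : ∀ a : G, c a ^ 3 = 1 := fun a => by
    have h := congrArg Matrix.det (hc a)
    rw [Matrix.det_mul, Matrix.det_mul, Matrix.det_transpose,
      mem_specialLinear_det (hA.le_sl a.2), Matrix.det_smul, Fintype.card_fin, one_mul, mul_one] at h
    exact mul_right_cancel₀ hdet (by rw [one_mul]; exact h.symm)
  let ν : G →* Matrix (Fin 3) (Fin 3) F :=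
    { toFun := fun a => c a • (a : GL (Fin 3) F).val
      map_one' := by simp [hc1]
      map_mul' := fun a b => by
        rw [hcmul, Subgroup.coe_mul, Units.val_mul, Matrix.smul_mul, Matrix.mul_smul, smul_smul] }
  have hval : ∀ a : G, (ν.toHomUnits a).val = c a • (a : GL (Fin 3) F).val := fun _ => rfl
  refine ⟨ν.toHomUnits.codRestrict (Conic.soGroup B) fun a => ?_, ?_⟩
  · rw [Conic.mem_soGroup, hval]
    refine ⟨?_, ?_⟩
    · rw [Matrix.transpose_smul, Matrix.smul_mul, Matrix.smul_mul, Matrix.mul_smul, hc a, smul_smul,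
        smul_smul, show c a * c a * c a = c a ^ 3 by ring, hc3, one_smul]
    · rw [Matrix.det_smul, Fintype.card_fin, hc3, one_mul, mem_specialLinear_det (hA.le_sl a.2)]
  · rw [MonoidHom.ker_codRestrict]
    ext a
    rw [MonoidHom.mem_ker, Subgroup.mem_subgroupOf]
    constructor
    · intro h
      have hv := congrArg Units.val h
      rw [hval, Units.val_one] at hv
      have hne : c a ≠ 0 := fun h0 => by
        have := hc3 a
        rw [h0, zero_pow three_ne_zero] at this
        exact zero_ne_one this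
      refine (mem_scalars_iff _).2 ⟨(Units.mk0 (c a) hne)⁻¹, ?_⟩
      rw [← hv, smul_smul, Units.val_inv_eq_inv_val, Units.val_mk0, inv_mul_cancel₀ hne, one_smul]
    · intro h
      obtain ⟨s, hs⟩ := (mem_scalars_iff _).1 h
      have hd := mem_specialLinear_det (hA.le_sl a.2)
      rw [hs, Matrix.det_smul, Fintype.card_fin, Matrix.det_one, mul_one] at hd
      have hca : c a = (s : F) * s := hinj (by
        show c a • B = ((s : F) * s) • B
        rw [← hc a, hs]
        simp [smul_smul])
      refine Units.ext ?_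
      rw [hval, hca, hs, smul_smul, show (s : F) * s * s = (s : F) ^ 3 by ring, hd, one_smul,
        Units.val_one]

/-- Conjugation from the special isometries of `B` to those of a similar form. -/
lemma exists_conjHom {B J : Matrix (Fin 3) (Fin 3) F} {T : GL (Fin 3) F} {c : F} (hc : c ≠ 0)
    (hT : T.valᵀ * B * T.val = c • J) :
    ∃ f : Conic.soGroup B →* Conic.soGroup J, Function.Injective f := by
  have hmem : ∀ g ∈ Conic.soGroup B, T⁻¹ * g * T ∈ Conic.soGroup J := by
    intro g hg
    obtain ⟨hg1, hg2⟩ := Conic.mem_soGroup.1 hg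
    refine Conic.mem_soGroup.2 ⟨?_, ?_⟩
    · refine smul_right_injective _ hc ?_
      show c • ((T⁻¹ * g * T).valᵀ * J * (T⁻¹ * g * T).val) = c • J
      rw [← Matrix.smul_mul, ← Matrix.mul_smul, ← hT, Units.val_mul, Units.val_mul]
      calc _ = T.valᵀ * g.valᵀ * ((T.val * (T⁻¹ : GL (Fin 3) F).val)ᵀ * B *
            (T.val * (T⁻¹ : GL (Fin 3) F).val)) * g.val * T.val := by
            simp only [Matrix.transpose_mul, mul_assoc]
        _ = T.valᵀ * (g.valᵀ * B * g.val) * T.val := by
            rw [Units.mul_inv]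
            simp only [Matrix.transpose_one, one_mul, mul_one, mul_assoc]
        _ = T.valᵀ * B * T.val := by rw [hg1]
    · rw [Units.val_mul, Units.val_mul, Matrix.det_mul_right_comm, Units.inv_mul, one_mul, hg2]
  refine ⟨(((MulAut.conj T⁻¹).toMonoidHom).comp (Conic.soGroup B).subtype).codRestrict _
    (fun g => by simpa [MulAut.conj_apply] using hmem g g.2), fun a b h => ?_⟩
  exact Subtype.ext ((MulAut.conj T⁻¹).injective (congrArg Subtype.val h))

/-- The preimage of the socle keeps `GBar G` from being soluble. -/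
lemma not_isSolvable_gBar (hA : Almost G P) : ¬ Group.IsSolvable (GBar G) := by
  intro hs
  set ρ : P →* GBar G := (QuotientGroup.mk' _).comp (Subgroup.inclusion hA.le) with hρ
  have hcomm : commutator P = ⊤ := by
    apply Subgroup.map_injective P.subtype_injective
    rw [Subgroup.map_subtype_commutator, hA.core.perfect, ← MonoidHom.range_eq_map,
      Subgroup.range_subtype]
  have hsol : Group.IsSolvable ρ.range :=
    Group.isSolvable_of_isSolvable_injective (f := ρ.range.subtype) Subtype.coe_injective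
  have hQ : commutator ρ.range = ⊤ := by
    rw [_root_.eq_top_iff]
    calc (⊤ : Subgroup ρ.range) = (commutator P).map ρ.rangeRestrict := by
          rw [hcomm, Subgroup.map_top_of_surjective _ ρ.rangeRestrict_surjective]
      _ ≤ commutator ρ.range := by
          rw [commutator_def, commutator_def, Subgroup.map_commutator]
          exact Subgroup.commutator_mono le_top le_top
  have hss : Subsingleton ρ.range := by
    by_contra hn
    rw [not_subsingleton_iff_nontrivial] at hn
    exact (Group.IsSolvable.commutator_lt_top_of_nontrivial ρ.range).ne hQ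
  have hscal : ∀ x : P, x ∈ (scalars (Fin 3) F).subgroupOf P := fun x => by
    have h1 : ρ x = 1 :=
      congrArg Subtype.val (Subsingleton.elim (⟨ρ x, x, rfl⟩ : ρ.range) 1)
    have h2 := (QuotientGroup.eq_one_iff _).1 h1
    exact h2
  refine hA.core.nonabelian ⟨⟨fun a b => ?_⟩⟩
  obtain ⟨x, rfl⟩ := QuotientGroup.mk_surjective a
  rw [(QuotientGroup.eq_one_iff x).2 (hscal x), one_mul, mul_one]

/-- An equivalence out of `GBar G` onto a soluble group is impossible. -/
lemma false_of_equiv_solvable (hA : Almost G P) {X : Type*} [Group X] (e : GBar G ≃* X)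
    (h : Group.IsSolvable X) : False :=
  not_isSolvable_gBar hA (Group.isSolvable_of_surjective (f := e.symm.toMonoidHom) e.symm.surjective)

/-- `p^(2β) - 1` dividing twice `p^(2α) - 1` forces `β ∣ α`. -/
lemma dvd_of_pow_sub_one_dvd {p α β : ℕ} (hp : 3 ≤ p) (hβ : 0 < β)
    (h : p ^ (2 * β) - 1 ∣ 2 * (p ^ (2 * α) - 1)) : β ∣ α := by
  have h1 : p ^ (2 * β) - 1 ∣ 2 * (p ^ Nat.gcd (2 * β) (2 * α) - 1) := by
    rw [← Nat.pow_sub_one_gcd_pow_sub_one, ← Nat.gcd_mul_left]
    exact Nat.dvd_gcd (dvd_mul_left _ _) h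
  set g := Nat.gcd (2 * β) (2 * α) with hg
  have hg0 : 0 < g := Nat.gcd_pos_of_pos_left _ (by omega)
  obtain ⟨k, hk⟩ : g ∣ 2 * β := Nat.gcd_dvd_left _ _
  rcases Nat.lt_or_ge k 2 with hk2 | hk2
  · interval_cases k
    · omega
    · rw [mul_one] at hk
      refine Nat.dvd_of_mul_dvd_mul_left two_pos ?_
      rw [hk]
      exact Nat.gcd_dvd_right _ _
  · exfalso
    have hgb : g ≤ β := by nlinarith
    have h3 : 3 ≤ p ^ g := hp.trans (Nat.le_self_pow (by omega) p)
    have h4 : p ^ g ≤ p ^ β := Nat.pow_le_pow_right (by omega) hgb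
    have h5 := Nat.le_of_dvd (by omega) h1
    have h6 : p ^ (2 * β) = p ^ β * p ^ β := by rw [two_mul, pow_add]
    have h7 : 3 * p ^ β ≤ p ^ β * p ^ β := Nat.mul_le_mul_right _ (h3.trans h4)
    omega

/-- The order of `PSL₂(p^β)` dividing that of `SO₃(p^α)` forces `β ∣ α`. -/
lemma dvd_of_psl_dvd {p α β : ℕ} [hp : Fact p.Prime] (hp2 : p ≠ 2) (hβ : 0 < β)
    {K : Type*} [Field K] [Finite K] (hK : Nat.card K = p ^ β)
    (h : Nat.card (Matrix.ProjectiveSpecialLinearGroup (Fin 2) K) ∣
      (p ^ α + 1) * ((p ^ α - 1) * p ^ α)) : β ∣ α := by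
  have h3 : 3 ≤ p := by
    have := hp.out.two_le
    omega
  refine dvd_of_pow_sub_one_dvd h3 hβ ?_
  have hodd : Odd (p ^ β) := (hp.out.odd_of_ne_two hp2).pow
  have hc : Nat.card (Subgroup.center SL(2, K)) = 2 := by
    rw [CfsgLib.SL2.center_card_eq_gcd, hK]
    rw [Nat.odd_iff] at hodd
    exact Nat.gcd_eq_left (by omega)
  have e := CfsgLib.SL2.Dickson.card_PSL_mul (F := K)
  rw [hK, hc] at e
  have hb : (p ^ β + 1) * (p ^ β - 1) = p ^ (2 * β) - 1 := by
    rw [← Nat.sq_sub_sq, one_pow, ← pow_mul, mul_comm]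
  have ha : (p ^ α + 1) * (p ^ α - 1) = p ^ (2 * α) - 1 := by
    rw [← Nat.sq_sub_sq, one_pow, ← pow_mul, mul_comm]
  have h2 : p ^ (2 * β) - 1 ∣ 2 * (p ^ (2 * α) - 1) * p ^ α := by
    rw [← hb, ← ha]
    refine (Dvd.intro_left _ e.symm).trans ?_
    rw [show 2 * ((p ^ α + 1) * (p ^ α - 1)) * p ^ α = 2 * ((p ^ α + 1) * ((p ^ α - 1) * p ^ α)) by
      ring]
    exact mul_dvd_mul_left 2 h
  refine Nat.Coprime.dvd_of_dvd_mul_right ?_ h2
  refine Nat.Coprime.pow_right α ((hp.out.coprime_iff_not_dvd.2 fun hd => ?_).symm)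
  have hpow : p ∣ p ^ (2 * β) := dvd_pow_self p (by omega)
  have hpos : 1 ≤ p ^ (2 * β) := Nat.one_le_pow _ _ hp.out.pos
  have h1 : p ∣ 1 := by
    have := Nat.dvd_sub hpow hd
    rwa [Nat.sub_sub_self hpos] at this
  exact hp.out.one_lt.ne' (Nat.dvd_one.1 h1)

section Finite

variable [Fintype F] {p α : ℕ} [Fact p.Prime]

/-- A non-degenerate form fixed by `P` gives a symmetric invertible Gram matrix fixed by `P`. -/
lemma exists_gram_of_quadFix (hQ : QuadFix P) :
    ∃ B : Matrix (Fin 3) (Fin 3) F, Bᵀ = B ∧ B.det ≠ 0 ∧ ∀ g ∈ P, g.valᵀ * B * g.val = B := by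
  obtain ⟨Q, hQ, hfix⟩ := hQ
  have hs := CfsgLib.SmallDim.IsSesqui.of_bilinear hQ.polar_bilinear
  refine ⟨gramMatrix (QuadraticMap.polar Q), ?_, ?_, fun g hg => ?_⟩
  · ext i j
    exact QuadraticMap.polar_comm _ _ _
  · exact (hs.isUnit_det_gram Function.surjective_id hQ.nondegenerate).ne_zero
  · have h1 := hs.gram_transform g.val
    have h2 : (fun u v => QuadraticMap.polar Q (g.val *ᵥ u) (g.val *ᵥ v)) = QuadraticMap.polar Q :=
      funext₂ fun u v => CfsgLib.SmallDim.fixesForm_polar hfix _ ⟨g, hg, rfl⟩ u v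
    rw [h2] at h1
    simpa using h1.symm

/-- `SO₃(F)` lies in `PSL₂` of the quadratic extension. -/
lemma exists_conic_to_psl (hF : Fintype.card F = p ^ α) (hp : p ≠ 2) :
    ∃ (L : Type) (_ : Field L) (_ : Fintype L), Fintype.card L = p ^ (2 * α) ∧ CharP L p ∧
      ∃ f : Conic.soGroup (Conic.conicJ F) →* Matrix.ProjectiveSpecialLinearGroup (Fin 2) L,
        Function.Injective f := by
  classical
  have hα : α ≠ 0 := fun h => by
    rw [h, pow_zero] at hF
    exact absurd hF (Fintype.one_lt_card).ne'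
  have hcharF : CharP F p := by
    obtain ⟨r, hr, hrc, hdvd⟩ := CfsgLib.SL2.exists_charP (F := F)
    rw [Nat.card_eq_fintype_card, hF] at hdvd
    obtain rfl : r = p := (Nat.prime_dvd_prime_iff_eq hr Fact.out).1 (hr.dvd_of_dvd_pow hdvd)
    exact hrc
  letI : Algebra (ZMod p) F := ZMod.algebra F p
  have hfin : Module.finrank (ZMod p) F = α := by
    have h := Module.natCard_eq_pow_finrank (K := ZMod p) (V := F)
    rw [Nat.card_eq_fintype_card, hF, Nat.card_zmod] at h
    exact (Nat.pow_right_injective (Fact.out : p.Prime).two_le h).symm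
  have h2α : 2 * α ≠ 0 := by omega
  obtain ⟨φ'⟩ := FiniteField.nonempty_algHom_of_finrank_dvd (F := ZMod p) (K := F)
    (L := GaloisField p (2 * α)) (by rw [GaloisField.finrank p h2α, hfin]; exact dvd_mul_left α 2)
  have hL : Nat.card (GaloisField p (2 * α)) = p ^ (2 * α) := GaloisField.card p _ h2α
  letI : Fintype (GaloisField p (2 * α)) := Fintype.ofFinite _
  rw [Nat.card_eq_fintype_card] at hL
  refine ⟨GaloisField p (2 * α), inferInstance, inferInstance, hL, inferInstance, ?_⟩
  set φ : F →+* GaloisField p (2 * α) := φ'.toRingHom with hφ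
  have h2F : (2 : F) ≠ 0 := Ring.two_ne_zero (by rw [ringChar.eq F p]; exact hp)
  have hcL : ringChar (GaloisField p (2 * α)) ≠ 2 := by rw [ringChar.eq (GaloisField p (2 * α)) p]; exact hp
  have hsq : ∀ d : Fˣ, IsSquare (φ d) := fun d => by
    have hd0 : φ (d : F) ≠ 0 := fun h => Units.ne_zero d ((map_eq_zero φ).1 h)
    rw [FiniteField.isSquare_iff hcL hd0, hL]
    obtain ⟨k, hk⟩ : Odd (p ^ α) := ((Fact.out : p.Prime).odd_of_ne_two hp).pow
    have he : p ^ (2 * α) / 2 = (p ^ α - 1) * (k + 1) := by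
      have : p ^ (2 * α) = 2 * ((p ^ α - 1) * (k + 1)) + 1 := by
        rw [two_mul, pow_add, hk, Nat.add_sub_cancel]
        ring
      omega
    rw [he, pow_mul, ← map_pow, ← hF, FiniteField.pow_card_sub_one_eq_one _ (Units.ne_zero d),
      map_one, one_pow]
  let χ : Matrix.ProjectiveSpecialLinearGroup (Fin 2) (GaloisField p (2 * α)) →*
      GL (Fin 3) (GaloisField p (2 * α)) :=
    QuotientGroup.lift _ Conic.conicHom Conic.ker_conicHom.ge
  have hχ : Function.Injective χ := by
    rw [injective_iff_map_eq_one]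
    intro x hx
    obtain ⟨g, rfl⟩ := QuotientGroup.mk_surjective x
    exact (QuotientGroup.eq_one_iff g).2 (Conic.ker_conicHom.le (MonoidHom.mem_ker.2 hx))
  let μ : Conic.soGroup (Conic.conicJ F) →* χ.range :=
    ((Matrix.GeneralLinearGroup.map φ).comp (Conic.soGroup (Conic.conicJ F)).subtype).codRestrict _
      fun g => by
        obtain ⟨h, hh⟩ := Conic.exists_conicHom_eq_map h2F φ hsq g.2
        exact ⟨QuotientGroup.mk h, hh⟩
  refine ⟨(MonoidHom.ofInjective hχ).symm.toMonoidHom.comp μ,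
    (MonoidHom.ofInjective hχ).symm.injective.comp fun a b h => ?_⟩
  have h1 : Matrix.GeneralLinearGroup.map φ a.1 = Matrix.GeneralLinearGroup.map φ b.1 :=
    congrArg Subtype.val h
  exact Subtype.ext (Units.ext (Matrix.map_injective φ.injective (congrArg Units.val h1)))

/-- The two-dimensional linear groups over a subfield: the degree divides, and the field has more
than three elements. -/
lemma orth_of_psl (hA : Almost G P) (hp : p ≠ 2)
    (hdiv : Nat.card (GBar G) ∣ (p ^ α + 1) * ((p ^ α - 1) * p ^ α))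
    {K : Type} [Field K] [Fintype K] {β : ℕ} (hβ : 0 < β) (hK : Fintype.card K = p ^ β)
    (e : Nonempty (GBar G ≃* Matrix.ProjectiveSpecialLinearGroup (Fin 2) K) ∨
      Nonempty (GBar G ≃* Matrix.ProjGenLinGroup (Fin 2) K)) : IsOrthType p α (GBar G) := by
  have hK' : Nat.card K = p ^ β := by rw [Nat.card_eq_fintype_card, hK]
  have h3 : p ^ β ≠ 3 := fun h => by
    rcases e with he | he <;> obtain ⟨e'⟩ := he
    · exact false_of_equiv_solvable hA e'
        (CfsgLib.SL2.Dickson.isSolvable_psl_small (by rw [hK', h]))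
    · exact false_of_equiv_solvable hA e'
        (CfsgLib.SL2.Dickson.isSolvable_pgl_three (by rw [hK', h]))
  have hd : Nat.card (Matrix.ProjectiveSpecialLinearGroup (Fin 2) K) ∣ Nat.card (GBar G) := by
    rcases e with he | he <;> obtain ⟨e'⟩ := he
    · rw [Nat.card_congr e'.toEquiv]
    · rw [Nat.card_congr e'.toEquiv]
      exact Subgroup.card_dvd_of_injective _ Matrix.ProjectiveSpecialLinearGroup.toPGL_injective
  refine Or.inl ⟨K, inferInstance, inferInstance, β, hK,
    dvd_of_psl_dvd hp hβ hK' (hd.trans hdiv), h3, ?_⟩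
  exact e

/-- An almost simple group whose socle preimage fixes a quadratic form is of orthogonal type. -/
theorem isOrthType_of_quadFix (hF : Fintype.card F = p ^ α) (hp : p ≠ 2) (hA : Almost G P)
    (hQ : QuadFix P) : IsOrthType p α (GBar G) := by
  classical
  have hα : 0 < α := Nat.pos_of_ne_zero fun h => by
    rw [h, pow_zero] at hF
    exact absurd hF (Fintype.one_lt_card).ne'
  have hodd : Odd (p ^ α) := ((Fact.out : p.Prime).odd_of_ne_two hp).pow
  have h2F : (2 : F) ≠ 0 := Ring.two_ne_zero fun hc => by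
    have h := FiniteField.even_card_of_char_two hc
    rw [hF] at h
    rw [Nat.odd_iff] at hodd
    omega
  obtain ⟨B, hBs, hBd, hBP⟩ := exists_gram_of_quadFix hQ
  obtain ⟨n, hn⟩ := exists_soHom hA hBd hBP
  obtain ⟨T, c, hc, hT⟩ := Conic.exists_conic_basis h2F hBs hBd
  obtain ⟨f, hf⟩ := exists_conjHom hc hT
  obtain ⟨L, _, _, hL, hcL, ψ, hψ⟩ := exists_conic_to_psl hF hp
  have : Finite (Conic.soGroup (Conic.conicJ F)) := inferInstance
  let n' : GBar G →* Conic.soGroup B := QuotientGroup.lift _ n hn.ge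
  have hn' : Function.Injective n' := by
    rw [injective_iff_map_eq_one]
    intro x hx
    obtain ⟨g, rfl⟩ := QuotientGroup.mk_surjective x
    exact (QuotientGroup.eq_one_iff g).2 (hn.le (MonoidHom.mem_ker.2 hx))
  have hdiv : Nat.card (GBar G) ∣ (p ^ α + 1) * ((p ^ α - 1) * p ^ α) := by
    have h := Subgroup.card_dvd_of_injective (f.comp n') (hf.comp hn')
    rwa [Conic.card_soGroup_conicJ h2F, Nat.card_eq_fintype_card (α := F), hF] at h
  set Φ := ψ.comp (f.comp n') with hΦ
  have hΦi : Function.Injective Φ := hψ.comp (hf.comp hn')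
  let e : GBar G ≃* Φ.range := MonoidHom.ofInjective hΦi
  have hns : ¬ Group.IsSolvable Φ.range := fun h => false_of_equiv_solvable hA e h
  rcases CfsgLib.SL2.Dickson.classification (CfsgLib.SL2.Dickson.center_le_lift Φ.range) with
    h | h | ⟨-, ⟨d⟩⟩ | ⟨-, ⟨d⟩⟩ | ⟨-, ⟨d⟩⟩ | ⟨R, k, hR3, -, hR⟩
  · exact absurd (CfsgLib.SL2.Dickson.isSolvable_of_lift
      (CfsgLib.SL2.Dickson.isSolvable_of_isBorelCase h)) hns
  · exact absurd (CfsgLib.SL2.Dickson.isSolvable_of_lift
      (CfsgLib.SL2.Dickson.isSolvable_of_isTorusCase h)) hns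
  · exact (false_of_equiv_solvable hA ((e.trans (CfsgLib.SL2.Dickson.liftEquiv _).symm).trans d)
      CfsgLib.SL2.Dickson.isSolvable_alternating_four).elim
  · exact (false_of_equiv_solvable hA ((e.trans (CfsgLib.SL2.Dickson.liftEquiv _).symm).trans d)
      CfsgLib.SL2.Dickson.isSolvable_perm_four).elim
  · set d5 := (e.trans (CfsgLib.SL2.Dickson.liftEquiv _).symm).trans d
    have : Fact (Nat.Prime 5) := ⟨by norm_num⟩
    obtain ⟨e5⟩ := Cfsg.Agent.S0253.result (F := ZMod 5) (ZMod.card 5)
    by_cases hp5 : p = 5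
    · refine Or.inl ⟨ZMod 5, inferInstance, inferInstance, 1, ?_, one_dvd α, ?_,
        Or.inl ⟨d5.trans e5.symm⟩⟩
      · rw [pow_one, hp5, ZMod.card]
      · rw [pow_one, hp5]; norm_num
    · refine Or.inr ⟨?_, ZMod 5, inferInstance, inferInstance, ZMod.card 5, ⟨d5.trans e5.symm⟩⟩
      have h5 : 5 ∣ Nat.card (GBar G) := by
        rw [Nat.card_congr d5.toEquiv, nat_card_alternatingGroup, Nat.card_fin]
        decide
      have h5' := h5.trans hdiv
      have hnd : ¬ 5 ∣ p ^ α := fun hh =>
        hp5 ((Nat.prime_dvd_prime_iff_eq (by norm_num) Fact.out).1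
          ((by norm_num : Nat.Prime 5).dvd_of_dvd_pow hh)).symm
      rw [Nat.odd_iff] at hodd
      rcases (Nat.Prime.dvd_mul (by norm_num)).1 h5' with h | h
      · omega
      · rcases (Nat.Prime.dvd_mul (by norm_num)).1 h with h | h
        · omega
        · exact absurd h hnd
  · have hRfin : Nat.card R ^ Module.finrank R L = p ^ (2 * α) := by
      rw [← Module.natCard_eq_pow_finrank (K := R) (V := L), Nat.card_eq_fintype_card, hL]
    have hR1 : Nat.card R ∣ p ^ (2 * α) := hRfin ▸ dvd_pow_self _ Module.finrank_pos.ne'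
    obtain ⟨β, -, hβ⟩ := (Nat.dvd_prime_pow Fact.out).1 hR1
    obtain ⟨K, iK, iF, hK, ⟨eK⟩⟩ := CfsgLib.SL2.Dickson.exists_small_field R
    have hK' : Fintype.card K = p ^ β := by rw [← Nat.card_eq_fintype_card, hK, hβ]
    have hβ0 : 0 < β := Nat.pos_of_ne_zero fun h => by
      rw [h, pow_zero] at hβ
      omega
    refine orth_of_psl hA hp hdiv hβ0 hK' ?_
    rcases hR with ⟨-, ⟨d⟩⟩ | ⟨-, ⟨d⟩⟩
    · exact Or.inr ⟨((e.trans (CfsgLib.SL2.Dickson.liftEquiv _).symm).trans d).trans
        (CfsgLib.SL2.Dickson.pglCongr eK)⟩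
    · exact Or.inl ⟨((e.trans (CfsgLib.SL2.Dickson.liftEquiv _).symm).trans d).trans
        (CfsgLib.ClassicalLinear.pslCongr eK)⟩

end Finite

end CfsgLib.SLThreeSubgroups
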