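import Cfsg.Agent.S0205
import Cfsg.Agent.Lib.SLThreeSubgroups.Defs
import Cfsg.Agent.Lib.SmallDim.Residual

/-!
# Reduction to an almost simple subgroup of the three-dimensional special linear group

The preimage of a subgroup of `PSL₃` without non-trivial normal elementary abelian subgroup is irreducible
in odd characteristic and contains a perfect absolutely irreducible normal subgroup, simple modulo scalars.
-/

set_option autoImplicit false
set_option linter.style.haveILetI false

namespace CfsgLib.SLThreeSubgroups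

open scoped MatrixGroups Matrix
open Cfsg.Geo CfsgLib.SmallDim CfsgLib.SLThreeResidual

section Generic

variable {ι : Type} [Fintype ι] [DecidableEq ι] {F : Type*} [Field F] [Finite F]

set_option maxHeartbeats 1000000 in
/-- A minimal perfect non-scalar normal subgroup is simple modulo scalars. -/
theorem simple_of_perfect (hn : (Fintype.card ι).Prime) {H N : Subgroup (GL ι F)} (hN : NormalIn N H)
    (habs : ActsAbsolutelyIrreducibly (matrixSet N))
    (hperf : ⁅N, N⁆ = N)
    (hmin : ∀ M, NormalIn M H → M ≤ N → M ≤ scalars ι F ∨ M = N) :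
    IsSimpleGroup (N ⧸ (scalars ι F).subgroupOf N) ∧
      ¬ IsMulCommutative (N ⧸ (scalars ι F).subgroupOf N) ∧
      ∀ b : GL ι F, (∀ a ∈ N, b * a * b⁻¹ * a⁻¹ ∈ scalars ι F) → b ∈ scalars ι F := by
  classical
  haveI : Nonempty ι := Fintype.card_pos_iff.mp hn.pos
  have hcomm : ¬ ∀ a ∈ N, ∀ b ∈ N, a * b = b * a := not_commutative_of_absIrred hn.one_lt habs
  have hns : ¬ N ≤ scalars ι F := fun h => hcomm fun a ha b _ => scalars_commute (h ha) b
  have hscalar : ∀ b, (∀ a ∈ N, b * a = a * b) → b ∈ scalars ι F := by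
    intro b hb
    obtain ⟨c, hc⟩ := habs.2 _ (by
      rintro _ ⟨a, ha, rfl⟩
      exact congrArg Units.val (hb a ha))
    exact mem_scalars_of_act c fun v => act_scalar hc v
  -- every non-scalar normal subgroup of `N` is `N`
  have hsimple : ∀ L, NormalIn L N → ¬ L ≤ scalars ι F → L = N := by
    intro L₀ hL₀ hL₀s
    have hex : ∃ k, ∃ L, NormalIn L N ∧ L ≤ L₀ ∧ ¬ L ≤ scalars ι F ∧ Nat.card L = k :=
      ⟨_, L₀, hL₀, le_rfl, hL₀s, rfl⟩
    obtain ⟨L, hL, hLL₀, hLs, hLk⟩ := Nat.find_spec hex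
    have hLmin : ∀ M, NormalIn M N → M ≤ L → M ≤ scalars ι F ∨ M = L := by
      intro M hM hML
      by_cases hMs : M ≤ scalars ι F
      · exact Or.inl hMs
      · exact Or.inr (Subgroup.eq_of_le_of_card_ge hML
          (hLk ▸ Nat.find_min' hex ⟨M, hM, hML.trans hLL₀, hMs, rfl⟩))
    -- the subgroup generated by the conjugates of `L` is `N`
    set S : Subgroup (GL ι F) := ⨆ h : H, L.map (MulAut.conj (h : GL ι F)).toMonoidHom
    have hLS : L ≤ S := le_iSup_of_le (1 : H) (fun a ha => ⟨a, ha, by simp⟩)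
    have hSN : S ≤ N := iSup_le fun h => (hL.conjugate hN h.2).le
    have hS : NormalIn S H := by
      refine ⟨hSN.trans hN.le, fun g hg x hx => ?_⟩
      have : S.map (MulAut.conj g).toMonoidHom ≤ S := by
        rw [Subgroup.map_iSup]
        refine iSup_le fun h => le_iSup_of_le ⟨g * h, H.mul_mem hg h.2⟩ ?_
        rintro _ ⟨_, ⟨a, ha, rfl⟩, rfl⟩
        exact ⟨a, ha, by simp [mul_assoc]⟩
      exact this ⟨x, hx, rfl⟩
    have hSeq : S = N := (hmin S hS hSN).resolve_left fun h => hLs (hLS.trans h)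
    rcases hLmin _ hL.commutator (Subgroup.commutator_le_self L) with hder | hder
    · exfalso
      -- `N` would be nilpotent
      have hnil : ∀ h : H, (L.map (MulAut.conj (h : GL ι F)).toMonoidHom).subgroupOf N ≤ Cfsg.fittingSubgroup N := by
        intro h
        have hc := hL.conjugate hN h.2
        haveI : ((L.map (MulAut.conj (h : GL ι F)).toMonoidHom).subgroupOf N).Normal :=
          ⟨fun a ha g => hc.conj g g.2 _ ha⟩
        refine CfsgLib.Cores.le_fittingSubgroup ?_
        haveI : Group.IsNilpotent L := isNilpotent_of_commutator_scalar hder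
        haveI : Group.IsNilpotent (L.map (MulAut.conj (h : GL ι F)).toMonoidHom) :=
          Group.nilpotent_of_surjective _ (MonoidHom.subgroupMap_surjective (MulAut.conj (h : GL ι F)).toMonoidHom L)
        exact (Group.nilpotent_of_mulEquiv (Subgroup.subgroupOfEquivOfLe hc.le).symm)
      have htop : Cfsg.fittingSubgroup N = ⊤ := by
        rw [eq_top_iff]
        intro z _
        have hz : (z : GL ι F) ∈ S := hSeq.symm ▸ z.2
        have hle : S ≤ (Cfsg.fittingSubgroup N).map N.subtype := iSup_le fun h x hx =>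
          ⟨⟨x, (hL.conjugate hN h.2).le hx⟩, hnil h hx, rfl⟩
        obtain ⟨z', hz', he⟩ := hle hz
        rwa [← Subtype.ext he]
      haveI : Group.IsNilpotent N := CfsgLib.Cores.fittingSubgroup_eq_top_iff.mp htop
      haveI : Nontrivial N := by
        rw [Subgroup.nontrivial_iff_ne_bot]
        exact fun h => hns (h ▸ bot_le)
      have hlt := Group.IsSolvable.commutator_lt_top_of_nontrivial (G := N)
      refine hlt.ne (Subgroup.map_injective N.subtype_injective ?_)
      rw [Subgroup.map_subtype_commutator, ← MonoidHom.range_eq_map, Subgroup.range_subtype, hperf]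
    have hLabs : ActsAbsolutelyIrreducibly (matrixSet L) := by
      rcases normal_cases hn habs.1 hL hLs with h | ⟨D, χ, h⟩ | ⟨K, h⟩
      · exact h
      all_goals
        exfalso
        refine hLs ?_
        rw [← hder, Subgroup.commutator_le]
        intro a ha b hb
        rw [commutatorElement_def, h.commutative a ha b hb, mul_inv_cancel_right, mul_inv_cancel]
        exact one_mem _
    have hconj : ∀ g ∈ H, L.map (MulAut.conj g).toMonoidHom ≤ L := by
      intro g hg
      set L' := L.map (MulAut.conj g).toMonoidHom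
      have hL' := hL.conjugate hN hg
      have hcap : NormalIn (L' ⊓ L) N :=
        ⟨inf_le_right.trans hL.le, fun z hz a ha => ⟨hL'.conj z hz a ha.1, hL.conj z hz a ha.2⟩⟩
      rcases hLmin _ hcap inf_le_right with h | h
      · exfalso
        refine hLs ?_
        have hL's : L' ≤ scalars ι F := fun b hb => by
          have hcomb := commute_of_scalar_commutators hder (b := b) (fun a ha => h ⟨by
            rw [show b * a * b⁻¹ * a⁻¹ = b * (a * b⁻¹ * a⁻¹) by group]
            exact L'.mul_mem hb (hL'.conj a (hL.le ha) _ (L'.inv_mem hb)),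
            L.mul_mem (hL.conj b (hL'.le hb) a ha) (L.inv_mem ha)⟩)
          obtain ⟨c, hc⟩ := hLabs.2 _ (by
            rintro _ ⟨a, ha, rfl⟩
            exact congrArg Units.val (hcomb a ha))
          exact mem_scalars_of_act c fun v => act_scalar hc v
        intro a ha
        have hm := hL's ⟨a, ha, rfl⟩
        simp only [MulEquiv.coe_toMonoidHom, MulAut.conj_apply] at hm
        have := (scalars_normal (ι := ι) (F := F)).conj_mem _ hm g⁻¹
        simpa [mul_assoc] using this
      · exact (Subgroup.eq_of_le_of_card_ge (inf_eq_right.mp h)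
          (Subgroup.card_map_of_injective (MulAut.conj g).injective).le).ge
    have hLn : NormalIn L H := ⟨hL.le.trans hN.le, fun g hg a ha => hconj g hg ⟨a, ha, rfl⟩⟩
    exact le_antisymm hL₀.le (((hmin L hLn hL.le).resolve_left hLs).ge.trans hLL₀)
  set Z := (scalars ι F).subgroupOf N
  refine ⟨?_, ?_, ?_⟩
  · haveI : Nontrivial (N ⧸ Z) := by
      rw [QuotientGroup.nontrivial_iff]
      exact fun h => hns (Subgroup.subgroupOf_eq_top.mp h)
    refine ⟨fun T hT => ?_⟩
    set T' := T.comap (QuotientGroup.mk' Z)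
    have hT' : NormalIn (T'.map N.subtype) N := by
      refine ⟨Subgroup.map_subtype_le T', ?_⟩
      rintro g hg _ ⟨a, ha, rfl⟩
      refine ⟨⟨g, hg⟩ * a * ⟨g, hg⟩⁻¹, (hT.comap _).conj_mem a ha _, ?_⟩
      simp only [map_mul, map_inv]
      rfl
    by_cases hs : T'.map N.subtype ≤ scalars ι F
    · left
      rw [Subgroup.eq_bot_iff_forall]
      intro t ht
      obtain ⟨a, rfl⟩ := QuotientGroup.mk'_surjective Z t
      exact (QuotientGroup.eq_one_iff a).mpr (Subgroup.mem_subgroupOf.mpr (hs ⟨a, ht, rfl⟩))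
    · right
      rw [eq_top_iff]
      intro t _
      obtain ⟨a, rfl⟩ := QuotientGroup.mk'_surjective Z t
      have : (a : GL ι F) ∈ T'.map N.subtype := (hsimple _ hT' hs).symm ▸ a.2
      obtain ⟨a', ha', he⟩ := this
      rwa [← Subtype.ext he]
  · intro hab
    apply hns
    rw [← hperf, Subgroup.commutator_le]
    intro a ha b hb
    have := hab.is_comm.comm (QuotientGroup.mk' Z ⟨a, ha⟩) (QuotientGroup.mk' Z ⟨b, hb⟩)
    have h1 : QuotientGroup.mk' Z ((⟨a, ha⟩ : N) * ⟨b, hb⟩ * (⟨a, ha⟩ : N)⁻¹ * (⟨b, hb⟩ : N)⁻¹) = 1 := by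
      rw [map_mul, map_mul, map_mul, this, map_inv, map_inv, mul_inv_cancel_right, mul_inv_cancel]
    rw [commutatorElement_def]
    exact Subgroup.mem_subgroupOf.mp ((QuotientGroup.eq_one_iff _).mp h1)
  · intro h hc
    exact hscalar h (commute_of_scalar_commutators hperf hc)

end Generic

/-- A non-trivial soluble normal subgroup contains a non-trivial elementary abelian normal subgroup. -/
theorem exists_elementary_of_solvable {X : Type*} [Group X] [Finite X] {N : Subgroup X} [N.Normal]
    (hs : Group.IsSolvable N) (hN : N ≠ ⊥) :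
    ∃ (E : Subgroup X) (r : ℕ), r.Prime ∧ E.Normal ∧ E ≠ ⊥ ∧ IsMulCommutative E ∧ ∀ x ∈ E, x ^ r = 1 := by
  obtain ⟨A, ⟨hAn, hA1, hAN⟩, hmin⟩ := Set.Finite.exists_minimalFor id
    {A : Subgroup X | A.Normal ∧ A ≠ ⊥ ∧ A ≤ N} (Set.toFinite _) ⟨N, inferInstance, hN, le_rfl⟩
  haveI := hAn
  haveI : Nontrivial A := A.nontrivial_iff_ne_bot.2 hA1
  haveI := hs
  haveI : Group.IsSolvable A :=
    Group.isSolvable_of_isSolvable_injective (f := Subgroup.inclusion hAN) (Subgroup.inclusion_injective hAN)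
  have hne : ⁅A, A⁆ ≠ A := fun h => (Group.IsSolvable.commutator_lt_top_of_nontrivial (G := A)).ne
    (Subgroup.map_injective A.subtype_injective
      (by rw [Subgroup.map_subtype_commutator, h, ← MonoidHom.range_eq_map, Subgroup.range_subtype]))
  have hle : ⁅A, A⁆ ≤ A := Subgroup.commutator_le_self A
  have hbot : ⁅A, A⁆ = ⊥ := by
    by_contra hb
    exact hne (le_antisymm hle (hmin ⟨inferInstance, hb, hle.trans hAN⟩ hle))
  have hcomm : ∀ a ∈ A, ∀ b ∈ A, a * b = b * a := fun a ha b hb => by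
    rw [← commutatorElement_eq_one_iff_mul_comm, ← Subgroup.mem_bot, ← hbot]
    exact Subgroup.commutator_mem_commutator ha hb
  obtain ⟨r, hr, hrA⟩ := Nat.exists_prime_and_dvd
    (show Nat.card A ≠ 1 from fun h => hA1 (Subgroup.card_eq_one.1 h))
  haveI := Fact.mk hr
  let E : Subgroup X :=
    { carrier := {g | g ∈ A ∧ g ^ r = 1}
      one_mem' := ⟨A.one_mem, one_pow _⟩
      mul_mem' := fun {a b} ha hb => ⟨A.mul_mem ha.1 hb.1, by
        rw [(show Commute a b from hcomm a ha.1 b hb.1).mul_pow, ha.2, hb.2, one_mul]⟩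
      inv_mem' := fun {a} ha => ⟨A.inv_mem ha.1, by rw [inv_pow, ha.2, inv_one]⟩ }
  refine ⟨E, r, hr, ⟨fun b hb g => ⟨hAn.conj_mem b hb.1 g, by
    rw [conj_pow, hb.2, mul_one, mul_inv_cancel]⟩⟩, fun h => ?_,
    ⟨⟨fun a b => Subtype.ext (hcomm a a.2.1 b b.2.1)⟩⟩, fun x hx => hx.2⟩
  obtain ⟨x, hx⟩ := exists_prime_orderOf_dvd_card' r hrA
  have hmem : (x : X) ∈ E := ⟨x.2, by rw [← hx, ← Subgroup.orderOf_coe]; exact pow_orderOf_eq_one _⟩
  rw [h, Subgroup.mem_bot] at hmem
  rw [show x = 1 from Subtype.ext hmem, orderOf_one] at hx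
  exact hr.ne_one hx.symm

variable {F : Type*} [Field F] [Fintype F]

/-- A non-scalar subgroup of `SL₃` all whose soluble normal subgroups are scalar. -/
structure NoSolv (G : Subgroup (GL (Fin 3) F)) : Prop where
  le_sl : G ≤ specialLinear (Fin 3) F
  not_scalar : ¬ G ≤ scalars (Fin 3) F
  solv : ∀ M, NormalIn M G → Group.IsSolvable M → M ≤ scalars (Fin 3) F

/-- An involution of determinant one fixing a vector negates modulo that vector. -/
theorem add_mem_span_of_involution (h2 : (2 : F) ≠ 0) {x : GL (Fin 3) F} (hx1 : x ≠ 1)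
    (hxx : x * x = 1) (hdet : (x : Matrix (Fin 3) (Fin 3) F).det = 1) {v : Fin 3 → F} (hv : v ≠ 0)
    (hxv : act x v = v) (u : Fin 3 → F) : ∃ a : F, act x u + u = a • v := by
  by_contra hcon
  push Not at hcon
  set w := act x u + u with hw
  have hxw : act x w = w := by
    rw [hw, act, Matrix.mulVec_add]
    show act x (act x u) + act x u = _
    rw [← act_mul, hxx, act_one, add_comm]
  have hli : LinearIndependent F ![v, w] :=
    (LinearIndependent.pair_iff' hv).2 fun a => (hcon a).symm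
  obtain ⟨i, hi⟩ := Function.ne_iff.1 (crossProduct_ne_zero_iff_linearIndependent.2 hli)
  set P : Matrix (Fin 3) (Fin 3) F := (Matrix.of ![Pi.single i 1, v, w])ᵀ with hP
  have hPd : P.det ≠ 0 := by
    rw [hP, Matrix.det_transpose,
      show Matrix.det (Matrix.of ![Pi.single i 1, v, w]) =
        (Pi.single i 1 : Fin 3 → F) ⬝ᵥ crossProduct v w from
        (triple_product_eq_det (Pi.single i 1) v w).symm]
    simpa using hi
  have hPu : IsUnit P.det := isUnit_iff_ne_zero.2 hPd
  have hP1 : P *ᵥ Pi.single 1 1 = v := by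
    funext j; simp [hP, Matrix.mulVec_single, Matrix.transpose_apply]
  have hP2 : P *ᵥ Pi.single 2 1 = w := by
    funext j; simp [hP, Matrix.mulVec_single, Matrix.transpose_apply]
  set T : Matrix (Fin 3) (Fin 3) F := P⁻¹ * x * P with hT
  have hTcol : ∀ (k : Fin 3) (y : Fin 3 → F), P *ᵥ Pi.single k 1 = y → act x y = y →
      T *ᵥ Pi.single k 1 = Pi.single k 1 := by
    intro k y hk hy
    rw [hT, ← Matrix.mulVec_mulVec, hk, ← Matrix.mulVec_mulVec, show (x : Matrix _ _ F) *ᵥ y = y from hy,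
      ← hk, Matrix.mulVec_mulVec, Matrix.nonsing_inv_mul _ hPu, Matrix.one_mulVec]
  have hc1 := hTcol 1 v hP1 hxv
  have hc2 := hTcol 2 w hP2 hxw
  have e : ∀ j k, T *ᵥ Pi.single k 1 = Pi.single k 1 → T j k = (1 : Matrix (Fin 3) (Fin 3) F) j k := by
    intro j k hk
    have := congrFun hk j
    simpa [Matrix.mulVec_single, Matrix.one_apply, Pi.single_apply] using this
  have e01 := e 0 1 hc1
  have e11 := e 1 1 hc1
  have e21 := e 2 1 hc1
  have e02 := e 0 2 hc2
  have e12 := e 1 2 hc2
  have e22 := e 2 2 hc2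
  simp at e01 e11 e21 e02 e12 e22
  have hTd : T.det = 1 := by
    rw [hT, Matrix.det_mul, Matrix.det_mul, mul_right_comm, ← Matrix.det_mul,
      Matrix.nonsing_inv_mul _ hPu, Matrix.det_one, one_mul, hdet]
  have hxm : (x : Matrix (Fin 3) (Fin 3) F) * x = 1 := by rw [← Units.val_mul, hxx, Units.val_one]
  have hTT : T * T = 1 := by
    rw [hT]
    calc P⁻¹ * ↑x * P * (P⁻¹ * ↑x * P) = P⁻¹ * (↑x * (P * P⁻¹) * ↑x) * P := by noncomm_ring
      _ = 1 := by
        rw [Matrix.mul_nonsing_inv _ hPu, mul_one, hxm, mul_one, Matrix.nonsing_inv_mul _ hPu]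
  have e00 : T 0 0 = 1 := by
    simp [Matrix.det_fin_three, e01, e11, e21, e02, e12, e22] at hTd
    exact hTd
  have e10 : T 1 0 = 0 := by
    have := congrFun (congrFun hTT 1) 0
    simp [Matrix.mul_apply, Fin.sum_univ_three, e00, e11, e12] at this
    have h' : (2 : F) * T 1 0 = 0 := by linear_combination this
    exact (mul_eq_zero.1 h').resolve_left h2
  have e20 : T 2 0 = 0 := by
    have := congrFun (congrFun hTT 2) 0
    simp [Matrix.mul_apply, Fin.sum_univ_three, e00, e21, e22] at this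
    have h' : (2 : F) * T 2 0 = 0 := by linear_combination this
    exact (mul_eq_zero.1 h').resolve_left h2
  have hT1 : T = 1 := by
    ext j k
    fin_cases j <;> fin_cases k <;> simp [e00, e01, e02, e10, e11, e12, e20, e21, e22]
  refine hx1 (Units.ext ?_)
  calc (x : Matrix (Fin 3) (Fin 3) F) = (P * P⁻¹) * x * (P * P⁻¹) := by
        rw [Matrix.mul_nonsing_inv _ hPu, one_mul, mul_one]
    _ = P * T * P⁻¹ := by rw [hT]; noncomm_ring
    _ = 1 := by rw [hT1, mul_one, Matrix.mul_nonsing_inv _ hPu]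

/-- No line is fixed. -/
theorem NoSolv.no_line {G : Subgroup (GL (Fin 3) F)} (hG : NoSolv G) (h2 : (2 : F) ≠ 0) {v : Fin 3 → F}
    (hv : v ≠ 0) (hline : ∀ g ∈ G, ∃ c : F, act g v = c • v) : False := by
  classical
  let Mset : Set (GL (Fin 3) F) := {g | g ∈ G ∧ ∃ c : F, ∀ u, ∃ a : F, act g u = c • u + a • v}
  have hone : (1 : GL (Fin 3) F) ∈ Mset := ⟨G.one_mem, 1, fun u => ⟨0, by simp [act_one]⟩⟩
  have hmul : ∀ g h, g ∈ Mset → h ∈ Mset → g * h ∈ Mset := by
    rintro g h ⟨hg, c, hc⟩ ⟨hh, d, hd⟩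
    refine ⟨G.mul_mem hg hh, c * d, fun u => ?_⟩
    obtain ⟨a, ha⟩ := hd u
    obtain ⟨a', ha'⟩ := hc u
    obtain ⟨b, hb⟩ := hline g hg
    refine ⟨d * a' + a * b, ?_⟩
    rw [act_mul, ha, act, Matrix.mulVec_add, Matrix.mulVec_smul, Matrix.mulVec_smul]
    show d • act g u + a • act g v = _
    rw [ha', hb]
    module
  have hpow : ∀ g, g ∈ Mset → ∀ n : ℕ, g ^ n ∈ Mset := fun g hg n => by
    induction n with
    | zero => simpa using hone
    | succ n ih => rw [pow_succ]; exact hmul _ _ ih hg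
  let M : Subgroup (GL (Fin 3) F) :=
    { carrier := Mset
      one_mem' := hone
      mul_mem' := fun {g h} hg hh => hmul g h hg hh
      inv_mem' := fun {g} hg => by
        have := hpow g hg (orderOf g - 1)
        rwa [show g ^ (orderOf g - 1) = g⁻¹ from eq_inv_of_mul_eq_one_left (by
          rw [← pow_succ, Nat.sub_add_cancel (orderOf_pos g), pow_orderOf_eq_one])] at this }
  have hMn : NormalIn M G := by
    refine ⟨fun g hg => hg.1, ?_⟩
    rintro g hg x ⟨hx, c, hc⟩
    refine ⟨G.mul_mem (G.mul_mem hg hx) (G.inv_mem hg), c, fun u => ?_⟩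
    obtain ⟨a, ha⟩ := hc (act g⁻¹ u)
    obtain ⟨b, hb⟩ := hline g hg
    refine ⟨a * b, ?_⟩
    rw [act_mul, act_mul, ha, act, Matrix.mulVec_add, Matrix.mulVec_smul, Matrix.mulVec_smul]
    show c • act g (act g⁻¹ u) + a • act g v = _
    rw [act_act_inv, hb, smul_smul]
  have hcommv : ∀ g ∈ G, ∀ h ∈ G, act (g * h * g⁻¹ * h⁻¹) v = v := by
    intro g hg h hh
    obtain ⟨b, hb⟩ := hline g hg
    obtain ⟨b', hb'⟩ := hline h hh
    have e : act (g * h) v = act (h * g) v := by
      rw [act_mul, act_mul, hb', hb, act, Matrix.mulVec_smul, act, Matrix.mulVec_smul]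
      show b' • act g v = b • act h v
      rw [hb, hb', smul_comm]
    obtain ⟨z, hz⟩ := hline (h * g)⁻¹ (G.inv_mem (G.mul_mem hh hg))
    rw [show g * h * g⁻¹ * h⁻¹ = g * h * (h * g)⁻¹ by group, act_mul, hz, act, Matrix.mulVec_smul]
    show z • act (g * h) v = v
    rw [e, act, ← Matrix.mulVec_smul]
    show act (h * g) (z • v) = v
    rw [← hz, act_act_inv]
  -- the derived subgroup fixes `v`
  let S : Subgroup (GL (Fin 3) F) :=
    { carrier := {g | act g v = v}
      one_mem' := act_one v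
      mul_mem' := fun {g h} (hg : act g v = v) (hh : act h v = v) => by
        show act (g * h) v = v
        rw [act_mul, hh, hg]
      inv_mem' := fun {g} (hg : act g v = v) => by
        show act g⁻¹ v = v
        conv_lhs => rw [← hg]
        rw [act_inv_act] }
  have hDv : ∀ x ∈ ⁅G, G⁆, act x v = v := fun x hx =>
    (Subgroup.commutator_le.2 fun g hg h hh => by
      rw [commutatorElement_def]; exact hcommv g hg h hh : ⁅G, G⁆ ≤ S) hx
  -- commutators of `M` are transvections
  let T : Subgroup (GL (Fin 3) F) :=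
    { carrier := {g | act g v = v ∧ ∀ u, ∃ a : F, act g u = u + a • v}
      one_mem' := ⟨act_one v, fun u => ⟨0, by simp [act_one]⟩⟩
      mul_mem' := fun {g h} hg hh => ⟨by rw [act_mul, hh.1, hg.1], fun u => by
        obtain ⟨a, ha⟩ := hh.2 u
        obtain ⟨b, hb⟩ := hg.2 u
        refine ⟨b + a, ?_⟩
        rw [act_mul, ha, act, Matrix.mulVec_add, Matrix.mulVec_smul]
        show act g u + a • act g v = _
        rw [hb, hg.1]; module⟩
      inv_mem' := fun {g} hg => by
        have hi : act g⁻¹ v = v := by conv_lhs => rw [← hg.1]; rw [act_inv_act]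
        refine ⟨hi, fun u => ?_⟩
        obtain ⟨a, ha⟩ := hg.2 (act g⁻¹ u)
        rw [act_act_inv] at ha
        exact ⟨-a, by rw [neg_smul, ← sub_eq_add_neg, eq_sub_iff_add_eq, ← ha]⟩ }
  have hMT : ⁅M, M⁆ ≤ T := by
    rw [Subgroup.commutator_le]
    rintro g ⟨hg, c, hc⟩ h ⟨hh, d, hd⟩
    rw [commutatorElement_def]
    refine ⟨hcommv g hg h hh, fun u => ?_⟩
    obtain ⟨b, hb⟩ := hline g hg
    obtain ⟨b', hb'⟩ := hline h hh
    set u' := act (h * g)⁻¹ u
    obtain ⟨a, ha⟩ := hd u'
    obtain ⟨a1, ha1⟩ := hc u'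
    refine ⟨d * a1 + a * b - (c * a + a1 * b'), ?_⟩
    have e1 : act (g * h) u' = (c * d) • u' + (d * a1 + a * b) • v := by
      rw [act_mul, ha, act, Matrix.mulVec_add, Matrix.mulVec_smul, Matrix.mulVec_smul]
      show d • act g u' + a • act g v = _
      rw [ha1, hb]; module
    have e2 : act (h * g) u' = (c * d) • u' + (c * a + a1 * b') • v := by
      rw [act_mul, ha1, act, Matrix.mulVec_add, Matrix.mulVec_smul, Matrix.mulVec_smul]
      show c • act h u' + a1 • act h v = _
      rw [ha, hb']; module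
    have e3 : act (g * h * g⁻¹ * h⁻¹) u = act (g * h) u' := by
      rw [← act_mul, show g * h * g⁻¹ * h⁻¹ = g * h * (h * g)⁻¹ by group]
    have e4 : act (h * g) u' = u := act_act_inv _ u
    rw [e3, e1]
    conv_rhs => arg 1; rw [← e4, e2]
    module
  have hTc : ∀ g ∈ T, ∀ h ∈ T, g * h = h * g := by
    intro g hg h hh
    refine Units.ext (Matrix.ext_of_mulVec_single fun i => ?_)
    show act (g * h) (Pi.single i 1) = act (h * g) (Pi.single i 1)
    obtain ⟨a, ha⟩ := hh.2 (Pi.single i 1)
    obtain ⟨b, hb⟩ := hg.2 (Pi.single i 1)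
    rw [act_mul, act_mul, ha, hb, act, Matrix.mulVec_add, Matrix.mulVec_smul, act, Matrix.mulVec_add,
      Matrix.mulVec_smul]
    show act g (Pi.single i 1) + a • act g v = act h (Pi.single i 1) + b • act h v
    rw [hb, ha, hg.1, hh.1]; module
  haveI : Group.IsSolvable (commutator M) := Group.isSolvable_of_comm fun a b => Subtype.ext (Subtype.ext
    (hTc _ (hMT (Subgroup.map_subtype_commutator M ▸ Subgroup.mem_map_of_mem M.subtype a.2)) _
      (hMT (Subgroup.map_subtype_commutator M ▸ Subgroup.mem_map_of_mem M.subtype b.2))))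
  haveI : Group.IsSolvable (M ⧸ commutator M) :=
    (inferInstance : Group.IsSolvable (Abelianization M))
  have hMsol : Group.IsSolvable M :=
    (Group.isSolvable_iff_subgroup_quotient (commutator M)).2 ⟨inferInstance, inferInstance⟩
  -- an involution of the derived subgroup
  have hDeven : 2 ∣ Nat.card ↥⁅G, G⁆ := by
    by_contra h
    refine hG.not_scalar (hG.solv G (NormalIn.refl G) ?_)
    haveI : Group.IsSolvable ↥⁅G, G⁆ :=
      Cfsg.Agent.S0205.result (Nat.not_even_iff_odd.1 fun e => h (even_iff_two_dvd.1 e))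
    haveI : Group.IsSolvable (commutator G) :=
      Group.isSolvable_of_isSolvable_injective
        (f := ((Subgroup.equivMapOfInjective (commutator G) G.subtype G.subtype_injective).trans
          (MulEquiv.subgroupCongr (Subgroup.map_subtype_commutator G))).toMonoidHom)
        (MulEquiv.injective _)
    haveI : Group.IsSolvable (G ⧸ commutator G) :=
      (inferInstance : Group.IsSolvable (Abelianization G))
    exact (Group.isSolvable_iff_subgroup_quotient (commutator G)).2 ⟨inferInstance, inferInstance⟩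
  haveI : Fact (Nat.Prime 2) := ⟨Nat.prime_two⟩
  obtain ⟨x, hx⟩ := exists_prime_orderOf_dvd_card' 2 hDeven
  have hxx : (x : GL (Fin 3) F) * x = 1 := by
    have h := congrArg Subtype.val (pow_orderOf_eq_one x)
    rwa [hx, pow_two] at h
  have hx1 : (x : GL (Fin 3) F) ≠ 1 := fun e => by
    rw [show x = 1 from Subtype.ext e, orderOf_one] at hx
    norm_num at hx
  have hxG : (x : GL (Fin 3) F) ∈ G := Subgroup.commutator_le_self G x.2
  have hdet : ((x : GL (Fin 3) F) : Matrix (Fin 3) (Fin 3) F).det = 1 := congrArg Units.val (hG.le_sl hxG)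
  have hxM : (x : GL (Fin 3) F) ∈ M := by
    refine ⟨hxG, -1, fun u => ?_⟩
    obtain ⟨a, ha⟩ := add_mem_span_of_involution h2 hx1 hxx hdet hv (hDv _ x.2) u
    exact ⟨a, by rw [← ha]; module⟩
  obtain ⟨c, hc⟩ := (mem_scalars_iff _).1 (hG.solv M hMn hMsol hxM)
  refine hx1 (Units.ext ?_)
  have h1 : (c : F) ^ 3 = 1 := by
    have := hdet
    rwa [hc, Matrix.det_smul, Matrix.det_one, mul_one, Fintype.card_fin] at this
  have h2' : (c : F) * c = 1 := by
    have := congrArg (fun g : GL (Fin 3) F => (g : Matrix (Fin 3) (Fin 3) F) 0 0) hxx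
    simp [hc, Matrix.mul_apply, Matrix.one_apply] at this
    exact this
  rw [hc, Units.val_one, show (c : F) = 1 by linear_combination h1 - (c : F) * h2', one_smul]

/-- The transpose inverse. -/
def dualHom : GL (Fin 3) F →* GL (Fin 3) F where
  toFun g := ⟨((g⁻¹ : GL (Fin 3) F) : Matrix (Fin 3) (Fin 3) F)ᵀ, (g : Matrix (Fin 3) (Fin 3) F)ᵀ,
    by rw [← Matrix.transpose_mul, ← Units.val_mul, mul_inv_cancel, Units.val_one, Matrix.transpose_one],
    by rw [← Matrix.transpose_mul, ← Units.val_mul, inv_mul_cancel, Units.val_one, Matrix.transpose_one]⟩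
  map_one' := Units.ext (by simp)
  map_mul' g h := Units.ext (by
    show ((((g * h)⁻¹ : GL (Fin 3) F)) : Matrix (Fin 3) (Fin 3) F)ᵀ = _
    rw [_root_.mul_inv_rev, Units.val_mul, Matrix.transpose_mul]
    rfl)

theorem dualHom_dualHom (g : GL (Fin 3) F) : dualHom (dualHom g) = g := Units.ext (by
  show (((dualHom g)⁻¹ : GL (Fin 3) F) : Matrix (Fin 3) (Fin 3) F)ᵀ = _
  exact Matrix.transpose_transpose _)

theorem dualHom_mem_scalars {g : GL (Fin 3) F} (hg : g ∈ scalars (Fin 3) F) :
    dualHom g ∈ scalars (Fin 3) F := by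
  obtain ⟨c, hc⟩ := (mem_scalars_iff _).1 ((scalars (Fin 3) F).inv_mem hg)
  refine (mem_scalars_iff _).2 ⟨c, ?_⟩
  show (((g⁻¹ : GL (Fin 3) F)) : Matrix (Fin 3) (Fin 3) F)ᵀ = _
  rw [hc, Matrix.transpose_smul, Matrix.transpose_one]

theorem NoSolv.map_dual {G : Subgroup (GL (Fin 3) F)} (hG : NoSolv G) : NoSolv (G.map dualHom) := by
  refine ⟨?_, fun h => hG.not_scalar fun g hg => ?_, fun M hM hs x hx => ?_⟩
  · rintro _ ⟨g, hg, rfl⟩
    refine MonoidHom.mem_ker.2 (Units.ext ?_)
    show ((((g⁻¹ : GL (Fin 3) F)) : Matrix (Fin 3) (Fin 3) F)ᵀ).det = 1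
    rw [Matrix.det_transpose]
    exact congrArg Units.val (hG.le_sl (G.inv_mem hg))
  · rw [← dualHom_dualHom g]
    exact dualHom_mem_scalars (h ⟨g, hg, rfl⟩)
  · rw [← dualHom_dualHom x]
    refine dualHom_mem_scalars (hG.solv (M.map dualHom) ⟨?_, ?_⟩ ?_ ⟨x, hx, rfl⟩)
    · rintro _ ⟨m, hm, rfl⟩
      obtain ⟨g, hg, e⟩ := hM.le hm
      rw [← e, dualHom_dualHom]
      exact hg
    · rintro g hg _ ⟨m, hm, rfl⟩
      refine ⟨dualHom g * m * (dualHom g)⁻¹, hM.conj _ ⟨g, hg, rfl⟩ m hm, ?_⟩
      rw [map_mul, map_mul, map_inv, dualHom_dualHom]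
    · haveI := hs
      exact Group.isSolvable_of_surjective (f := dualHom.subgroupMap M)
        (MonoidHom.subgroupMap_surjective dualHom M)

/-- The group is irreducible. -/
theorem NoSolv.irreducible {G : Subgroup (GL (Fin 3) F)} (hG : NoSolv G) (h2 : (2 : F) ≠ 0) :
    ActsIrreducibly (matrixSet G) := by
  rw [actsIrreducibly_iff]
  intro W hW
  by_contra hcon
  push Not at hcon
  have hlt : Module.finrank F W < 3 := by
    have := Submodule.finrank_lt hcon.2
    rwa [Module.finrank_fintype_fun_eq_card, Fintype.card_fin] at this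
  have hpos : Module.finrank F W ≠ 0 := fun h => hcon.1 (Submodule.finrank_eq_zero.1 h)
  by_cases h1 : Module.finrank F W = 1
  · obtain ⟨v, hv, hspan⟩ := finrank_eq_one_iff'.1 h1
    refine hG.no_line h2 (v := (v : Fin 3 → F)) (fun e => hv (Subtype.ext e)) fun g hg => ?_
    obtain ⟨c, hc⟩ := hspan ⟨_, hW g hg v v.2⟩
    exact ⟨c, (congrArg Subtype.val hc).symm⟩
  · let b := Module.finBasisOfFinrankEq F W (show Module.finrank F W = 2 by omega)
    set a₀ : Fin 3 → F := (b 0 : Fin 3 → F) with ha₀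
    set a₁ : Fin 3 → F := (b 1 : Fin 3 → F) with ha₁
    have hli : LinearIndependent F ![a₀, a₁] := by
      have e : (![a₀, a₁] : Fin 2 → Fin 3 → F) = W.subtype ∘ b := by
        funext i
        fin_cases i <;> rfl
      rw [e]
      exact LinearIndependent.map' b.linearIndependent W.subtype W.ker_subtype
    set w := crossProduct a₀ a₁ with hw
    have hw0 : w ≠ 0 := crossProduct_ne_zero_iff_linearIndependent.2 hli
    have hperp : ∀ u ∈ W, w ⬝ᵥ u = 0 := by
      intro u hu
      have hs : u = b.repr ⟨u, hu⟩ 0 • a₀ + b.repr ⟨u, hu⟩ 1 • a₁ := by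
        have := congrArg Subtype.val (b.sum_repr ⟨u, hu⟩)
        rw [Fin.sum_univ_two] at this
        exact this.symm
      rw [hs, dotProduct_add, dotProduct_smul, dotProduct_smul, hw, dotProduct_comm _ a₀,
        dot_self_cross, dotProduct_comm _ a₁, dot_cross_self]
      simp
    refine hG.map_dual.no_line h2 hw0 ?_
    rintro _ ⟨g, hg, rfl⟩
    set y := act (dualHom g) w with hy
    have hy0 : ∀ u ∈ W, y ⬝ᵥ u = 0 := by
      intro u hu
      rw [hy]
      show (((g⁻¹ : GL (Fin 3) F) : Matrix (Fin 3) (Fin 3) F)ᵀ *ᵥ w) ⬝ᵥ u = 0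
      rw [Matrix.mulVec_transpose, ← Matrix.dotProduct_mulVec]
      exact hperp _ (hW _ (G.inv_mem hg) u hu)
    have hcr : crossProduct w y = 0 := by
      have e0 := hy0 a₀ (b 0).2
      have e1 := hy0 a₁ (b 1).2
      simp only [dotProduct, Fin.sum_univ_three] at e0 e1
      funext i
      fin_cases i <;> simp [hw, cross_apply]
      · linear_combination a₁ 0 * e0 - a₀ 0 * e1
      · linear_combination a₁ 1 * e0 - a₀ 1 * e1
      · linear_combination a₁ 2 * e0 - a₀ 2 * e1
    by_contra hc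
    push Not at hc
    exact crossProduct_ne_zero_iff_linearIndependent.2
      ((LinearIndependent.pair_iff' hw0).2 fun c e => hc c e.symm) hcr

/-- The almost simple configuration behind a subgroup of `PSL₃` without elementary abelian normal
subgroups, in odd characteristic. -/
theorem exists_almost (h2 : (2 : F) ≠ 0)
    (H : Subgroup (Matrix.ProjectiveSpecialLinearGroup (Fin 3) F)) (hH : H ≠ ⊥)
    (hN : ∀ N : Subgroup ↥H, N.Normal → IsMulCommutative ↥N → (∃ r : ℕ, r.Prime ∧ ∀ x ∈ N, x ^ r = 1) → N = ⊥) :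
    ∃ G P : Subgroup (GL (Fin 3) F), Almost G P ∧ Nonempty (↥H ≃* GBar G) := by
  classical
  let π : Matrix.SpecialLinearGroup (Fin 3) F →* Matrix.ProjectiveSpecialLinearGroup (Fin 3) F :=
    QuotientGroup.mk' _
  let A := H.comap π
  let toG : Matrix.SpecialLinearGroup (Fin 3) F →* GL (Fin 3) F := Matrix.SpecialLinearGroup.toGL
  have htoG : Function.Injective toG := fun a b e =>
    Subtype.ext (congrArg (fun g : GL (Fin 3) F => (g : Matrix (Fin 3) (Fin 3) F)) e)
  let G : Subgroup (GL (Fin 3) F) := A.map toG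
  let e : ↥A ≃* ↥G := Subgroup.equivMapOfInjective A toG htoG
  let φ : ↥G →* ↥H := ((π.comp A.subtype).codRestrict H fun a => a.2).comp e.symm.toMonoidHom
  have hφe : ∀ a : ↥A, ((φ (e a) : ↥H) : Matrix.ProjectiveSpecialLinearGroup (Fin 3) F) = π a := fun a => by
    show π ((e.symm (e a) : ↥A) : Matrix.SpecialLinearGroup (Fin 3) F) = π a
    rw [e.symm_apply_apply]
  have hφ : Function.Surjective φ := by
    rintro ⟨h, hh⟩
    obtain ⟨a, ha⟩ := QuotientGroup.mk'_surjective _ h
    exact ⟨e ⟨a, by show π a ∈ H; rw [show π a = h from ha]; exact hh⟩,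
      Subtype.ext (by rw [hφe]; exact ha)⟩
  have hker : φ.ker = (scalars (Fin 3) F).subgroupOf G := by
    ext g
    obtain ⟨a, rfl⟩ := e.surjective g
    rw [MonoidHom.mem_ker, Subgroup.mem_subgroupOf]
    have h1 : φ (e a) = 1 ↔
        (a : Matrix.SpecialLinearGroup (Fin 3) F) ∈ Subgroup.center (Matrix.SpecialLinearGroup (Fin 3) F) := by
      rw [← QuotientGroup.eq_one_iff, Subtype.ext_iff, hφe]
      rfl
    rw [h1, Matrix.SpecialLinearGroup.mem_center_iff, mem_scalars_iff]
    constructor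
    · rintro ⟨r, hr, hra⟩
      refine ⟨Units.mk0 r fun h0 => by simp [h0] at hr, ?_⟩
      show ((a : Matrix.SpecialLinearGroup (Fin 3) F) : Matrix (Fin 3) (Fin 3) F) = _
      rw [← hra, Units.val_mk0, Matrix.scalar_apply, Matrix.smul_one_eq_diagonal]
    · rintro ⟨c, hc⟩
      have hc' : ((a : Matrix.SpecialLinearGroup (Fin 3) F) : Matrix (Fin 3) (Fin 3) F) = (c : F) • 1 := hc
      refine ⟨c, ?_, by rw [hc', Matrix.scalar_apply, Matrix.smul_one_eq_diagonal]⟩
      have := (a : Matrix.SpecialLinearGroup (Fin 3) F).2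
      rwa [hc', Matrix.det_smul, Matrix.det_one, mul_one] at this
  have hiso : Nonempty (↥H ≃* GBar G) :=
    ⟨((QuotientGroup.quotientMulEquivOfEq hker.symm).trans
      (QuotientGroup.quotientKerEquivOfSurjective φ hφ)).symm⟩
  haveI : Finite ↥H := inferInstance
  have hG : NoSolv G := by
    refine ⟨?_, fun h => hH ?_, fun M hM hs => ?_⟩
    · rintro _ ⟨a, -, rfl⟩
      exact MonoidHom.mem_ker.2 (Units.ext a.2)
    · rw [Subgroup.eq_bot_iff_forall]
      intro x hx
      obtain ⟨g, hg⟩ := hφ ⟨x, hx⟩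
      have : g ∈ φ.ker := by rw [hker]; exact h g.2
      rw [MonoidHom.mem_ker.1 this] at hg
      exact (congrArg Subtype.val hg).symm
    · let Nb : Subgroup ↥H := (M.subgroupOf G).map φ
      haveI : (M.subgroupOf G).Normal := ⟨fun a ha g => hM.conj g g.2 a ha⟩
      haveI : Nb.Normal := Subgroup.Normal.map inferInstance φ hφ
      have hNs : Group.IsSolvable ↥Nb := by
        haveI := hs
        haveI : Group.IsSolvable ↥(M.subgroupOf G) :=
          Group.isSolvable_of_isSolvable_injective (f := (Subgroup.subgroupOfEquivOfLe hM.le).toMonoidHom)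
            (Subgroup.subgroupOfEquivOfLe hM.le).injective
        exact Group.isSolvable_of_surjective (f := φ.subgroupMap (M.subgroupOf G))
          (MonoidHom.subgroupMap_surjective φ _)
      have hNb : Nb = ⊥ := by
        by_contra hne
        obtain ⟨E, r, hr, hEn, hE1, hEc, hEr⟩ := exists_elementary_of_solvable hNs hne
        exact hE1 (hN E hEn hEc ⟨r, hr, hEr⟩)
      intro m hm
      have hmk : (⟨m, hM.le hm⟩ : ↥G) ∈ φ.ker :=
        (Subgroup.map_eq_bot_iff (M.subgroupOf G)).1 hNb hm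
      rw [hker] at hmk
      exact hmk
  have hirr := hG.irreducible h2
  have hex : ∃ k, ∃ N, NormalIn N G ∧ ¬ N ≤ scalars (Fin 3) F ∧ Nat.card N = k :=
    ⟨_, G, NormalIn.refl G, hG.not_scalar, rfl⟩
  obtain ⟨P, hP, hPs, hPk⟩ := Nat.find_spec hex
  have hmin : ∀ M, NormalIn M G → M ≤ P → M ≤ scalars (Fin 3) F ∨ M = P := by
    intro M hM hMP
    by_cases hMs : M ≤ scalars (Fin 3) F
    · exact Or.inl hMs
    · exact Or.inr (Subgroup.eq_of_le_of_card_ge hMP (hPk ▸ Nat.find_min' hex ⟨M, hM, hMs, rfl⟩))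
  have hn : (Fintype.card (Fin 3)).Prime := by rw [Fintype.card_fin]; exact Nat.prime_three
  have hnc : ¬ ∀ a ∈ P, ∀ b ∈ P, a * b = b * a := fun hc =>
    hPs (hG.solv P hP (Group.isSolvable_of_comm fun a b => Subtype.ext (hc a a.2 b b.2)))
  have habs : ActsAbsolutelyIrreducibly (matrixSet P) := by
    rcases normal_cases hn hirr hP hPs with h | ⟨D, χ, h⟩ | ⟨K, h⟩
    · exact h
    · exact absurd h.commutative hnc
    · exact absurd h.commutative hnc
  have hperf : ⁅P, P⁆ = P := (hmin _ hP.commutator (Subgroup.commutator_le_self P)).resolve_left fun h => by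
    haveI := isNilpotent_of_commutator_scalar h
    exact hPs (hG.solv P hP inferInstance)
  obtain ⟨hsim, hnab, hcent⟩ := simple_of_perfect hn hP habs hperf hmin
  exact ⟨G, P, ⟨⟨hP.le.trans hG.le_sl, hperf, hsim, hnab, habs⟩, hP.le, hG.le_sl, hP.conj,
    fun h _ hc => hcent h hc⟩, hiso⟩

end CfsgLib.SLThreeSubgroups
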