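import Cfsg.Agent.Lib.SLThreeSubgroups.Defs
import Cfsg.Agent.Lib.SLThreeResidual.NoSevenFive
import Cfsg.Agent.S0255

/-!
# Subgroups of `PSL₃(q)` with socle `L₂(7)`

The outer automorphism of `L₂(7)` exchanges the two roots occurring as traces, hence only inner
automorphisms are induced and the group is `L₂(7)`.
-/

set_option autoImplicit false

namespace CfsgLib.SLThreeSubgroups

open Cfsg.Geo Matrix CfsgLib.SLThreeResidual CfsgLib.SmallDim
open scoped MatrixGroups

/-- The exceptional subgroup `PSL₂(7)`. -/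
theorem isSevenType_of_iso {F : Type*} [Field F] [Fintype F] {G P : Subgroup (GL (Fin 3) F)}
    {F₀ : Subfield F} {P₀ : Subgroup (GL (Fin 3) F₀)} {p α : ℕ} [Fact p.Prime]
    (hF : Fintype.card F = p ^ α) (_hp : p ≠ 2) (hA : Almost G P) (hM : Model P F₀ P₀)
    (hQ : ¬ QuadFix P₀)
    (e : Nonempty (Proj P₀ ≃* Matrix.ProjectiveSpecialLinearGroup (Fin 3) (ZMod 2))) :
    IsSevenType p α (GBar G) := by
  classical
  have hpr : p.Prime := Fact.out
  have : CharP F p := by
    obtain ⟨q, hq⟩ := CharP.exists F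
    obtain ⟨n, hqp, hn⟩ := FiniteField.card F q
    have hα : α ≠ 0 := by
      intro h
      rw [h, pow_zero] at hF
      exact absurd hF (Fintype.one_lt_card (α := F)).ne'
    have h1 : q ∣ p ^ α := by rw [← hF, hn]; exact dvd_pow_self q n.ne_zero
    rwa [← (Nat.prime_dvd_prime_iff_eq hqp hpr).1 (hqp.dvd_of_dvd_pow h1)]
  have : CharP F₀ p := (RingHom.charP_iff F₀.subtype F₀.subtype.injective p).2 inferInstance
  let _ : Fintype F₀ := Fintype.ofFinite F₀
  -- the field
  have hcongr := congr_L32 hM.core hM.noSub hQ e p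
  obtain ⟨k, hk, hk7⟩ : ∃ k : ℕ, Fintype.card F₀ = p ^ k ∧ (p ^ k) ^ 3 % 7 = 1 := by
    rcases hcongr with ⟨h, h7⟩ | ⟨h, h7, -⟩
    · refine ⟨1, by rw [h, pow_one], ?_⟩
      rw [pow_one, Nat.pow_mod]
      rcases h7 with h7 | h7 | h7 <;> rw [h7]
    · refine ⟨2, h, ?_⟩
      rw [← pow_mul, Nat.pow_mod]
      rcases h7 with h7 | h7 | h7 <;> rw [h7]
  have hp7 : p % 7 ≠ 0 := by
    rcases hcongr with ⟨-, h7⟩ | ⟨-, h7, -⟩ <;> omega
  refine ⟨?_, ?_⟩
  · rw [← hF, Module.card_eq_pow_finrank (K := F₀) (V := F), hk, ← pow_mul,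
      mul_comm (Module.finrank F₀ F) 3, pow_mul, Nat.pow_mod, hk7, one_pow, Nat.one_mod]
  -- the group
  obtain ⟨f, a, ha, hf⟩ := exists_traces_L32 hM.core hQ e
  obtain ⟨e⟩ := e
  have hne : a ≠ -1 - a := fun h' => by
    have h7 : ((7 : ℕ) : F₀) = 0 := by
      rw [Nat.cast_ofNat]
      linear_combination 4 * ha - (2 * a + 1) * h'
    have := (Nat.prime_dvd_prime_iff_eq hpr (by norm_num)).1 ((CharP.cast_eq_zero_iff F₀ p 7).1 h7)
    exact hp7 (by rw [this])
  let ι : GL (Fin 3) F₀ →* GL (Fin 3) F := Matrix.GeneralLinearGroup.map F₀.subtype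
  have hι : Function.Injective ι := fun x y hxy => Units.ext (Matrix.ext fun i j =>
    F₀.subtype.injective
      (congrArg (fun g : GL (Fin 3) F => (g : Matrix (Fin 3) (Fin 3) F) i j) hxy))
  have hιtr : ∀ x : GL (Fin 3) F₀,
      trace (ι x : Matrix (Fin 3) (Fin 3) F) = F₀.subtype (trace (x : Matrix (Fin 3) (Fin 3) F₀)) :=
    fun x => (AddMonoidHom.map_trace F₀.subtype (x : Matrix (Fin 3) (Fin 3) F₀)).symm
  let j : P₀ ≃* P := (P₀.equivMapOfInjective ι hι).trans (MulEquiv.subgroupCongr hM.eq.symm)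
  have hj : ∀ x : P₀, ((j x : P) : GL (Fin 3) F) = ι x := fun x => rfl
  have hin : ∀ h ∈ G, ∃ x : P, ((x : GL (Fin 3) F))⁻¹ * h ∈ scalars (Fin 3) F := by
    intro h hh
    let cj : P →* P :=
      { toFun := fun g => ⟨h * g * h⁻¹, hA.normal h hh g g.2⟩
        map_one' := Subtype.ext (by simp)
        map_mul' := fun a b => Subtype.ext (by simp [mul_assoc]) }
    let e' : P ≃* SevenFive.S7 := j.symm.trans f
    let φ : SevenFive.S7 →* SevenFive.S7 := e'.toMonoidHom.comp (cj.comp e'.symm.toMonoidHom)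
    have htr : ∀ x : P, F₀.subtype (l32Tr a (e' x)) = trace (x : GL (Fin 3) F).val := by
      intro x
      show F₀.subtype (l32Tr a (f (j.symm x))) = _
      rw [← hf, ← hιtr, ← hj, MulEquiv.apply_symm_apply]
    obtain ⟨k, hk⟩ := SevenFive.inner_of_l32Tr hne φ
      (by
        intro u v huv
        have h1 : cj (e'.symm u) = cj (e'.symm v) := e'.injective huv
        exact e'.symm.injective (Subtype.ext (by simpa [cj] using congrArg Subtype.val h1)))
      (fun g => F₀.subtype.injective (by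
        obtain ⟨x, rfl⟩ := e'.surjective g
        show F₀.subtype (l32Tr a (e' (cj (e'.symm (e' x))))) = _
        rw [htr, htr, MulEquiv.symm_apply_apply]
        show trace ((h * _ * h⁻¹ : GL (Fin 3) F) : Matrix (Fin 3) (Fin 3) F) = _
        rw [Units.val_mul, Units.val_mul, Matrix.trace_mul_cycle, ← Units.val_mul, inv_mul_cancel,
          Units.val_one, one_mul]))
    refine ⟨e'.symm k, hA.cent _ (mul_mem (inv_mem (hA.le (e'.symm k).2)) hh) fun g hg => ?_⟩
    have h1 : cj ⟨g, hg⟩ = e'.symm k * ⟨g, hg⟩ * (e'.symm k)⁻¹ := e'.injective (by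
      rw [map_mul, map_mul, map_inv, MulEquiv.apply_symm_apply, ← hk]
      show e' (cj ⟨g, hg⟩) = e' (cj (e'.symm (e' ⟨g, hg⟩)))
      rw [MulEquiv.symm_apply_apply])
    have h2 : h * g * h⁻¹ = (e'.symm k : GL (Fin 3) F) * g * (e'.symm k : GL (Fin 3) F)⁻¹ :=
      congrArg Subtype.val h1
    convert one_mem (scalars (Fin 3) F) using 1
    calc _ = (e'.symm k : GL (Fin 3) F)⁻¹ * (h * g * h⁻¹) * (e'.symm k : GL (Fin 3) F) * g⁻¹ := by
          simp [mul_assoc]
      _ = 1 := by rw [h2]; simp [mul_assoc]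
  let θ : P →* GBar G := (QuotientGroup.mk' _).comp (Subgroup.inclusion hA.le)
  have hθinj : Function.Injective θ := by
    refine (injective_iff_map_eq_one θ).2 fun x hx => ?_
    obtain ⟨x₀, rfl⟩ := j.surjective x
    have hs : ι x₀ ∈ scalars (Fin 3) F :=
      Subgroup.mem_subgroupOf.1 ((QuotientGroup.eq_one_iff (Subgroup.inclusion hA.le (j x₀))).1 hx)
    obtain ⟨r, hr⟩ := hM.core.absIrred.2 ((x₀ : GL (Fin 3) F₀) : Matrix (Fin 3) (Fin 3) F₀)
      fun y hy => by
        obtain ⟨g, -, rfl⟩ := hy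
        exact congrArg Units.val (show (x₀ : GL (Fin 3) F₀) * g = g * x₀ from
          hι (by rw [map_mul, map_mul]; exact CfsgLib.SmallDim.scalars_commute hs (ι g)))
    have hr0 : r ≠ 0 := by
      rintro rfl
      exact (x₀ : GL (Fin 3) F₀).isUnit.ne_zero (by rw [hr, zero_smul])
    have h0 : x₀ = 1 := Seven.scalars_trivial hM.core e x₀
      (Subgroup.mem_subgroupOf.2 ((mem_scalars_iff _).2 ⟨Units.mk0 r hr0, hr⟩))
    rw [h0, map_one]
  have hθsurj : Function.Surjective θ := by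
    intro z
    obtain ⟨⟨h, hh⟩, rfl⟩ := QuotientGroup.mk'_surjective _ z
    obtain ⟨x, hx⟩ := hin h hh
    exact ⟨x, QuotientGroup.eq.2 hx⟩
  have hN : (scalars (Fin 3) F₀).subgroupOf P₀ = ⊥ :=
    (Subgroup.eq_bot_iff_forall _).2 fun z hz => Seven.scalars_trivial hM.core e z hz
  have : Fact (Nat.Prime 7) := ⟨by norm_num⟩
  obtain ⟨e7⟩ := Cfsg.Agent.S0255.result (F := ZMod 7) (K := ZMod 2) (ZMod.card 7) (ZMod.card 2)
  exact ⟨ZMod 7, inferInstance, inferInstance, ZMod.card 7,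
    ⟨(((MulEquiv.ofBijective θ ⟨hθinj, hθsurj⟩).symm.trans j.symm).trans
      (((QuotientGroup.quotientMulEquivOfEq hN).trans QuotientGroup.quotientBot).symm.trans e)).trans
      e7.symm⟩⟩

end CfsgLib.SLThreeSubgroups
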