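import Cfsg.Agent.Lib.SLThreeSubgroups.Defs

/-!
# Almost simple groups over a subfield: index one or three

The elements are scalar multiples of matrices over the subfield, so the group modulo scalars is the socle
or an extension of index three by an element whose determinant is not a cube.
-/

set_option autoImplicit false
set_option linter.style.haveILetI false

namespace CfsgLib.SLThreeSubgroups

open Cfsg.Geo CfsgLib.SLThreeResidual Matrix
open scoped MatrixGroups

variable {F : Type*} [Field F] {G P : Subgroup (GL (Fin 3) F)} {F₀ : Subfield F}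
  {P₀ : Subgroup (GL (Fin 3) F₀)}

/-- A matrix over the subfield, seen over the whole field. -/
abbrev up (F₀ : Subfield F) : GL (Fin 3) F₀ →* GL (Fin 3) F :=
  Matrix.GeneralLinearGroup.map F₀.subtype

lemma val_up (g : GL (Fin 3) F₀) :
    (up F₀ g : Matrix (Fin 3) (Fin 3) F) = (g : Matrix (Fin 3) (Fin 3) F₀).map F₀.subtype := rfl

lemma up_injective : Function.Injective (up F₀) := fun g g' h => Units.ext <|
  Matrix.map_injective F₀.subtype.injective (congrArg Units.val h)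

lemma det_up (g : GL (Fin 3) F₀) :
    (up F₀ g : Matrix (Fin 3) (Fin 3) F).det = ((g : Matrix (Fin 3) (Fin 3) F₀).det : F) :=
  (RingHom.map_det F₀.subtype _).symm

/-- A group acting absolutely irreducibly has scalar centre. -/
lemma center_eq_scalars {K : Type*} [Field K] {Q : Subgroup (GL (Fin 3) K)}
    (hQ : ActsAbsolutelyIrreducibly (matrixSet Q)) :
    Subgroup.center Q = (scalars (Fin 3) K).subgroupOf Q := by
  ext x
  rw [Subgroup.mem_center_iff, Subgroup.mem_subgroupOf, mem_scalars_iff]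
  constructor
  · intro h
    obtain ⟨c, hc⟩ := hQ.2 (x : GL (Fin 3) K).val (by
      rintro _ ⟨y, hy, rfl⟩
      exact (congrArg (fun z : Q => ((z : GL (Fin 3) K) : Matrix (Fin 3) (Fin 3) K)) (h ⟨y, hy⟩)).symm)
    refine ⟨Units.mk0 c ?_, hc⟩
    rintro rfl
    exact Units.ne_zero (x : GL (Fin 3) K) (by rw [hc, zero_smul])
  · rintro ⟨c, hc⟩ y
    apply Subtype.ext
    apply Units.ext
    simp [hc]

/-- `P₀` modulo scalars from an isomorphic group modulo its centre. -/
theorem proj_equiv_of_iso {K : Type*} [Field K] {Q : Subgroup (GL (Fin 3) K)} (hQ : Core Q)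
    {S : Type*} [Group S] (e : S ≃* Q) : Nonempty (Proj Q ≃* S ⧸ Subgroup.center S) := by
  refine ⟨QuotientGroup.congr _ _ e.symm ?_⟩
  rw [← center_eq_scalars hQ.absIrred]
  ext x
  simp only [Subgroup.mem_map, Subgroup.mem_center_iff]
  constructor
  · rintro ⟨y, hy, rfl⟩ z
    obtain ⟨w, rfl⟩ := e.symm.surjective z
    exact (map_mul e.symm w y).symm.trans ((congrArg e.symm (hy w)).trans (map_mul e.symm y w))
  · intro h
    exact ⟨e x, fun z => by
      obtain ⟨w, rfl⟩ := e.surjective z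
      rw [← map_mul, ← map_mul, h], e.symm_apply_apply x⟩

/-- The image of the socle preimage. -/
abbrev socleBar (G P : Subgroup (GL (Fin 3) F)) : Subgroup (GBar G) :=
  (P.subgroupOf G).map (QuotientGroup.mk' _)

lemma mem_socleBar_iff (hA : Almost G P) (hM : Model P F₀ P₀) (h : G) :
    (QuotientGroup.mk h : GBar G) ∈ socleBar G P ↔
      ∃ x ∈ P₀, (h : GL (Fin 3) F)⁻¹ * up F₀ x ∈ scalars (Fin 3) F := by
  constructor
  · rintro ⟨y, hy, hyh⟩
    replace hy : (y : GL (Fin 3) F) ∈ P := hy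
    rw [hM.eq] at hy
    obtain ⟨x, hx, hxy⟩ := hy
    refine ⟨x, hx, ?_⟩
    have h1 := QuotientGroup.eq.mp hyh.symm
    rw [Subgroup.mem_subgroupOf, Subgroup.coe_mul, Subgroup.coe_inv, ← hxy] at h1
    exact h1
  · rintro ⟨x, hx, hh⟩
    have hxP : up F₀ x ∈ P := by rw [hM.eq]; exact Subgroup.mem_map_of_mem _ hx
    exact ⟨⟨_, hA.le hxP⟩, hxP, (QuotientGroup.eq (a := h).mpr hh).symm⟩

lemma socleBar_normal (hA : Almost G P) : (socleBar G P).Normal := by
  haveI : (P.subgroupOf G).Normal := ⟨fun x hx g => hA.normal g g.2 x hx⟩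
  exact Subgroup.Normal.map ‹_› _ (QuotientGroup.mk'_surjective _)

/-- The socle modulo scalars is the group over the subfield modulo scalars. -/
theorem proj_equiv_socleBar (hA : Almost G P) (hM : Model P F₀ P₀) :
    Nonempty (Proj P₀ ≃* socleBar G P) := by
  have hle : ∀ x : P₀, up F₀ x ∈ G := fun x => hA.le (by
    rw [hM.eq]; exact Subgroup.mem_map_of_mem _ x.2)
  let ψ : P₀ →* GBar G :=
    (QuotientGroup.mk' _).comp (((up F₀).comp P₀.subtype).codRestrict G hle)
  have hker : ψ.ker = (scalars (Fin 3) F₀).subgroupOf P₀ := by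
    ext x
    rw [MonoidHom.mem_ker]
    show (QuotientGroup.mk (⟨up F₀ x, hle x⟩ : G) : GBar G) = 1 ↔ _
    rw [QuotientGroup.eq_one_iff, Subgroup.mem_subgroupOf, Subgroup.mem_subgroupOf]
    show up F₀ (x : GL (Fin 3) F₀) ∈ _ ↔ _
    constructor
    · intro hx
      obtain ⟨c, hc⟩ := (mem_scalars_iff _).mp hx
      refine (mem_scalars_iff _).mpr ⟨Units.mk0 ((x : GL (Fin 3) F₀).val 0 0) ?_, ?_⟩
      · intro h0
        have h1 := congrFun (congrFun hc 0) 0
        rw [val_up, Matrix.map_apply, h0, map_zero, Matrix.smul_apply, Matrix.one_apply_eq,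
          smul_eq_mul, mul_one] at h1
        exact c.ne_zero h1.symm
      · ext i j
        have h1 := congrFun (congrFun hc i) j
        have h2 := congrFun (congrFun hc 0) 0
        simp only [val_up, Matrix.map_apply, Matrix.smul_apply, Matrix.one_apply, smul_eq_mul,
          Subfield.subtype_apply] at h1 h2
        simp only [Units.val_mk0, Matrix.smul_apply, Matrix.one_apply, smul_eq_mul]
        by_cases hij : i = j <;> simp_all
    · intro hx
      obtain ⟨c, hc⟩ := (mem_scalars_iff _).mp hx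
      refine (mem_scalars_iff _).mpr ⟨Units.map (F₀.subtype : F₀ →* F) c, ?_⟩
      rw [val_up, hc]
      ext i j
      by_cases hij : i = j <;> simp [hij]
  have hrange : ψ.range = socleBar G P := by
    ext y
    obtain ⟨h, rfl⟩ := QuotientGroup.mk_surjective y
    rw [mem_socleBar_iff hA hM]
    constructor
    · rintro ⟨x, hx⟩
      have h1 : (QuotientGroup.mk h : GBar G) = QuotientGroup.mk ⟨up F₀ x, hle x⟩ := hx.symm
      have h2 := QuotientGroup.eq.mp h1
      exact ⟨x, x.2, h2⟩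
    · rintro ⟨x, hx, hh⟩
      exact ⟨⟨x, hx⟩, (QuotientGroup.eq (a := h).mpr hh).symm⟩
  exact ⟨((QuotientGroup.quotientMulEquivOfEq hker.symm).trans (QuotientGroup.quotientKerEquivRange ψ)).trans
    (MulEquiv.subgroupCongr hrange)⟩

/-- Either all elements lie in the socle, or some determinant is not a cube and the index is three. -/
theorem split [Fintype F] (hA : Almost G P) (hM : Model P F₀ P₀)
    (N : Subgroup (GL (Fin 3) F₀)) (D : Subgroup F₀ˣ)
    (hscal : ∀ b ∈ D, Units.map (Matrix.scalar (Fin 3) : F₀ →+* _).toMonoidHom b ∈ N)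
    (hdet : ∀ g ∈ N, Matrix.GeneralLinearGroup.det g ∈ D)
    (hN : N ⊓ specialLinear (Fin 3) F₀ ≤ P₀)
    (hroot : 3 ∣ Nat.card D → ∀ b : F₀ˣ, b ^ 3 ∈ D → b ∈ D)
    (hdec : ∀ h ∈ G, ∃ g ∈ N, ∃ c : F,
      (h : Matrix (Fin 3) (Fin 3) F) = c • (up F₀ g : Matrix (Fin 3) (Fin 3) F)) :
    Nonempty (GBar G ≃* Proj P₀) ∨
      (3 ∣ Nat.card D ∧ (∃ a : F₀, (¬ ∃ b : F₀, b ^ 3 = a) ∧ ∃ c : F, c ^ 3 = (a : F)) ∧
        ∃ L : Subgroup (GBar G), L.index = 3 ∧ Nonempty (L ≃* Proj P₀)) := by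
  classical
  haveI : Finite F₀ := Subtype.finite
  have hscal_val : ∀ b : F₀ˣ, ((Units.map (Matrix.scalar (Fin 3) : F₀ →+* _).toMonoidHom b : GL (Fin 3) F₀) :
      Matrix (Fin 3) (Fin 3) F₀) = (b : F₀) • 1 := fun b => by simp [Matrix.smul_one_eq_diagonal]
  have hin : ∀ (h : G) (g : GL (Fin 3) F₀) (c : F), g ∈ N →
      (h : GL (Fin 3) F).val = c • (up F₀ g).val →
      (∃ b ∈ D, b ^ 3 = Matrix.GeneralLinearGroup.det g) →
      (QuotientGroup.mk h : GBar G) ∈ socleBar G P := by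
    rintro h g c hg hc ⟨b, hb, hbg⟩
    set z : GL (Fin 3) F₀ := Units.map (Matrix.scalar (Fin 3) : F₀ →+* _).toMonoidHom b with hz
    have hzdet : (z : Matrix (Fin 3) (Fin 3) F₀).det = ((b ^ 3 : F₀ˣ) : F₀) := by
      rw [hscal_val, Matrix.det_smul, Matrix.det_one, mul_one, Fintype.card_fin, Units.val_pow_eq_pow_val]
    have hg' : z⁻¹ * g ∈ P₀ := hN (Subgroup.mem_inf.mpr ⟨mul_mem (Subgroup.inv_mem N (hscal b hb)) hg, by
      show Matrix.GeneralLinearGroup.det (z⁻¹ * g) = 1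
      rw [map_mul, map_inv, ← hbg, inv_mul_eq_one]
      exact Units.ext hzdet⟩)
    refine (mem_socleBar_iff hA hM h).mpr ⟨_, hg', ?_⟩
    have hc0 : c ≠ 0 := by
      rintro rfl
      exact Units.ne_zero (h : GL (Fin 3) F) (by rw [hc, zero_smul])
    have hb0 : ((b : F₀) : F) ≠ 0 := fun e => b.ne_zero (Subtype.ext e)
    have key : (h : GL (Fin 3) F) = up F₀ (z⁻¹ * g) *
        Units.map (Matrix.scalar (Fin 3) : F →+* _).toMonoidHom (Units.mk0 (c * (b : F₀)) (mul_ne_zero hc0 hb0)) := by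
      have hg_eq : g = z * (z⁻¹ * g) := by group
      apply Units.ext
      rw [hc]
      conv_lhs => rw [hg_eq]
      rw [map_mul, Units.val_mul, Units.val_mul, val_up z, hscal_val]
      ext i j
      simp [Matrix.mul_apply, Matrix.one_apply, Matrix.diagonal, Finset.sum_ite_eq, mul_comm, mul_assoc,
        Matrix.map_apply, apply_ite]
    rw [key, _root_.mul_inv_rev, mul_assoc, inv_mul_cancel, mul_one]
    exact inv_mem ⟨_, rfl⟩
  have hout : ∀ (h : G) (g : GL (Fin 3) F₀) (c : F),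
      (h : GL (Fin 3) F).val = c • (up F₀ g).val →
      (QuotientGroup.mk h : GBar G) ∈ socleBar G P → ∃ b : F₀ˣ, b ^ 3 = Matrix.GeneralLinearGroup.det g := by
    intro h g c hc hh
    obtain ⟨x, hx, hs⟩ := (mem_socleBar_iff hA hM h).mp hh
    obtain ⟨d, hd⟩ := (mem_scalars_iff _).mp hs
    have hxv : (up F₀ x).val = ((d : F) * c) • (up F₀ g).val := by
      have h1 : up F₀ x = (h : GL (Fin 3) F) * ((h : GL (Fin 3) F)⁻¹ * up F₀ x) := by group
      rw [h1, Units.val_mul, hd, Matrix.mul_smul, Matrix.mul_one, hc, smul_smul]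
    obtain ⟨i, j, hij⟩ : ∃ i j, (g : Matrix (Fin 3) (Fin 3) F₀) i j ≠ 0 := by
      by_contra hall
      push Not at hall
      exact Units.ne_zero g (Matrix.ext hall)
    have he : ((d : F) * c) = (((x : Matrix (Fin 3) (Fin 3) F₀) i j / (g : Matrix (Fin 3) (Fin 3) F₀) i j : F₀) : F) := by
      have h1 := congrFun (congrFun hxv i) j
      simp only [val_up, Matrix.map_apply, Matrix.smul_apply, smul_eq_mul, Subfield.subtype_apply] at h1
      rw [Subfield.coe_div, eq_div_iff (fun e => hij (Subtype.ext e))]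
      exact h1.symm
    set e : F₀ := (x : Matrix (Fin 3) (Fin 3) F₀) i j / (g : Matrix (Fin 3) (Fin 3) F₀) i j
    have hxe : (x : Matrix (Fin 3) (Fin 3) F₀) = e • (g : Matrix (Fin 3) (Fin 3) F₀) := by
      apply Matrix.map_injective F₀.subtype.injective
      show (x : Matrix (Fin 3) (Fin 3) F₀).map F₀.subtype = _
      rw [← val_up x, hxv, he]
      ext a b
      simp
    have hdet1 : (1 : F₀) = e ^ 3 * (g : Matrix (Fin 3) (Fin 3) F₀).det := by
      rw [← (CfsgLib.Geometric.mem_specialLinear_iff x).mp (hM.core.le_sl hx), hxe, Matrix.det_smul,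
        Fintype.card_fin]
    have he0 : e ≠ 0 := fun e0 => by simp [e0] at hdet1
    refine ⟨(Units.mk0 e he0)⁻¹, Units.ext ?_⟩
    rw [Units.val_pow_eq_pow_val, Units.val_inv_eq_inv_val, Units.val_mk0,
      CfsgLib.Geometric.coe_det_eq, inv_pow]
    exact inv_eq_of_mul_eq_one_right hdet1.symm
  obtain ⟨e⟩ := proj_equiv_socleBar hA hM
  by_cases hall : ∀ h : G, (QuotientGroup.mk h : GBar G) ∈ socleBar G P
  · left
    have htop : socleBar G P = ⊤ := eq_top_iff.mpr fun y _ => by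
      obtain ⟨h, rfl⟩ := QuotientGroup.mk_surjective y
      exact hall h
    exact ⟨(Subgroup.topEquiv.symm.trans (MulEquiv.subgroupCongr htop.symm)).trans e.symm⟩
  right
  push Not at hall
  obtain ⟨h₁, hh₁⟩ := hall
  obtain ⟨g₁, hg₁, c₁, hc₁⟩ := hdec _ h₁.2
  set a : D := ⟨Matrix.GeneralLinearGroup.det g₁, hdet _ hg₁⟩
  set T : Subgroup D := (powMonoidHom 3 : D →* D).range
  have hmemT : ∀ (h : G) (g : GL (Fin 3) F₀) (c : F) (hg : g ∈ N),
      (h : GL (Fin 3) F).val = c • (up F₀ g).val →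
      (⟨Matrix.GeneralLinearGroup.det g, hdet _ hg⟩ : D) ∈ T →
      (QuotientGroup.mk h : GBar G) ∈ socleBar G P := by
    rintro h g c hg hc ⟨b, hb⟩
    exact hin h g c hg hc ⟨b, b.2, congrArg Subtype.val hb⟩
  have haT : a ∉ T := fun ha => hh₁ (hmemT h₁ g₁ c₁ hg₁ hc₁ ha)
  have hTi : T.index = (Nat.card D).gcd 3 := IsCyclic.index_powMonoidHom_range (G := D) 3
  have h3 : 3 ∣ Nat.card D := by
    by_contra h3
    have h1 : (Nat.card D).gcd 3 = 1 :=
      Nat.Coprime.symm ((Nat.Prime.coprime_iff_not_dvd Nat.prime_three).mpr h3)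
    rw [h1, Subgroup.index_eq_one] at hTi
    exact haT (hTi ▸ Subgroup.mem_top a)
  have hncube : ¬ ∃ b : F₀ˣ, b ^ 3 = Matrix.GeneralLinearGroup.det g₁ := by
    rintro ⟨b, hb⟩
    exact haT ⟨⟨b, hroot h3 b (hb ▸ a.2)⟩, Subtype.ext hb⟩
  refine ⟨h3, ⟨(((Matrix.GeneralLinearGroup.det g₁)⁻¹ : F₀ˣ) : F₀), ?_, c₁, ?_⟩,
    socleBar G P, ?_, ⟨e.symm⟩⟩
  · rintro ⟨b, hb⟩
    have hb0 : b ≠ 0 := fun e0 => by
      rw [e0, zero_pow three_ne_zero] at hb
      exact Units.ne_zero _ hb.symm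
    refine hncube ⟨(Units.mk0 b hb0)⁻¹, ?_⟩
    rw [inv_pow, inv_eq_iff_eq_inv]
    exact Units.ext (by simpa using hb)
  · have h1 := congrArg Matrix.det hc₁
    rw [(CfsgLib.Geometric.mem_specialLinear_iff _).mp (hA.le_sl h₁.2), Matrix.det_smul, Fintype.card_fin,
      det_up] at h1
    rw [Units.val_inv_eq_inv_val, CfsgLib.Geometric.coe_det_eq, Subfield.coe_inv]
    exact eq_inv_of_mul_eq_one_left h1.symm
  · haveI := socleBar_normal hA
    set L := socleBar G P
    have hcardT : Nat.card (D ⧸ T) = 3 := by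
      rw [← Subgroup.index_eq_card, hTi]
      exact Nat.gcd_eq_right h3
    set y : GBar G ⧸ L := QuotientGroup.mk (QuotientGroup.mk h₁)
    have hy1 : y ≠ 1 := fun e1 => hh₁ ((QuotientGroup.eq_one_iff _).mp e1)
    have hy3 : y ^ 3 = 1 := by
      rw [← QuotientGroup.mk_pow, QuotientGroup.eq_one_iff, ← QuotientGroup.mk_pow]
      refine hin (h₁ ^ 3) (g₁ ^ 3) (c₁ ^ 3) (pow_mem hg₁ 3) ?_ ⟨_, hdet _ hg₁, (map_pow _ g₁ 3).symm⟩
      rw [map_pow, Subgroup.coe_pow, Units.val_pow_eq_pow_val, Units.val_pow_eq_pow_val, hc₁, smul_pow]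
    have hgen : ∀ w : GBar G ⧸ L, w ∈ Subgroup.zpowers y := by
      intro w
      obtain ⟨x, rfl⟩ := QuotientGroup.mk_surjective w
      obtain ⟨h, rfl⟩ := QuotientGroup.mk_surjective x
      obtain ⟨g, hg, c, hc⟩ := hdec _ h.2
      set d : D := ⟨Matrix.GeneralLinearGroup.det g, hdet _ hg⟩
      haveI : Fact (Nat.Prime 3) := ⟨Nat.prime_three⟩
      have haq : (QuotientGroup.mk a : D ⧸ T) ≠ 1 := fun e1 => haT ((QuotientGroup.eq_one_iff a).mp e1)
      obtain ⟨k, hk⟩ : ∃ k : ℕ, (QuotientGroup.mk a : D ⧸ T) ^ k = (QuotientGroup.mk d)⁻¹ :=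
        (mem_powers_of_prime_card hcardT haq :
          (QuotientGroup.mk d : D ⧸ T)⁻¹ ∈ Submonoid.powers (QuotientGroup.mk a : D ⧸ T))
      have hdT : d * a ^ k ∈ T := by
        rw [← QuotientGroup.eq_one_iff, QuotientGroup.mk_mul, QuotientGroup.mk_pow, hk, mul_inv_cancel]
      have hmem : (QuotientGroup.mk (h * h₁ ^ k) : GBar G) ∈ L := by
        refine hmemT (h * h₁ ^ k) (g * g₁ ^ k) (c * c₁ ^ k) (mul_mem hg (pow_mem hg₁ k)) ?_ ?_
        · rw [map_mul, map_pow, Subgroup.coe_mul, Subgroup.coe_pow, Units.val_mul, Units.val_mul,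
            Units.val_pow_eq_pow_val, Units.val_pow_eq_pow_val, hc, hc₁, smul_pow, smul_mul_smul_comm]
        · convert hdT using 1
          exact Subtype.ext (by simp [d, a])
      have hw : (QuotientGroup.mk (QuotientGroup.mk h : GBar G) : GBar G ⧸ L) * y ^ k = 1 := by
        rw [← QuotientGroup.mk_pow, ← QuotientGroup.mk_mul, QuotientGroup.eq_one_iff,
          ← QuotientGroup.mk_pow, ← QuotientGroup.mk_mul]
        exact hmem
      rw [eq_inv_of_mul_eq_one_left hw]
      exact inv_mem (pow_mem (Subgroup.mem_zpowers y) k)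
    haveI : Fact (Nat.Prime 3) := ⟨Nat.prime_three⟩
    rw [Subgroup.index_eq_card, ← Subgroup.card_top, ← (Subgroup.eq_top_iff' _).mpr hgen,
      Nat.card_zpowers, orderOf_eq_prime hy3 hy1]

end CfsgLib.SLThreeSubgroups
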