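import Cfsg.Agent.Lib.SLThreeSubgroups.Linear
import Cfsg.Agent.Lib.SmallDim.UnitaryTensor
import Cfsg.Agent.Lib.SmallDim.FormSesqui
import Cfsg.Agent.S0780

/-!
# The unitary case: `PSU₃` over a subfield or its extension of index three
-/

set_option autoImplicit false
set_option linter.style.haveILetI false

namespace CfsgLib.SLThreeSubgroups

open Cfsg.Geo CfsgLib.SLThreeResidual CfsgLib.Geometric CfsgLib.SmallDim Matrix
open scoped MatrixGroups

section Standard

variable {K : Type*} [Field K] [Fintype K] {p : ℕ} [Fact p.Prime] {σ : K ≃+* K}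

/-- A field automorphism of order two of a field of order `p ^ γ` is `x ↦ x ^ (p ^ β)` with `γ = 2 β`. -/
lemma exists_pow_of_involution {γ : ℕ} (hK : Fintype.card K = p ^ γ) (hne : σ ≠ RingEquiv.refl K)
    (hinv : ∀ a, σ (σ a) = a) : ∃ β, γ = 2 * β ∧ ∀ x, σ x = x ^ p ^ β := by
  classical
  haveI : CharP K p := by
    obtain ⟨p', hc⟩ := CharP.exists K
    obtain ⟨n, hp', hn⟩ := FiniteField.card K p'
    rw [hK] at hn
    have hdvd : p ∣ p' := (Fact.out : p.Prime).dvd_of_dvd_pow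
      (hn ▸ dvd_pow_self p (fun e => by
        have := Fintype.one_lt_card (α := K)
        rw [hK, e, pow_zero] at this
        exact lt_irrefl _ this))
    rwa [(Nat.prime_dvd_prime_iff_eq Fact.out hp').mp hdvd]
  letI : Algebra (ZMod p) K := ZMod.algebra K p
  have hfin : Module.finrank (ZMod p) K = γ := by
    have h := Module.card_eq_pow_finrank (K := ZMod p) (V := K)
    rw [hK, ZMod.card] at h
    exact (Nat.pow_right_injective (Fact.out : p.Prime).two_le h).symm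
  let s : K ≃ₐ[ZMod p] K := AlgEquiv.ofRingEquiv (f := σ) fun x =>
    RingHom.congr_fun (Subsingleton.elim ((σ : K →+* K).comp (algebraMap (ZMod p) K))
      (algebraMap (ZMod p) K)) x
  obtain ⟨⟨j, hj⟩, hjs⟩ := (FiniteField.bijective_frobeniusAlgEquivOfAlgebraic_pow (ZMod p) K).2 s
  set Φ := FiniteField.frobeniusAlgEquivOfAlgebraic (ZMod p) K
  replace hjs : Φ ^ j = s := hjs
  have hpow : ∀ x, σ x = x ^ p ^ j := fun x => by
    have h1 : (Φ ^ j) x = σ x := by rw [hjs]; rfl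
    rw [← h1, AlgEquiv.coe_pow, FiniteField.coe_frobeniusAlgEquivOfAlgebraic, pow_iterate,
      Fintype.card_eq_nat_card, Nat.card_zmod]
  have h2j : γ ∣ 2 * j := by
    rw [← hfin, ← FiniteField.orderOf_frobeniusAlgEquivOfAlgebraic]
    refine orderOf_dvd_of_pow_eq_one ?_
    rw [mul_comm, pow_mul, hjs, sq]
    exact AlgEquiv.ext hinv
  rw [hfin] at hj
  have hj0 : j ≠ 0 := fun e => hne (RingEquiv.ext fun x => by simp [hpow, e])
  refine ⟨j, ?_, hpow⟩
  obtain ⟨m, hm⟩ := h2j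
  rcases m with _ | _ | m
  · omega
  · omega
  · have : γ * 2 ≤ γ * (m + 1 + 1) := Nat.mul_le_mul_left _ (by omega)
    omega

/-- A unitary form becomes the standard one in suitable coordinates. -/
lemma exists_standard {q : ℕ} (hu : UnitarySetup 3 q σ) {f : (Fin 3 → K) → (Fin 3 → K) → K}
    (hf : IsUnitaryForm σ f) :
    ∃ B : GL (Fin 3) K, ∀ u v, f (ap B u) (ap B v) = Cfsg.hermForm 3 K q u v := by
  have hS := IsSesqui.of_unitary hf
  have hG : ((gramMatrix f).map σ)ᵀ = gramMatrix f := by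
    ext i j
    simp only [Matrix.transpose_apply, Matrix.map_apply, gramMatrix]
    exact (hf.herm _ _).symm
  obtain ⟨A, hA⟩ := exists_orthonormal_matrix σ hf.ne_refl hf.involutive hG
    (hS.isUnit_det_gram σ.surjective hf.nondegenerate).ne_zero
  refine ⟨A, fun u v => ?_⟩
  rw [hu.herm_eq]
  show f ((A : Matrix (Fin 3) (Fin 3) K) *ᵥ u) ((A : Matrix (Fin 3) (Fin 3) K) *ᵥ v) = _
  rw [(hS.transform _).apply_eq u v, hS.gram_transform]
  simp only [RingEquiv.coe_toRingHom, hA, Matrix.one_mulVec]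

end Standard

variable {F : Type*} [Field F] [Fintype F] {G P : Subgroup (GL (Fin 3) F)} {F₀ : Subfield F}
  {P₀ : Subgroup (GL (Fin 3) F₀)} {p α : ℕ}

/-- A subgroup containing all transvections of an invariant unitary form gives the unitary type. -/
theorem isUnitaryType_of_form [Fact p.Prime] (hF : Fintype.card F = p ^ α) (hp : p ≠ 2)
    (hA : Almost G P) (hM : Model P F₀ P₀) (σ : F₀ ≃+* F₀) (f : (Fin 3 → F₀) → (Fin 3 → F₀) → F₀)
    (hu : IsUnitaryForm σ f) (hfix : FixesForm (matrixSet P₀) f) (hall : AllFormTv P₀ f) :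
    IsUnitaryType p α (GBar G) := by
  classical
  haveI : Fintype F₀ := Fintype.ofFinite _
  obtain ⟨γ, hcard, hγ⟩ := exists_card_subfield (F₀ := F₀) hF
  obtain ⟨β, rfl, hpow⟩ := exists_pow_of_involution hcard hu.ne_refl hu.involutive
  set q := p ^ β with hq
  have hcard2 : Fintype.card F₀ = q ^ 2 := by rw [hcard, hq, ← pow_mul, mul_comm]
  have hU : UnitarySetup 3 q σ := by
    obtain ⟨σ', h1, h2⟩ := isUnitaryForm_hermForm 3 q hcard2
    obtain rfl : σ' = σ := RingEquiv.ext fun x => (h1 x).trans (hpow x).symm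
    exact ⟨hcard2, h1, h2⟩
  obtain ⟨B, hB⟩ := exists_standard hU hu
  set N : Subgroup (GL (Fin 3) F₀) := (Cfsg.GU 3 F₀ q).map (MulAut.conj B).toMonoidHom with hN
  have hmemN : ∀ g, g ∈ N ↔ ∀ u v, f (ap g u) (ap g v) = f u v := by
    intro g
    rw [hN, Subgroup.mem_map_equiv, MulAut.conj_symm_apply, mem_GU]
    refine ⟨fun h u v => ?_, fun h u v => ?_⟩
    · have h1 := h (act B⁻¹ u) (act B⁻¹ v)
      rw [← hB, ← hB] at h1
      change f (ap B (ap (B⁻¹ * g * B) (ap B⁻¹ u))) (ap B (ap (B⁻¹ * g * B) (ap B⁻¹ v))) =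
        f (ap B (ap B⁻¹ u)) (ap B (ap B⁻¹ v)) at h1
      simpa only [ap_mul, ap_ap_inv] using h1
    · rw [← hB, ← hB]
      change f (ap B (ap (B⁻¹ * g * B) u)) (ap B (ap (B⁻¹ * g * B) v)) = _
      simp only [ap_mul, ap_ap_inv]
      exact h _ _
  -- the group over a copy of the subfield
  obtain ⟨K, iK, iK', hKc, ⟨e⟩⟩ := exists_type_copy F₀
  have hherm : ∀ u v : Fin 3 → K,
      Cfsg.hermForm 3 F₀ q (e ∘ u) (e ∘ v) = e (Cfsg.hermForm 3 K q u v) := fun u v => by
    simp [Cfsg.hermForm, map_sum]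
  let φ : ↥(Cfsg.SU 3 K q) →* GL (Fin 3) F₀ :=
    (MulAut.conj B).toMonoidHom.comp ((Matrix.GeneralLinearGroup.map e.toRingHom).comp
      (Matrix.SpecialLinearGroup.toGL.comp (Cfsg.SU 3 K q).subtype))
  let m : ↥(Cfsg.SU 3 K q) → GL (Fin 3) F₀ := fun A =>
    Matrix.GeneralLinearGroup.map e.toRingHom (Matrix.SpecialLinearGroup.toGL A.1)
  have hφm : ∀ A, φ A = B * m A * B⁻¹ := fun A => rfl
  have hm : ∀ (A : ↥(Cfsg.SU 3 K q)) (u : Fin 3 → K),
      ap (m A) (e ∘ u) = e ∘ ((A.1 : Matrix (Fin 3) (Fin 3) K) *ᵥ u) := fun A u =>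
    funext fun i => (RingHom.map_mulVec e.toRingHom (A.1 : Matrix (Fin 3) (Fin 3) K) u i).symm
  have hvec : ∀ u : Fin 3 → F₀, ∃ u' : Fin 3 → K, e ∘ u' = u := fun u =>
    ⟨e.symm ∘ u, funext fun i => e.apply_symm_apply _⟩
  have hφ : Function.Injective φ := fun A A' h => by
    rw [hφm, hφm] at h
    have h1 := congrArg Units.val (mul_left_cancel (mul_right_cancel h))
    exact Subtype.ext (Subtype.ext (Matrix.map_injective e.injective h1))
  have hrange : φ.range = N ⊓ specialLinear (Fin 3) F₀ := by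
    refine le_antisymm ?_ fun x hx => ?_
    · rintro _ ⟨A, rfl⟩
      refine Subgroup.mem_inf.mpr ⟨Subgroup.mem_map_of_mem _ (mem_GU.mpr fun u v => ?_),
        (mem_specialLinear_iff _).mpr ?_⟩
      · obtain ⟨u, rfl⟩ := hvec u
        obtain ⟨v, rfl⟩ := hvec v
        change Cfsg.hermForm 3 F₀ q (ap (m A) (e ∘ u)) (ap (m A) (e ∘ v)) = _
        rw [hm, hm, hherm, hherm]
        exact congrArg e (A.2 u v)
      · rw [hφm, Units.val_mul, Units.val_mul, Matrix.det_units_conj]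
        show ((A.1 : Matrix (Fin 3) (Fin 3) K).map e.toRingHom).det = 1
        rw [← RingHom.mapMatrix_apply, ← RingHom.map_det, A.1.2, map_one]
    · obtain ⟨hxN, hxS⟩ := Subgroup.mem_inf.mp hx
      obtain ⟨y, hy, rfl⟩ := hxN
      have hy1 : (y : Matrix (Fin 3) (Fin 3) F₀).det = 1 := by
        have h1 := (mem_specialLinear_iff _).mp hxS
        rwa [MulEquiv.coe_toMonoidHom, MulAut.conj_apply, Units.val_mul, Units.val_mul,
          Matrix.det_units_conj] at h1
      let A : Matrix.SpecialLinearGroup (Fin 3) K :=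
        ⟨(y : Matrix (Fin 3) (Fin 3) F₀).map e.symm.toRingHom, by
          rw [← RingHom.mapMatrix_apply, ← RingHom.map_det, hy1, map_one]⟩
      have hmy : Matrix.GeneralLinearGroup.map e.toRingHom (Matrix.SpecialLinearGroup.toGL A) = y :=
        Units.ext (Matrix.ext fun i j => e.apply_symm_apply _)
      have hA' : A ∈ Cfsg.SU 3 K q := fun u v => e.injective (by
        rw [← hherm, ← hherm]
        have h1 := mem_GU.mp hy (e ∘ u) (e ∘ v)
        rw [← hmy] at h1
        change Cfsg.hermForm 3 F₀ q (_ *ᵥ (e ∘ u)) (_ *ᵥ (e ∘ v)) = _ at h1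
        rw [show (Matrix.GeneralLinearGroup.map e.toRingHom (Matrix.SpecialLinearGroup.toGL A) :
            Matrix (Fin 3) (Fin 3) F₀) = (A : Matrix (Fin 3) (Fin 3) K).map e.toRingHom from rfl] at h1
        exact (congrArg₂ (Cfsg.hermForm 3 F₀ q) (funext (RingHom.map_mulVec e.toRingHom _ u))
          (funext (RingHom.map_mulVec e.toRingHom _ v))).trans h1)
      refine ⟨⟨A, hA'⟩, ?_⟩
      rw [hφm]
      exact congrArg (fun z => B * z * B⁻¹) hmy
  have hqK : Fintype.card K = q ^ 2 := hKc.trans hcard2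
  have hq2 : q ≠ 2 := fun h => hp (Nat.prime_eq_prime_of_dvd_pow Nat.prime_two Fact.out
    (show 2 ∣ p ^ β by rw [← hq, h])).symm
  have hle : N ⊓ specialLinear (Fin 3) F₀ ≤ P₀ := by
    rw [← hrange, MonoidHom.range_eq_map,
      ← Cfsg.Agent.S0780.result hqK 3 le_rfl (fun h => hq2 h.2), MonoidHom.map_closure,
      Subgroup.closure_le]
    rintro _ ⟨A, ⟨v, c, hv, hAv⟩, rfl⟩
    let χ : (Fin 3 → F₀) →ₗ[F₀] F₀ :=
      (e c • hU.sesqui.lf (e ∘ v)).comp (apEquiv B⁻¹).toLinearMap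
    have hχ : χ (ap B (e ∘ v)) = 0 := by
      show e c * Cfsg.hermForm 3 F₀ q (ap B⁻¹ (ap B (e ∘ v))) (e ∘ v) = 0
      rw [ap_inv_ap, hherm, hv, map_zero, mul_zero]
    have htv : φ A = tv (ap B (e ∘ v)) χ hχ := by
      apply CfsgLib.Geometric.gl_ext
      intro x
      obtain ⟨w, hw⟩ := hvec (ap B⁻¹ x)
      rw [hφm, ap_mul, ap_mul, ap_tv, ← hw, hm, hAv]
      have h1 : Cfsg.unitaryTransvection 3 q v c *ᵥ w = w + (c * Cfsg.hermForm 3 K q w v) • v := by
        rw [Cfsg.unitaryTransvection, Matrix.add_mulVec, Matrix.one_mulVec, Matrix.smul_mulVec,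
          Matrix.vecMulVec_mulVec, op_smul_eq_smul, smul_smul]
        simp only [Cfsg.hermForm, dotProduct, mul_comm]
      rw [h1, show e ∘ (w + (c * Cfsg.hermForm 3 K q w v) • v) =
          e ∘ w + (e c * Cfsg.hermForm 3 F₀ q (e ∘ w) (e ∘ v)) • (e ∘ v) by
        rw [hherm]; funext i; simp, ap_add, ap_smul, hw, ap_ap_inv]
      rfl
    have hmem : φ A ∈ N :=
      (Subgroup.mem_inf.mp (hrange.le ⟨A, rfl⟩)).1
    have := hall _ _ hχ (by rw [← htv]; exact (hmemN _).mp hmem)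
    rwa [← htv] at this
  have hPN : P₀ = N ⊓ specialLinear (Fin 3) F₀ := le_antisymm
    (fun x hx => Subgroup.mem_inf.mpr
      ⟨(hmemN x).mpr fun u v => hfix _ ⟨x, hx, rfl⟩ u v, hM.core.le_sl hx⟩) hle
  obtain ⟨eP⟩ := proj_equiv_of_iso hM.core
    ((MonoidHom.ofInjective hφ).trans (MulEquiv.subgroupCongr (hrange.trans hPN.symm)))
  -- the norm one group
  set D : Subgroup F₀ˣ := (powMonoidHom (q + 1)).ker with hD
  have hD' : ∀ b : F₀ˣ, b ∈ D ↔ (b : F₀) * σ b = 1 := fun b => by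
    rw [hD, MonoidHom.mem_ker, powMonoidHom_apply, hpow, pow_succ, Units.ext_iff, Units.val_mul,
      Units.val_pow_eq_pow_val, Units.val_one, mul_comm]
  have hDcard : Nat.card D = q + 1 := by
    rw [hD, IsCyclic.card_powMonoidHom_ker, Nat.card_units, Nat.card_eq_fintype_card, hcard2]
    exact Nat.gcd_eq_right ⟨q - 1, by simpa using Nat.sq_sub_sq q 1⟩
  have hS := IsSesqui.of_unitary hu
  have hscal : ∀ b ∈ D, Units.map (Matrix.scalar (Fin 3) : F₀ →+* _).toMonoidHom b ∈ N := by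
    intro b hb
    refine (hmemN _).mpr fun u v => ?_
    have hsc : ∀ w : Fin 3 → F₀,
        ap (Units.map (Matrix.scalar (Fin 3) : F₀ →+* _).toMonoidHom b : GL (Fin 3) F₀) w = (b : F₀) • w := by
      intro w
      funext i
      simp [ap, Matrix.mulVec_diagonal]
    rw [hsc, hsc, hS.smul_left, hS.smul_right, RingEquiv.coe_toRingHom, ← mul_assoc, (hD' b).mp hb, one_mul]
  have hdet : ∀ g ∈ N, Matrix.GeneralLinearGroup.det g ∈ D := by
    rintro _ ⟨y, hy, rfl⟩
    rw [MulEquiv.coe_toMonoidHom, MulAut.conj_apply, map_mul, map_mul, map_inv, mul_inv_cancel_comm,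
      hD', coe_det_eq]
    have h1 := congrArg Matrix.det (hU.transpose_mul hy)
    rw [Matrix.det_mul, Matrix.det_transpose, Matrix.det_one] at h1
    rw [RingEquiv.map_det]
    exact h1
  have hroot : 3 ∣ Nat.card D → ∀ b : F₀ˣ, b ^ 3 ∈ D → b ∈ D := by
    intro h3 b hb
    rw [hDcard] at h3
    rw [hD, MonoidHom.mem_ker, powMonoidHom_apply] at hb ⊢
    have h1 : (b ^ (q + 1)) ^ 3 = 1 := by rw [← pow_mul, mul_comm, pow_mul, hb]
    have h2 : (b ^ (q + 1)) ^ (q - 1) = 1 := by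
      rw [← pow_mul, show (q + 1) * (q - 1) = q ^ 2 - 1 by simpa using (Nat.sq_sub_sq q 1).symm,
        ← hcard2, ← Fintype.card_units]
      exact pow_card_eq_one
    refine orderOf_eq_one_iff.mp (Nat.dvd_one.mp ?_)
    have hcop : Nat.Coprime 3 (q - 1) := (Nat.Prime.coprime_iff_not_dvd Nat.prime_three).mpr (by omega)
    have h3' := Nat.dvd_gcd (orderOf_dvd_of_pow_eq_one h1) (orderOf_dvd_of_pow_eq_one h2)
    rwa [hcop.gcd_eq_one] at h3'
  have hdec : ∀ h ∈ G, ∃ g ∈ N, ∃ c : F,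
      (h : Matrix (Fin 3) (Fin 3) F) = c • (up F₀ g : Matrix (Fin 3) (Fin 3) F) := by
    intro h hh
    obtain ⟨c, g, hg, hc⟩ := exists_smul_eq hA hM hh
    have hs' : IsSesqui (σ : F₀ →+* F₀) fun u v => f (ap g u) (ap g v) := hS.transform _
    have hfix' : FixesForm (matrixSet P₀) fun u v => f (ap g u) (ap g v) := by
      rintro _ ⟨x, hx, rfl⟩ u v
      show f (ap g (ap x u)) (ap g (ap x v)) = f (ap g u) (ap g v)
      have h1 : ∀ w, ap g (ap x w) = ap (g * x * g⁻¹) (ap g w) := fun w => by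
        rw [← ap_mul, ← ap_mul, inv_mul_cancel_right]
      rw [h1, h1]
      exact hfix _ ⟨_, hg x hx, rfl⟩ _ _
    obtain ⟨l, hl⟩ := form_unique σ.surjective hS hu.nondegenerate hs' hM.core.absIrred
      (fun s hs => isUnit_of_mem_matrixSet hs) hfix hfix'
    set v₀ : Fin 3 → F₀ := Pi.single 0 1
    have hv₀ : v₀ ≠ 0 := fun h0 => by simpa [v₀] using congrFun h0 0
    obtain ⟨w₀, hw₀⟩ := (hu.nondegenerate v₀ hv₀).2
    have hσl : σ l = l := by
      have h1 : σ (l * f w₀ v₀) = l * f v₀ w₀ := by rw [← hl, ← hl]; exact (hu.herm _ _).symm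
      rw [map_mul, ← hu.herm] at h1
      exact mul_right_cancel₀ hw₀ h1
    have hl0 : l ≠ 0 := by
      intro h0
      obtain ⟨w, hw⟩ := (hu.nondegenerate (ap g v₀) (ap_ne_zero g hv₀)).2
      apply hw
      have := hl v₀ (ap g⁻¹ w)
      rwa [ap_ap_inv, h0, zero_mul] at this
    obtain ⟨μ, hμ⟩ := CfsgLib.Forms.exists_norm_eq (σ : F₀ →+* F₀)
      (fun h => hu.ne_refl (RingEquiv.ext fun x => RingHom.congr_fun h x)) hu.involutive l hσl
    have hμ0 : μ ≠ 0 := fun e0 => hl0 (by rw [← hμ, e0, mul_zero])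
    set z : GL (Fin 3) F₀ :=
      Units.map (Matrix.scalar (Fin 3) : F₀ →+* _).toMonoidHom (Units.mk0 μ hμ0)⁻¹ with hz
    have hzv : (z : Matrix (Fin 3) (Fin 3) F₀) = μ⁻¹ • 1 := by simp [hz, Matrix.smul_one_eq_diagonal]
    have hza : ∀ w, ap (z * g) w = μ⁻¹ • ap g w := fun w => by
      rw [ap_mul, ap_def z, hzv, Matrix.smul_mulVec, Matrix.one_mulVec]
    refine ⟨z * g, (hmemN _).mpr fun u v => ?_, c * (μ : F), ?_⟩
    · rw [hza, hza, hS.smul_left, hS.smul_right, hl, map_inv₀, ← mul_assoc, ← mul_assoc, ← mul_inv,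
        ← hμ, mul_comm μ, inv_mul_cancel₀ (hμ ▸ hl0), one_mul]
    · rw [hc, val_up g, val_up (z * g), Units.val_mul, hzv, Matrix.smul_mul, Matrix.one_mul]
      ext i j
      simp only [Matrix.smul_apply, Matrix.map_apply, smul_eq_mul, map_mul, Subfield.subtype_apply,
        map_inv₀]
      have : (μ : F) ≠ 0 := fun e0 => hμ0 (Subtype.ext e0)
      field_simp
  rcases split hA hM N D hscal hdet hle hroot hdec with ⟨⟨eG⟩⟩ | ⟨h3, ⟨a, ha, c, hc⟩, L, hL, ⟨eL⟩⟩
  · exact Or.inl ⟨K, iK, iK', β, hKc.trans hcard, hγ, ⟨eG.trans eP⟩⟩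
  · rw [hDcard] at h3
    have h3' : 3 ∣ p ^ (2 * β) - 1 := by
      rw [mul_comm, pow_mul, ← hq, show q ^ 2 - 1 = (q + 1) * (q - 1) by simpa using Nat.sq_sub_sq q 1]
      exact h3.mul_right _
    refine Or.inr ⟨K, iK, iK', β, hKc.trans hcard, h3, ?_, L, hL, ⟨eL.trans eP⟩⟩
    rw [show 6 * β = 3 * (2 * β) by ring]
    exact three_mul_dvd hcard hF h3' ha hc

end CfsgLib.SLThreeSubgroups
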